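import Cfsg.Agent.H9.ChevAx
import Cfsg.Prelude.Def_ChevAutomorphisms

/-!
Fixed points of field automorphisms of Chevalley groups.
-/

set_option autoImplicit false
set_option linter.unusedSectionVars false

namespace Cfsg.Agent.H9.Chev

open Cfsg.Lie Cfsg.Agent.H4 Subgroup

namespace Dat

variable {I Φ : Type} [Fintype I] [DecidableEq I] {l : ℕ} {F : Type*} [Field F] {d : Dat I Φ l F}

/-- the subgroup generated by the root elements with fixed parameter -/
def GK (d : Dat I Φ l F) (σ : F →+* F) : Subgroup (GL I F) :=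
  closure {g | ∃ r t, σ t = t ∧ g = d.x r t}

theorem x_mem_GK {σ : F →+* F} (r : Φ) {t : F} (ht : σ t = t) : d.x r t ∈ d.GK σ :=
  subset_closure ⟨r, t, ht, rfl⟩

theorem n_mem_GK (σ : F →+* F) (p : Fin l) : d.n p ∈ d.GK σ :=
  mul_mem (mul_mem (x_mem_GK _ (by simp)) (x_mem_GK _ (by simp))) (x_mem_GK _ (by simp))

theorem nw_mem_GK (σ : F →+* F) (L : List (Fin l)) : d.nw L ∈ d.GK σ :=
  list_prod_mem fun _ hx => by obtain ⟨p, -, rfl⟩ := List.mem_map.1 hx; exact n_mem_GK σ p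

theorem eq_prod_pc (χ : AddChar (Fin l → ℤ) Fˣ) : χ = ∏ j, pc (co j) (χ (Pi.single j 1)) := by
  ext1 v
  have := map_sum χ.toAddMonoidHom (fun j => Pi.single j (v j)) Finset.univ
  rw [Finset.univ_sum_single] at this
  rw [AddChar.prod_apply, show χ v = _ from congrArg Additive.toMul this, toMul_sum]
  refine Finset.prod_congr rfl fun j _ => ?_
  rw [pc_apply, ← AddChar.map_zsmul_eq_zpow, ← Pi.single_smul]
  simp [co]

theorem pc_sum (f : Fin l → (Fin l → ℤ) →+ ℤ) (c : Fin l → ℤ) (z : Fˣ) :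
    pc (∑ i, c i • f i) z = ∏ i, pc (f i) z ^ c i := by
  ext1 v
  simp only [AddChar.prod_apply, AddChar.zpow_apply, pc_apply, AddMonoidHom.finsetSum_apply,
    AddMonoidHom.smul_apply, ← zpow_mul, smul_eq_mul]
  induction (Finset.univ : Finset (Fin l)) using Finset.induction_on with
  | empty => simp
  | insert a s ha ih => rw [Finset.sum_insert ha, Finset.prod_insert ha, zpow_add, ih, mul_comm (c a)]

namespace Ax

variable (h : d.Ax) {σ : F →+* F}
  (hσ : ∀ r t, Matrix.GeneralLinearGroup.map σ (d.x r t) = d.x r (σ t))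
include h hσ

theorem fix_GK {g : GL I F} (hg : g ∈ d.GK σ) : Matrix.GeneralLinearGroup.map σ g = g :=
  (closure_le (K := (Matrix.GeneralLinearGroup.map σ).eqLocus (MonoidHom.id _))).2
    (by rintro _ ⟨r, t, ht, rfl⟩; exact (hσ r t).trans (by rw [ht]; rfl)) hg

theorem map_US {S : Set Φ} {u : GL I F} (hu : u ∈ d.US S) :
    Matrix.GeneralLinearGroup.map σ u ∈ d.US S :=
  US_le (H := (d.US S).comap (Matrix.GeneralLinearGroup.map σ))
    (fun r hr t => by rw [mem_comap, hσ]; exact x_mem_US hr _) hu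

theorem mem_GK_of_US [Finite Φ] {f : (Fin l → ℤ) →+ ℤ} {S : Set Φ} (hS : d.Up f S) :
    ∀ u ∈ d.US S, Matrix.GeneralLinearGroup.map σ u = u → u ∈ d.GK σ := by
  refine up_ind (P := fun S => ∀ u ∈ d.US S, Matrix.GeneralLinearGroup.map σ u = u → u ∈ d.GK σ)
    ?_ ?_ S hS
  · intro u hu _
    exact US_le (by simp) hu
  intro S r hS hr hmin hup ih u hu hfix
  obtain ⟨t, u', hu', rfl⟩ := h.peel hup (hS r hr).1 hu
  obtain ⟨c, hc⟩ := h.tau_peel (hS r hr).1
  have h1 := hc _ (fun s hs => hmin s hs.1) (by simp) u' hu' t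
  have h2 := hc _ (fun s hs => hmin s hs.1) (by simp) _ (h.map_US hσ hu') (σ t)
  rw [map_mul, hσ] at hfix
  have ht : σ t = t := by rw [← h2, hfix, h1]
  rw [ht, mul_right_inj] at hfix
  exact mul_mem (x_mem_GK r ht) (ih u' hu' hfix)

omit h hσ in
theorem map_D (χ : AddChar (Fin l → ℤ) Fˣ) : Matrix.GeneralLinearGroup.map σ (d.D χ) =
    d.D ((Units.map σ.toMonoidHom).compAddChar χ) := by
  ext a b
  simp [D_val, Matrix.diagonal_apply, apply_ite σ]

theorem fixed_mem_GK [Finite Φ] (B : Fin l → Fin l → ℤ) (hB : ∀ j, co j = ∑ i, B j i • d.pr i)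
    {g : GL I F} (hg : g ∈ d.US Set.univ) (hfix : Matrix.GeneralLinearGroup.map σ g = g) :
    g ∈ d.GK σ := by
  obtain ⟨L, hL⟩ := h.bruhat hg
  obtain ⟨u, hu, t, ⟨χ, rfl⟩, v, hv, rfl⟩ := h.cell_ldu hL
  rw [map_mul, h.fix_GK hσ (nw_mem_GK σ L), mul_left_inj, map_mul, map_mul] at hfix
  obtain ⟨e1, e2, e3⟩ := h.ldu (h.map_US hσ hu) hu (h.map_US hσ hv) hv
    (by rw [map_D]; exact D_mem _) (D_mem χ) hfix
  refine mul_mem (mul_mem (mul_mem (h.mem_GK_of_US hσ (up_pos _) u hu e1) ?_)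
    (h.mem_GK_of_US hσ (up_pos _) v hv e3)) (nw_mem_GK σ L)
  change χ ∈ (d.GK σ).comap d.D
  rw [eq_prod_pc χ]
  refine prod_mem fun j _ => ?_
  have hz : σ (χ (Pi.single j 1)) = χ (Pi.single j 1) := by
    have := congrArg (fun g : GL I F => g.1 (d.e (d.sm j)) (d.e (d.sm j))) e2
    rw [← h.rt_sm]
    simpa [D_val, rt] using this
  generalize χ (Pi.single j 1) = z at hz
  rw [hB, pc_sum]
  refine prod_mem fun i _ => zpow_mem ?_ _
  rw [mem_comap]
  rw [← mul_inv_eq_iff_eq_mul.2 (h.n_gen i z)]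
  exact mul_mem (mul_mem (mul_mem (x_mem_GK _ hz) (x_mem_GK _ (by simp [hz]))) (x_mem_GK _ hz))
    (inv_mem (n_mem_GK σ i))

end Ax

end Dat

namespace Good

variable {D : ChevalleyDatum} {P : Pk} (h : Good D P)
include h

theorem map_x {F F' : Type*} [Field F] [Field F'] (σ : F →+* F') (r : Fin D.nroots) (t : F) :
    Matrix.GeneralLinearGroup.map σ ((h.dat F).x r t) = (h.dat F').x r (σ t) := by
  ext1
  change (D.xMat F r t).map σ = D.xMat F' r (σ t)
  rw [xMat_eq, xMat_eq, SM_map]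

theorem x_mem (F : Type*) [Field F] (r : Fin D.nroots) (t : F) : (h.dat F).x r t ∈ D.group F := by
  rw [h.group_eq]; exact Dat.x_mem_US (Set.mem_univ _) t

theorem x_val (F : Type*) [Field F] (r : Fin D.nroots) (t : F) :
    ((h.dat F).x r t).1 = D.x F r t := by
  rw [ChevalleyDatum.x, dif_pos r.2]; rfl

theorem hom_ext {F : Type*} [Field F] {H : Type*} [Group H] (f g : D.group F →* H)
    (e : ∀ r t, f ⟨_, h.x_mem F r t⟩ = g ⟨_, h.x_mem F r t⟩) : f = g := by
  ext ⟨x, hx⟩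
  induction hx using closure_induction with
  | mem x hx =>
    obtain ⟨r, t, e'⟩ := hx
    obtain rfl : x = (h.dat F).x r t := Units.ext e'
    exact e r t
  | one => exact (map_one f).trans (map_one g).symm
  | mul x y hx hy ihx ihy =>
    exact (map_mul f ⟨x, hx⟩ ⟨y, hy⟩).trans
      ((congrArg₂ (· * ·) ihx ihy).trans (map_mul g ⟨x, hx⟩ ⟨y, hy⟩).symm)
  | inv x hx ih =>
    exact (map_inv f ⟨x, hx⟩).trans ((congrArg (·⁻¹) ih).trans (map_inv g ⟨x, hx⟩).symm)

theorem field_fixed (hn : 0 < D.nroots) (B : Fin D.rank → Fin D.rank → ℤ)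
    (hB : ∀ j k : Fin D.rank, ∑ i, B j i * P.A i k = if j = k then 1 else 0)
    {F : Type*} [Field F] [Fintype F] (φ : MulAut (D.group F)) (hφ : D.IsFieldAut φ) (r : ℕ)
    (ho : orderOf φ = r) :
    ∃ (F₀ : Type) (_ : Field F₀) (_ : Fintype F₀), Fintype.card F = Fintype.card F₀ ^ r ∧
      Nonempty (((MulEquiv.toMonoidHom φ).eqLocus (MonoidHom.id (D.group F))) ≃* (D.group F₀)) := by
  classical
  obtain ⟨σ, hσ⟩ := hφ
  have h1 : ∀ g : D.group F, (φ g : GL D.Idx F) = Matrix.GeneralLinearGroup.map (σ : F →+* F) g := by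
    refine DFunLike.congr_fun (h.hom_ext ((D.group F).subtype.comp φ.toMonoidHom)
      ((Matrix.GeneralLinearGroup.map (σ : F →+* F)).comp (D.group F).subtype) fun r t => ?_)
    exact (Units.ext ((hσ _ r t r.2 (h.x_val F r t)).trans (h.x_val F r _).symm)).trans
      (h.map_x (σ : F →+* F) r t).symm
  have h2 : ∀ n : ℕ, ∀ g : D.group F, ((φ ^ n) g : GL D.Idx F) =
      Matrix.GeneralLinearGroup.map (((σ ^ n : RingAut F) : F ≃+* F) : F →+* F) g := by
    intro n
    induction n with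
    | zero => intro g; ext a b; rfl
    | succ n ih => intro g; rw [pow_succ, MulAut.mul_apply, ih, h1, pow_succ]; ext a b; rfl
  have h3 : orderOf (σ : RingAut F) = r := by
    rw [← ho, orderOf_eq_orderOf_iff]
    refine fun n => ⟨fun e => ?_, fun e => ?_⟩
    · ext g : 2; rw [h2, e]; ext a b; rfl
    · ext t
      obtain ⟨c, hc⟩ := (h.ax F).tau ⟨0, hn⟩
      have := h2 n ⟨_, h.x_mem F ⟨0, hn⟩ t⟩
      rw [e, h.map_x] at this
      rw [← hc ((σ ^ n : RingAut F) t),
        ← show (h.dat F).x ⟨0, hn⟩ t = (h.dat F).x ⟨0, hn⟩ ((σ ^ n : RingAut F) t) from this, hc]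
      rfl
  let K := FixedPoints.subfield (zpowers (σ : RingAut F)) F
  have hK : ∀ t, t ∈ K ↔ σ t = t := fun t =>
    ⟨fun ht => ht ⟨σ, mem_zpowers _⟩, fun ht g =>
      (zpowers_le.2 (show (σ : RingAut F) ∈ MulAction.stabilizer (RingAut F) t from ht)) g.2⟩
  have hc : Fintype.card F = Fintype.card K ^ r := by
    have : Finite (RingAut F) := Finite.of_injective _ (DFunLike.coe_injective (F := F ≃+* F))
    have : Fintype (zpowers (σ : RingAut F)) := Fintype.ofFinite _
    rw [Module.card_eq_pow_finrank (K := K), FixedPoints.finrank_eq_card, 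
      ← Nat.card_eq_fintype_card (α := zpowers _), Nat.card_zpowers, h3]
  let e : Fin (Fintype.card K) ≃ K := (Fintype.equivFin K).symm
  letI := e.field
  let ι : Fin (Fintype.card K) →+* F := K.subtype.comp e.ringEquiv.toRingHom
  have hι : ∀ t, σ t = t ↔ ∃ s, ι s = t := fun t =>
    ⟨fun ht => ⟨e.symm ⟨t, (hK t).2 ht⟩, congrArg Subtype.val (e.apply_symm_apply _)⟩,
      fun ⟨s, hs⟩ => hs ▸ (hK _).1 (e s).2⟩
  have hmap : (D.group (Fin (Fintype.card K))).map (Matrix.GeneralLinearGroup.map ι) =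
      (h.dat F).GK σ := by
    rw [h.group_eq, Dat.US, MonoidHom.map_closure, Dat.GK]
    congr 1
    ext g
    constructor
    · rintro ⟨_, ⟨r, -, t, rfl⟩, rfl⟩
      exact ⟨r, ι t, (hι _).2 ⟨t, rfl⟩, h.map_x ι r t⟩
    · rintro ⟨r, t, ht, rfl⟩
      obtain ⟨s, rfl⟩ := (hι t).1 ht
      exact ⟨_, ⟨r, trivial, s, rfl⟩, h.map_x ι r s⟩
  have hle : (h.dat F).GK σ ≤ D.group F :=
    (closure_le _).2 (by rintro _ ⟨r, t, -, rfl⟩; exact h.x_mem F r t)
  have hinj : Function.Injective (Matrix.GeneralLinearGroup.map (n := D.Idx) ι) := fun a b e =>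
    Units.ext (Matrix.map_injective ι.injective (congrArg Units.val e))
  have heq : (MulEquiv.toMonoidHom φ).eqLocus (MonoidHom.id (D.group F)) =
      ((h.dat F).GK σ).subgroupOf (D.group F) := by
    ext g
    rw [mem_subgroupOf]
    refine ⟨fun hg => (h.ax F).fixed_mem_GK (h.map_x _) B (fun j => ?_) (h.group_eq F ▸ g.2)
      ((h1 g).symm.trans (congrArg _ hg)), fun hg =>
        Subtype.ext ((h1 g).trans ((h.ax F).fix_GK (h.map_x _) hg))⟩
    refine DFunLike.ext _ _ fun v => ?_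
    simp only [co, Pi.evalAddMonoidHom_apply, AddMonoidHom.finsetSum_apply, AddMonoidHom.smul_apply,
      smul_eq_mul, Dat.pr, AddMonoidHom.coe_mk, ZeroHom.coe_mk, Finset.mul_sum, ← mul_assoc]
    rw [Finset.sum_comm]
    simp only [← Finset.sum_mul]
    simp [show ∀ k, ∑ i, B j i * (h.dat F).A i k = _ from hB j]
  refine ⟨Fin (Fintype.card K), inferInstance, inferInstance, by simpa using hc, ⟨?_⟩⟩
  exact (MulEquiv.subgroupCongr heq).trans ((subgroupOfEquivOfLe hle).trans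
    ((MulEquiv.subgroupCongr hmap.symm).trans (equivMapOfInjective _ _ hinj).symm))

end Good

end Cfsg.Agent.H9.Chev
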