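import Cfsg.Agent.H9.ChevFix

/-!
Uniqueness of Bruhat cells, and fixed points of graph automorphisms (folding).
-/

set_option autoImplicit false
set_option linter.unusedSectionVars false

namespace Cfsg.Agent.H9.Chev

open Subgroup

namespace Dat

variable {I Φ : Type} [Fintype I] [DecidableEq I] {l : ℕ} {F : Type*} [Field F] {d : Dat I Φ l F}

theorem nw_append (L L' : List (Fin l)) : d.nw (L ++ L') = d.nw L * d.nw L' := by simp [nw]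

theorem ww_append (L L' : List (Fin l)) (r : Φ) : d.ww (L ++ L') r = d.ww L (d.ww L' r) := by
  simp [ww]

/-- the number of positive roots made negative -/
noncomputable def cnt (d : Dat I Φ l F) (L : List (Fin l)) : ℕ :=
  {r | r ∈ d.Pos (ht l) ∧ d.ww L r ∉ d.Pos (ht l)}.ncard

namespace Ax

variable (h : d.Ax)
include h

theorem x_inj (r : Φ) {t u : F} (e : d.x r t = d.x r u) : t = u := by
  obtain ⟨c, hc⟩ := h.tau r
  rw [← hc t, e, hc]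

theorem mul_of_x_eq {r s : Φ} {t u : F} (h0 : t ≠ 0) (e : d.x r t = d.x s u) :
    ∃ k : ℕ, d.rt r = k • d.rt s := by
  obtain ⟨c, hc⟩ := h.tau r
  obtain ⟨i, -, hi⟩ := Finset.exists_ne_zero_of_sum_ne_zero ((hc t).trans_ne h0)
  have h1 : d.hh i ≠ d.e (d.neg r) := fun e' => h.ht_ne (d.neg r) (by
    rw [rt, ← e', h.gr_hh, map_zero])
  obtain ⟨k, -, hk⟩ := h.supp s u (d.hh i) (d.e (d.neg r)) (by
    rw [← e, Matrix.one_apply_ne h1]; exact right_ne_zero_of_mul hi)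
  refine ⟨k, ?_⟩
  rw [h.gr_hh, show d.gr (d.e (d.neg r)) = -d.rt r from h.rt_neg r] at hk
  exact neg_add_eq_zero.1 hk.symm

theorem root_eq_of_x_eq {r s : Φ} {t u : F} (h0 : t ≠ 0) (e : d.x r t = d.x s u) : r = s := by
  have h1 : u ≠ 0 := by
    rintro rfl
    exact h0 (h.x_inj r (by rw [e, h.x_zero, h.x_zero]))
  obtain ⟨k, hk⟩ := h.mul_of_x_eq h0 e
  obtain ⟨k', hk'⟩ := h.mul_of_x_eq h1 e.symm
  have h2 := congrArg (ht l) hk
  rw [hk', map_nsmul, map_nsmul, smul_smul, nsmul_eq_mul] at h2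
  have h3 : ((k * k' : ℕ) : ℤ) = 1 := mul_right_cancel₀ (h.ht_ne r) (by rw [← h2, one_mul])
  rw [Nat.eq_one_of_mul_eq_one_right (by exact_mod_cast h3 : k * k' = 1), one_smul] at hk
  exact h.rt_inj hk

theorem ww_eq_of_nw {L L' : List (Fin l)} {t : GL I F} (h1 : t ∈ d.T) (e : d.nw L = t * d.nw L')
    (r : Φ) : d.ww L r = d.ww L' r := by
  obtain ⟨χ, rfl⟩ := h1
  obtain ⟨ε, hε, a⟩ := h.nw_conj L r
  obtain ⟨η, -, b⟩ := h.nw_conj L' r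
  have := (a 1).1
  rw [e, mul_assoc, (b 1).1, ← mul_assoc, h.D_x, mul_assoc, mul_left_inj] at this
  exact h.root_eq_of_x_eq (by rcases hε with rfl | rfl <;> simp) this.symm

theorem not_pos_neg {r : Φ} (hr : r ∈ d.Pos (ht l)) : d.neg r ∉ d.Pos (ht l) := by
  simp only [Pos, Set.mem_ofPred_eq, h.rt_neg, map_neg] at hr ⊢
  omega

theorem exists_split (L : List (Fin l)) {r : Φ} (hr : r ∈ d.Pos (ht l)) (hL : d.ww L r ∉ d.Pos (ht l)) :
    ∃ A q C, L = A ++ q :: C ∧ d.ww C r = d.sm q := by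
  induction L with
  | nil => exact absurd hr hL
  | cons q L ih =>
    by_cases h1 : d.ww L r ∈ d.Pos (ht l)
    · refine ⟨[], q, L, rfl, ?_⟩
      by_contra h2
      exact hL (h.w_pos q _ h1 h2)
    · obtain ⟨A, q', C, rfl, e⟩ := ih h1
      exact ⟨q :: A, q', C, rfl, e⟩

theorem del (L : List (Fin l)) (hL : ∀ r ∈ d.Pos (ht l), d.ww L r ∈ d.Pos (ht l)) : d.nw L ∈ d.T := by
  induction hn : L.length using Nat.strong_induction_on generalizing L with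
  | _ n ih =>
    rcases L.eq_nil_or_concat' with rfl | ⟨L', p, rfl⟩
    · exact one_mem _
    have h1 := hL _ (h.sm_pos p)
    rw [ww_append, show d.ww [p] (d.sm p) = _ from h.w_sm p, h.ww_neg] at h1
    obtain ⟨A, q, C, rfl, e⟩ := h.exists_split L' (h.sm_pos p) fun h2 => h.not_pos_neg h2 h1
    obtain ⟨ε, hε, a⟩ := h.nw_conj C (d.sm p)
    rw [e] at a
    have h2 : d.nw C * d.n p = d.x (d.sm q) ε * d.x (d.neg (d.sm q)) (-ε) * d.x (d.sm q) ε * d.nw C := by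
      rw [Dat.n, ← mul_assoc, ← mul_assoc, (a _).1, mul_assoc _ (d.nw C), (a _).2, mul_assoc, mul_assoc,
        (a _).1]
      simp [mul_assoc]
    obtain ⟨t, h3, h4⟩ : ∃ t ∈ d.T, d.n q * (d.nw C * d.n p) = t * d.nw C := by
      rcases hε with rfl | rfl
      · exact ⟨_, h.n_sq q, by rw [h2, ← mul_assoc]; rfl⟩
      · refine ⟨1, one_mem _, ?_⟩
        rw [h2, ← mul_assoc, Dat.n, _root_.neg_neg, ← h.x_inv, ← h.x_inv]; group
    have h5 : d.nw (A ++ q :: C ++ [p]) = d.nw A * t * (d.nw A)⁻¹ * d.nw (A ++ C) := by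
      rw [nw_append, nw_append, nw_append, nw_cons, mul_assoc, mul_assoc,
        show d.nw [p] = d.n p by simp [nw], h4]
      group
    rw [h5]
    refine mul_mem (h.nw_T A h3) (ih _ (by rw [← hn]; simp) _ (fun r hr => ?_) rfl)
    rw [← h.ww_eq_of_nw (h.nw_T A h3) h5]; exact hL r hr

theorem pos_of_ldu {L : List (Fin l)} {u t v : GL I F} (hu : u ∈ d.US (d.Pos (ht l))) (h1 : t ∈ d.T)
    (hv : v ∈ d.US (d.Pos (-ht l))) (e : d.nw L = u * t * v) :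
    ∀ r ∈ d.Pos (ht l), d.ww L r ∈ d.Pos (ht l) := by
  intro r hr
  by_contra hn
  obtain ⟨ε, hε, a⟩ := h.nw_conj L r
  have h2 : d.neg r ∈ d.Pos (-ht l) := by simpa [Pos, h.rt_neg] using hr
  have h3 := (h.ldu (mul_mem (mul_mem (inv_mem hu) (x_mem_US (h.neg_pos hn) (ε * 1))) hu) (one_mem _)
    (one_mem _) (h.T_conj h1 (mul_mem (mul_mem hv (x_mem_US h2 1)) (inv_mem hv))) (one_mem _)
    (one_mem _) (by
      rw [← mul_inv_eq_iff_eq_mul.2 (a 1).2, e]; group)).1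
  rw [mul_assoc, inv_mul_eq_one, right_eq_mul, ← h.x_zero] at h3
  have := h.x_inj _ h3
  rcases hε with rfl | rfl <;> simp at this

theorem nw_rev (L : List (Fin l)) : d.nw L * d.nw L.reverse ∈ d.T := by
  induction L with
  | nil => simp [nw]
  | cons p L ih =>
    convert mul_mem (h.n_T p ih) (h.n_sq p) using 1
    rw [List.reverse_cons, nw_append, nw_cons, show d.nw [p] = d.n p by simp [nw]]; group

theorem cell_uniq [Finite Φ] {L L' : List (Fin l)} {g : GL I F} (h1 : d.Cell L g) (h2 : d.Cell L' g)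
    (r : Φ) : d.ww L' r = d.ww L r := by
  obtain ⟨u, hu, t, h3, b, hb, e⟩ := h2
  have h4 : d.Cell L (d.nw L') := by
    obtain ⟨u', hu', t', h5, b', hb', e'⟩ := h.cell_T (inv_mem h3) (h.cell_U (inv_mem hu) h1)
    exact ⟨u', hu', t', h5, _, mul_mem hb' (inv_mem hb), by rw [← mul_assoc, ← e', e]; group⟩
  obtain ⟨u', hu', t', h5, v, hv, e'⟩ := h.cell_ldu h4
  have h6 := h.del _ (h.pos_of_ldu (L := L' ++ L.reverse) hu' (mul_mem h5 (h.nw_rev L))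
    (h.T_conj (inv_mem (h.nw_rev L)) hv) (by rw [nw_append, e']; group))
  exact h.ww_eq_of_nw (mul_mem h6 (inv_mem (h.nw_rev L))) (by rw [nw_append]; group) r

theorem cnt_lt [Finite Φ] {L : List (Fin l)} {p : Fin l} (hp : d.ww L (d.sm p) ∉ d.Pos (ht l)) :
    d.cnt (L ++ [p]) < d.cnt L := by
  refine lt_of_le_of_lt (Set.ncard_le_ncard_of_injOn (d.w p) ?_ (h.w_inj p).injOn)
    (Set.ncard_sdiff_singleton_lt_of_mem (a := d.sm p) ⟨h.sm_pos p, hp⟩ (Set.toFinite _))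
  rintro r ⟨h1, h2⟩
  rw [ww_append] at h2
  have h3 : r ≠ d.sm p := by
    rintro rfl
    rw [show d.ww [p] (d.sm p) = _ from h.w_sm p, h.ww_neg] at h2
    exact h2 (h.neg_pos hp)
  refine ⟨⟨h.w_pos p r h1 h3, h2⟩, fun e => h.not_pos_neg (h.sm_pos p) ?_⟩
  rwa [← h.w_sm, ← show d.w p r = d.sm p from e, h.w_w]

theorem cnt_le [Finite Φ] (J : List (Fin l)) (hJ : J.Pairwise fun p q => d.w p (d.sm q) = d.sm q)
    {L : List (Fin l)} (hp : ∀ p ∈ J, d.ww L (d.sm p) ∉ d.Pos (ht l)) :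
    d.cnt (L ++ J) + J.length ≤ d.cnt L := by
  induction J generalizing L with
  | nil => simp
  | cons p J ih =>
    have h1 := h.cnt_lt (hp p List.mem_cons_self)
    have h2 := ih (List.Pairwise.of_cons hJ) (L := L ++ [p]) fun q hq => by
      rw [ww_append, show d.ww [p] (d.sm q) = _ from List.rel_of_pairwise_cons hJ hq]
      exact hp q (List.mem_cons_of_mem _ hq)
    simp only [List.append_assoc, List.singleton_append, List.length_cons] at h2 ⊢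
    omega

theorem ww_lin (L : List (Fin l)) :
    ∃ W : (Fin l → ℤ) →+ (Fin l → ℤ), ∀ r, d.rt (d.ww L r) = W (d.rt r) := by
  induction L with
  | nil => exact ⟨AddMonoidHom.id _, fun _ => rfl⟩
  | cons p L ih =>
    obtain ⟨W, hW⟩ := ih
    exact ⟨(d.W p).comp W, fun r => by rw [ww_cons, h.rt_w, hW]; rfl⟩

theorem pos_of_sm (hpos : ∀ r ∈ d.Pos (ht l), ∀ i, 0 ≤ d.rt r i) {L : List (Fin l)}
    (hL : ∀ p, d.ww L (d.sm p) ∈ d.Pos (ht l)) : ∀ r ∈ d.Pos (ht l), d.ww L r ∈ d.Pos (ht l) := by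
  intro r hr
  obtain ⟨W, hW⟩ := h.ww_lin L
  have h1 : ht l (d.rt (d.ww L r)) = ∑ i, d.rt r i * ht l (d.rt (d.ww L (d.sm i))) := by
    rw [hW, ← Finset.univ_sum_single (d.rt r), map_sum, map_sum, Finset.univ_sum_single]
    refine Finset.sum_congr rfl fun i _ => ?_
    rw [hW, h.rt_sm, ← smul_eq_mul, ← map_zsmul, ← map_zsmul, ← Pi.single_smul]; simp
  have h2 : 0 ≤ ht l (d.rt (d.ww L r)) :=
    h1 ▸ Finset.sum_nonneg fun i _ => mul_nonneg (hpos r hr i) (le_of_lt (hL i))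
  exact lt_of_le_of_ne h2 (h.ht_ne _).symm

theorem US_inter {f : (Fin l → ℤ) →+ ℤ} {S S' : Set Φ} {r : Φ} (hr : 0 < f (d.rt r))
    (hS : d.Up f (S \ {r})) (h1 : ∀ s ∈ S, f (d.rt r) ≤ f (d.rt s))
    (h2 : ∀ s ∈ S', f (d.rt r) ≤ f (d.rt s)) (h3 : r ∉ S') {u : GL I F} (hu : u ∈ d.US S)
    (hu' : u ∈ d.US S') : u ∈ d.US (S \ {r}) := by
  obtain ⟨t, u', h4, rfl⟩ := h.peel hS hr hu
  obtain ⟨c, hc⟩ := h.tau_peel hr
  have e1 := hc _ (fun s hs => h1 s hs.1) (by simp) u' h4 t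
  have e2 := hc _ h2 h3 _ hu' 0
  rw [h.x_zero, one_mul, e1] at e2
  rwa [e2, h.x_zero, one_mul]

end Ax

variable {I' Φ' : Type} [Fintype I'] [DecidableEq I'] {l' : ℕ}

structure Fold (d : Dat I Φ l F) (d' : Dat I' Φ' l' F) where
  M : GL I F
  ρ : Φ → Φ
  π : Fin l → Fin l
  E : Matrix I I' F
  E' : Matrix I' I F
  φ : Φ → Φ'
  Y : Φ → F → GL I F
  c : Φ → F
  ex : Fin l' → List (Fin l)

namespace Fold

variable {d' : Dat I' Φ' l' F} (o : Fold d d')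

def Γ : Subgroup (GL I F × GL I' F) := closure {γ | ∃ r t, γ = (o.Y r t, d'.x (o.φ r) (o.c r * t))}

structure Ax : Prop where
  EE : o.E' * o.E = 1
  M_x : ∀ r, ∃ ε : F, ε ≠ 0 ∧ ∀ t, o.M * d.x r t = d.x (o.ρ r) (ε * t) * o.M
  M_n : ∀ p, o.M * d.n p = d.n (o.π p) * o.M
  M_T : ∀ t ∈ d.T, o.M * t * o.M⁻¹ ∈ d.T
  ht_ρ : ∀ r, ht l (d.rt (o.ρ r)) = ht l (d.rt r)
  ρ3 : ∀ r, o.ρ (o.ρ (o.ρ r)) = r
  ht_φ : ∀ r, ht l' (d'.rt (o.φ r)) = ht l (d.rt r)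
  φ_eq : ∀ r s, o.φ r = o.φ s → s = r ∨ s = o.ρ r ∨ s = o.ρ (o.ρ r)
  φ_surj : Function.Surjective o.φ
  c_ne : ∀ r, o.c r ≠ 0
  Y_E : ∀ r t, (o.Y r t).1 * o.E = o.E * (d'.x (o.φ r) (o.c r * t)).1
  Y_zero : ∀ r, o.Y r 0 = 1
  Y_M : ∀ r t, o.M * o.Y r t = o.Y r t * o.M
  Y_eq : ∀ r t, (d.x r t)⁻¹ * o.Y r t ∈ d.US ({o.ρ r, o.ρ (o.ρ r)} \ {r})
  pos : ∀ r ∈ d.Pos (ht l), ∀ i, 0 ≤ d.rt r i
  orb : ∀ p, ∃ q, p ∈ o.ex q ∧ ∀ p' ∈ o.ex q, d.sm p' = d.sm p ∨ d.sm p' = o.ρ (d.sm p) ∨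
    d.sm p' = o.ρ (o.ρ (d.sm p))
  pw : ∀ q, (o.ex q).Pairwise fun p q => d.w p (d.sm q) = d.sm q
  ex_ρ : ∀ q r, d.ww (o.ex q) (o.ρ r) = o.ρ (d.ww (o.ex q) r)
  ex_φ : ∀ q r, o.φ (d.ww (o.ex q) r) = d'.w q (o.φ r)
  ex_Γ : ∀ q, (d.nw (o.ex q), d'.n q) ∈ o.Γ
  T_Γ : ∀ χ : AddChar (Fin l → ℤ) Fˣ, (∀ r, χ (d.rt (o.ρ r)) = χ (d.rt r)) →
    ∃ t' ∈ d'.T, (d.D χ, t') ∈ o.Γ
  E_ne : ∀ p, ∃ b, o.E (d.e (d.sm p)) b ≠ 0

variable {o}

theorem mem_Γ (r : Φ) (t : F) : (o.Y r t, d'.x (o.φ r) (o.c r * t)) ∈ o.Γ := subset_closure ⟨r, t, rfl⟩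

namespace Ax

variable (a : o.Ax) (h : d.Ax) (h' : d'.Ax)
include a h h'

theorem inter {γ : GL I F × GL I' F} (hγ : γ ∈ o.Γ) : γ.1.1 * o.E = o.E * γ.2.1 := by
  induction hγ using closure_induction with
  | mem x hx => obtain ⟨r, t, rfl⟩ := hx; exact a.Y_E r t
  | one => simp
  | mul x y _ _ ihx ihy =>
    simp only [Prod.fst_mul, Prod.snd_mul, Units.val_mul]
    rw [Matrix.mul_assoc, ihy, ← Matrix.mul_assoc, ihx, Matrix.mul_assoc]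
  | inv x _ ih =>
    have : x⁻¹.1.1 * (x.1.1 * o.E) * x⁻¹.2.1 = x⁻¹.1.1 * (o.E * x.2.1) * x⁻¹.2.1 := by rw [ih]
    simpa [← Matrix.mul_assoc, Matrix.mul_assoc _ x.2.1] using this.symm

theorem snd_eq_one {g' : GL I' F} (hγ : (1, g') ∈ o.Γ) : g' = 1 := by
  have := congrArg (o.E' * ·) (a.inter h h' hγ)
  ext1
  simpa [← Matrix.mul_assoc, a.EE] using this.symm

theorem Y_mem (r : Φ) (t : F) {S : Set Φ} (hr : r ∈ S) (hS : ∀ s ∈ S, o.ρ s ∈ S) :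
    (d.x r t)⁻¹ * o.Y r t ∈ d.US (S \ {r}) :=
  US_mono (by rintro s ⟨rfl | rfl, hs⟩; exacts [⟨hS _ hr, hs⟩, ⟨hS _ (hS _ hr), hs⟩]) (a.Y_eq r t)

theorem fst_mem {γ : GL I F × GL I' F} (hγ : γ ∈ o.Γ) :
    γ.1 ∈ d.US Set.univ ∧ o.M * γ.1 * o.M⁻¹ = γ.1 ∧ γ.2 ∈ d'.US Set.univ := by
  induction hγ using closure_induction with
  | mem x hx =>
    obtain ⟨r, t, rfl⟩ := hx
    refine ⟨?_, by rw [a.Y_M, mul_inv_cancel_right], x_mem_US (Set.mem_univ _) _⟩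
    simpa using mul_mem (x_mem_US (Set.mem_univ r) t)
      (US_mono (Set.subset_univ _) (a.Y_eq r t))
  | one => exact ⟨one_mem _, by simp, one_mem _⟩
  | mul x y _ _ ihx ihy =>
    refine ⟨mul_mem ihx.1 ihy.1, ?_, mul_mem ihx.2.2 ihy.2.2⟩
    conv_rhs => rw [Prod.fst_mul, ← ihx.2.1, ← ihy.2.1]
    rw [Prod.fst_mul]; group
  | inv x _ ih =>
    refine ⟨inv_mem ih.1, ?_, inv_mem ih.2.2⟩
    conv_rhs => rw [Prod.fst_inv, ← ih.2.1]
    rw [Prod.fst_inv]; group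

theorem exists_fst {g' : GL I' F} (hg : g' ∈ d'.US Set.univ) : ∃ g, (g, g') ∈ o.Γ := by
  refine h'.US_ind (P := fun g' => ∃ g, (g, g') ∈ o.Γ) ⟨1, one_mem _⟩ ?_ hg
  rintro s - t g' - ⟨g, hg⟩
  obtain ⟨r, rfl⟩ := a.φ_surj s
  have := mul_mem (mem_Γ r ((o.c r)⁻¹ * t)) hg
  rw [mul_inv_cancel_left₀ (a.c_ne r)] at this
  exact ⟨_, this⟩

theorem ρ_inj : Function.Injective o.ρ := Function.LeftInverse.injective (g := o.ρ ∘ o.ρ) a.ρ3

theorem M_US {S S' : Set Φ} (hS : ∀ r ∈ S, o.ρ r ∈ S') {u : GL I F} (hu : u ∈ d.US S) :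
    o.M * u * o.M⁻¹ ∈ d.US S' := conj_US (fun r hr t => by
  obtain ⟨ε, -, hε⟩ := a.M_x r
  rw [hε, mul_inv_cancel_right]; exact x_mem_US (hS r hr) _) hu

theorem fix_US [Finite Φ] {f : (Fin l → ℤ) →+ ℤ} {f' : (Fin l' → ℤ) →+ ℤ}
    (hf : ∀ r, f (d.rt (o.ρ r)) = f (d.rt r)) (hf' : ∀ r, f' (d'.rt (o.φ r)) = f (d.rt r))
    (S : Set Φ) (hS : d.Up f S) (hρ : ∀ r ∈ S, o.ρ r ∈ S) {u : GL I F} (hu : u ∈ d.US S)
    (hfix : o.M * u * o.M⁻¹ = u) : ∃ u' ∈ d'.US (o.φ '' S), (u, u') ∈ o.Γ ∧ (u' = 1 → u = 1) := by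
  induction hn : S.ncard using Nat.strong_induction_on generalizing S u with
  | _ n ih =>
    rcases S.eq_empty_or_nonempty with rfl | hne
    · obtain rfl : u = 1 := US_le (H := ⊥) (by simp) hu
      exact ⟨1, one_mem _, one_mem _, fun _ => rfl⟩
    obtain ⟨r, hr, hmin⟩ := Set.exists_min_image S (fun r => f (d.rt r)) (Set.toFinite S) hne
    have hup : ∀ {S' : Set Φ} {r'}, d.Up f S' → S' ⊆ S → f (d.rt r') = f (d.rt r) →
        d.Up f (S' \ {r'}) := fun hS' hle e s hs => ⟨(hS' s hs.1).1, fun s' hs' =>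
      ⟨(hS' s hs.1).2 s' hs', by
        rintro rfl; exact absurd (e ▸ hmin s (hle hs.1)) (not_le.2 hs')⟩⟩
    have hr0 := (hS r hr).1
    have up1 := hup hS le_rfl rfl
    have up2 := hup up1 Set.sdiff_subset (hf r)
    have up3 := hup up2 (Set.sdiff_subset.trans Set.sdiff_subset) ((hf _).trans (hf r))
    obtain ⟨t, u1, hu1, e1⟩ := h.peel up1 hr0 hu
    have m1 : (o.Y r t)⁻¹ * u ∈ d.US (S \ {r}) := by
      convert mul_mem (inv_mem (a.Y_mem h h' r t hr hρ)) hu1 using 1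
      rw [e1]; group
    have f1 : o.M * ((o.Y r t)⁻¹ * u) * o.M⁻¹ = (o.Y r t)⁻¹ * u := by
      conv_rhs => rw [← hfix, ← mul_inv_eq_iff_eq_mul.2 (a.Y_M r t)]
      group
    have m2 : ∀ {r'}, (o.Y r t)⁻¹ * u ∈ d.US (S \ {r'}) → (o.Y r t)⁻¹ * u ∈ d.US (S \ {o.ρ r'}) :=
      fun hm => f1 ▸ a.M_US h h' (S' := S \ {_})
        (fun s hs => ⟨hρ s hs.1, fun e => hs.2 (a.ρ_inj h h' e)⟩) hm
    have m3 := h.US_inter ((hf r).symm ▸ hr0) up2 (fun s hs => (hf r).symm ▸ hmin s hs.1)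
      (fun s hs => (hf r).symm ▸ hmin s hs.1) (by simp) m1 (m2 m1)
    have e2 := (hf _).trans (hf r)
    have m4 := h.US_inter (e2.symm ▸ hr0) up3 (fun s hs => e2.symm ▸ hmin s hs.1.1)
      (fun s hs => e2.symm ▸ hmin s hs.1) (by simp) m3 (m2 (m2 m1))
    have hsub : ((S \ {r}) \ {o.ρ r}) \ {o.ρ (o.ρ r)} ⊆ S \ {r} :=
      Set.sdiff_subset.trans Set.sdiff_subset
    obtain ⟨u', hu', hΓ, hinj⟩ := ih _ (hn ▸ lt_of_le_of_lt (Set.ncard_le_ncard hsub)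
      (Set.ncard_sdiff_singleton_lt_of_mem hr (Set.toFinite S))) _ up3
      (fun s hs => ⟨⟨⟨hρ s hs.1.1.1, fun e => hs.2 (by
          rw [← show o.ρ s = r from e]; exact (a.ρ3 s).symm)⟩,
        fun e => hs.1.1.2 (a.ρ_inj h h' e)⟩, fun e => hs.1.2 (a.ρ_inj h h' e)⟩) m4 f1 rfl
    refine ⟨_, mul_mem (x_mem_US (Set.mem_image_of_mem _ hr) (o.c r * t))
      (US_mono (Set.image_mono (hsub.trans Set.sdiff_subset)) hu'), ?_, fun e => ?_⟩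
    · simpa using mul_mem (mem_Γ r t) hΓ
    obtain ⟨c, hc⟩ := h'.tau_peel (f := f') (r := o.φ r) ((hf' r).symm ▸ hr0)
    have e3 := hc _ (by
      rintro _ ⟨s, hs, rfl⟩; rw [hf', hf']; exact hmin s hs.1.1.1) (by
      rintro ⟨s, hs, e⟩
      rcases a.φ_eq r s e.symm with rfl | rfl | rfl
      exacts [hs.1.1.2 rfl, hs.1.2 rfl, hs.2 rfl]) u' hu' (o.c r * t)
    have e4 := hc ∅ (by simp) (by simp) 1 (one_mem _) 0
    rw [h'.x_zero, mul_one, ← e, e3] at e4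
    rw [e4, h'.x_zero, one_mul] at e
    obtain rfl : t = 0 := (mul_eq_zero.1 e4).resolve_left (a.c_ne r)
    simpa [a.Y_zero] using hinj e

theorem fix_T {t : GL I F} (h1 : t ∈ d.T) (hfix : o.M * t * o.M⁻¹ = t) :
    ∃ t' ∈ d'.T, (t, t') ∈ o.Γ ∧ (t' = 1 → t = 1) := by
  obtain ⟨χ, rfl⟩ := h1
  obtain ⟨t', h2, h3⟩ := a.T_Γ χ fun r => by
    obtain ⟨ε, hε, e⟩ := a.M_x r
    have e1 := congrArg (o.M * ·) (h.D_x χ r 1)
    rw [mul_inv_eq_iff_eq_mul] at hfix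
    simp only [← mul_assoc, hfix, e] at e1
    rw [mul_assoc (d.D χ), e, ← mul_assoc, h.D_x, mul_assoc, mul_assoc, hfix, mul_left_inj] at e1
    have := h.x_inj _ e1
    rw [mul_one, mul_one, mul_comm] at this
    exact Units.ext (mul_left_cancel₀ hε this)
  refine ⟨t', h2, h3, ?_⟩
  rintro rfl
  rw [eq_prod_pc χ, Finset.prod_eq_one fun p _ => ?_, map_one]
  obtain ⟨b, hb⟩ := a.E_ne p
  have := congrFun (congrFun (a.inter h h' h3) (d.e (d.sm p))) b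
  simp only [D_val, Matrix.diagonal_mul, Units.val_one, Matrix.mul_one] at this
  rw [mul_left_eq_self₀, or_iff_left hb, show d.gr (d.e _) = _ from h.rt_sm p, Units.val_eq_one] at this
  ext1 v; simp [this, pc_apply]

theorem ex_spec (L' : List (Fin l')) : (d.nw (L'.flatMap o.ex), d'.nw L') ∈ o.Γ ∧
    ∀ r, o.φ (d.ww (L'.flatMap o.ex) r) = d'.ww L' (o.φ r) := by
  induction L' with
  | nil => exact ⟨one_mem _, fun _ => rfl⟩
  | cons q L' ih =>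
    rw [List.flatMap_cons, nw_append, nw_cons]
    exact ⟨mul_mem (a.ex_Γ q) ih.1, fun r => by rw [ww_append, a.ex_φ, ih.2, ww_cons]⟩

theorem descent [Finite Φ] (L : List (Fin l)) (hL : ∀ r, d.ww L (o.ρ r) = o.ρ (d.ww L r)) :
    ∃ L' : List (Fin l'), d.nw (L ++ L'.flatMap o.ex) ∈ d.T := by
  induction hn : d.cnt L using Nat.strong_induction_on generalizing L with
  | _ n ih =>
    by_cases h1 : ∀ p, d.ww L (d.sm p) ∈ d.Pos (ht l)
    · exact ⟨[], by simpa using h.del L (h.pos_of_sm a.pos h1)⟩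
    obtain ⟨p, hp⟩ := not_forall.1 h1
    obtain ⟨q, hq, hq'⟩ := a.orb p
    have h2 := h.cnt_le _ (a.pw q) (L := L) fun p' hp' => by
      rcases hq' p' hp' with e | e | e <;> simpa only [e, hL, Pos, Set.mem_ofPred_eq, a.ht_ρ] using hp
    have h3 := List.length_pos_of_mem hq
    obtain ⟨L', hL'⟩ := ih _ (by omega) (L ++ o.ex q)
      (fun r => by rw [ww_append, ww_append, a.ex_ρ, hL]) rfl
    exact ⟨q :: L', by simpa using hL'⟩

theorem M_nw (L : List (Fin l)) : o.M * d.nw L * o.M⁻¹ = d.nw (L.map o.π) := by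
  induction L with
  | nil => simp [nw]
  | cons p L ih =>
    rw [List.map_cons, nw_cons, nw_cons, ← ih, ← mul_assoc, a.M_n]; group

theorem ρ_pos {f : (Fin l → ℤ) →+ ℤ} (hf : ∀ r, f (d.rt (o.ρ r)) = f (d.rt r)) :
    ∀ r ∈ d.Pos f, o.ρ r ∈ d.Pos f := fun r hr => by
  simpa only [Pos, Set.mem_ofPred_eq, hf] using hr

theorem main [Finite Φ] [Finite Φ'] {g : GL I F} (hg : g ∈ d.US Set.univ) (hfix : o.M * g * o.M⁻¹ = g) :
    ∃ g', (g, g') ∈ o.Γ ∧ (g' = 1 → g = 1) := by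
  have hneg : ∀ r, (-ht l) (d.rt (o.ρ r)) = (-ht l) (d.rt r) := fun r => by simp [a.ht_ρ]
  have hneg' : ∀ r, (-ht l') (d'.rt (o.φ r)) = (-ht l) (d.rt r) := fun r => by simp [a.ht_φ]
  obtain ⟨L, hL⟩ := h.bruhat hg
  have hL2 : d.Cell (L.map o.π) g := by
    obtain ⟨u, hu, t, h1, u', hu', e⟩ := hL
    refine ⟨_, a.M_US h h' (a.ρ_pos h h' a.ht_ρ) hu, _, a.M_T t h1, _,
      a.M_US h h' (a.ρ_pos h h' a.ht_ρ) hu', ?_⟩
    rw [← a.M_nw h h', ← hfix, e]; group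
  obtain ⟨L', hL'⟩ := a.descent h h' L fun r => by
    rw [← h.cell_uniq hL hL2]
    obtain ⟨ε, hε, e⟩ := a.M_x r
    obtain ⟨η, hη, e1⟩ := h.nw_conj L r
    obtain ⟨θ, hθ, e2⟩ := h.nw_conj (L.map o.π) (o.ρ r)
    obtain ⟨κ, -, e3⟩ := a.M_x (d.ww L r)
    have e4 := (e2 (ε * 1)).1
    rw [← a.M_nw h h', ← mul_inv_eq_iff_eq_mul.2 (e 1)] at e4
    have e5 : o.M * d.nw L * o.M⁻¹ * (o.M * d.x r 1 * o.M⁻¹) = o.M * (d.nw L * d.x r 1) * o.M⁻¹ := by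
      group
    rw [e5, (e1 1).1, ← mul_assoc, e3, mul_assoc, mul_assoc, mul_assoc, mul_left_inj] at e4
    exact h.root_eq_of_x_eq (by rcases hθ with rfl | rfl <;> simpa) e4.symm
  obtain ⟨u, hu, t, h1, v, hv, e⟩ := h.cell_ldu hL
  obtain ⟨hm, hφ⟩ := a.ex_spec h h' L'
  rw [nw_append] at hL'
  set m := d.nw (L'.flatMap o.ex)
  set s := d.nw L * m
  have hv2 := h.T_conj (inv_mem hL') hv
  have e1 : g * m = u * (t * s) * (s⁻¹ * v * s⁻¹⁻¹) := by rw [e]; simp only [s]; group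
  have e2 : o.M * u * o.M⁻¹ * (o.M * (t * s) * o.M⁻¹) * (o.M * (s⁻¹ * v * s⁻¹⁻¹) * o.M⁻¹) =
      u * (t * s) * (s⁻¹ * v * s⁻¹⁻¹) := by
    conv_rhs => rw [← e1, ← hfix, ← show o.M * m * o.M⁻¹ = m from (a.fst_mem h h' hm).2.1]
    rw [eq_mul_inv_iff_mul_eq.2 e1]; group
  obtain ⟨f1, f2, f3⟩ := h.ldu (a.M_US h h' (a.ρ_pos h h' a.ht_ρ) hu) hu
    (a.M_US h h' (a.ρ_pos h h' hneg) hv2) hv2 (a.M_T _ (mul_mem h1 hL')) (mul_mem h1 hL') e2
  obtain ⟨u', hu', g1, i1⟩ := a.fix_US h h' a.ht_ρ a.ht_φ _ (up_pos _) (a.ρ_pos h h' a.ht_ρ) hu f1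
  obtain ⟨v', hv', g3, i3⟩ := a.fix_US h h' hneg hneg' _ (up_pos _) (a.ρ_pos h h' hneg) hv2 f3
  obtain ⟨t', ht', g2, -⟩ := a.fix_T h h' (mul_mem h1 hL') f2
  replace hu' : u' ∈ d'.US (d'.Pos (ht l')) := US_mono (by
    rintro _ ⟨r, hr, rfl⟩; simpa only [Pos, Set.mem_ofPred_eq, a.ht_φ] using hr) hu'
  replace hv' : v' ∈ d'.US (d'.Pos (-ht l')) := US_mono (by
    rintro _ ⟨r, hr, rfl⟩; simpa only [Pos, Set.mem_ofPred_eq, hneg'] using hr) hv'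
  have hΓ : (g, u' * t' * v' * (d'.nw L')⁻¹) ∈ o.Γ := by
    convert mul_mem (mul_mem (mul_mem g1 g2) g3) (inv_mem hm) using 1
    simp only [Prod.mk_mul_mk, Prod.inv_mk, ← e1, mul_inv_cancel_right]
  refine ⟨_, hΓ, fun e3 => ?_⟩
  rw [e3] at hΓ
  rw [mul_inv_eq_one] at e3
  have p1 := h'.pos_of_ldu hu' ht' hv' e3.symm
  have hmT : m ∈ d.T := h.del _ fun r hr => by
    have := p1 (o.φ r) (by simpa only [Pos, Set.mem_ofPred_eq, a.ht_φ] using hr)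
    simpa only [← hφ, Pos, Set.mem_ofPred_eq, a.ht_φ] using this
  obtain ⟨j1, -, j3⟩ := h'.ldu hu' (one_mem _) hv' (one_mem _) ht' (h'.del _ p1) (by simpa using e3)
  rw [i1 j1, i3 j3, one_mul, mul_one, ← eq_mul_inv_iff_mul_eq] at e1
  obtain ⟨s', -, k1, k2⟩ := a.fix_T h h' (e1 ▸ mul_mem (mul_mem h1 hL') (inv_mem hmT)) hfix
  exact k2 (a.snd_eq_one h h' (by simpa using mul_mem k1 (inv_mem hΓ)))

theorem equiv [Finite Φ] [Finite Φ'] (C : Subgroup (GL I F))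
    (hC : ∀ g, g ∈ C ↔ g ∈ d.US Set.univ ∧ o.M * g * o.M⁻¹ = g) :
    Nonempty (C ≃* d'.US Set.univ) := by
  let p1 : o.Γ →* C := ((MonoidHom.fst _ _).comp o.Γ.subtype).codRestrict _ fun γ =>
    (hC _).2 ⟨(a.fst_mem h h' γ.2).1, (a.fst_mem h h' γ.2).2.1⟩
  let p2 : o.Γ →* d'.US Set.univ := ((MonoidHom.snd _ _).comp o.Γ.subtype).codRestrict _ fun γ =>
    (a.fst_mem h h' γ.2).2.2
  have b1 : Function.Bijective p1 := by
    refine ⟨(injective_iff_map_eq_one _).2 ?_, ?_⟩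
    · rintro ⟨⟨g, g'⟩, hγ⟩ e
      obtain rfl : g = 1 := congrArg Subtype.val e
      obtain rfl := a.snd_eq_one h h' hγ
      rfl
    · rintro ⟨g, hg⟩
      obtain ⟨g', h1, -⟩ := a.main h h' ((hC g).1 hg).1 ((hC g).1 hg).2
      exact ⟨⟨_, h1⟩, rfl⟩
  have b2 : Function.Bijective p2 := by
    refine ⟨(injective_iff_map_eq_one _).2 ?_, ?_⟩
    · rintro ⟨⟨g, g'⟩, hγ⟩ e
      obtain rfl : g' = 1 := congrArg Subtype.val e
      obtain ⟨g', h1, h2⟩ := a.main h h' (a.fst_mem h h' hγ).1 (a.fst_mem h h' hγ).2.1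
      obtain rfl := h2 (a.snd_eq_one h h' (by simpa using mul_mem h1 (inv_mem hγ)))
      rfl
    · rintro ⟨g', hg⟩
      obtain ⟨g, h1⟩ := a.exists_fst h h' hg
      exact ⟨⟨_, h1⟩, rfl⟩
  exact ⟨(MulEquiv.ofBijective p1 b1).symm.trans (MulEquiv.ofBijective p2 b2)⟩

end Ax

end Fold

end Dat

end Cfsg.Agent.H9.Chev
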