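import Cfsg.Agent.H9.ChevDat

/-!
The axioms `Dat.Ax` for a kernel-checked Chevalley datum.
-/

set_option autoImplicit false
set_option maxRecDepth 100000

namespace Cfsg.Agent.H9.Chev

open Cfsg.Lie Cfsg.Agent.H4

theorem bnot_iff {a : Bool} : bnot a = true ↔ ¬ a = true := by cases a <;> simp

theorem exists_of_evC_ne {R : Type*} [CommRing R] {t : R} {C : Col} {a : ℕ} (h : evC t C a ≠ 0) :
    ∃ x ∈ C, x.1 = a ∧ x.2.2 ≠ 0 := by
  by_contra hn
  push Not at hn
  refine h (List.sum_eq_zero fun y hy => ?_)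
  obtain ⟨x, hx, rfl⟩ := List.mem_map.1 hy
  split_ifs with e
  · simp [hn x hx e]
  · rfl

theorem evC_torus {R : Type*} [CommRing R] {t α β γ : R} {C : Col} {a : ℕ}
    (h : ∀ x ∈ C, x.1 = a → x.2.2 ≠ 0 → α = β * γ ^ x.2.1) :
    α * evC t C a = evC (γ * t) C a * β := by
  induction C with
  | nil => simp [evC]
  | cons x C ih =>
    rw [evC_cons, evC_cons, mul_add, add_mul, ih fun y hy => h y (List.mem_cons_of_mem _ hy)]
    congr 1
    split_ifs with e
    · by_cases h0 : x.2.2 = 0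
      · simp [h0]
      · rw [h x List.mem_cons_self e h0]; ring
    · simp

theorem restD_pos {D : ChevalleyDatum} {r b : ℕ} {x : ℕ × ℕ × ℤ} (hx : x ∈ restD D r b) :
    1 ≤ x.2.1 := by
  unfold restD at hx
  split_ifs at hx
  · simp_all
  · simp at hx
  · rcases List.mem_cons.1 hx with rfl | hx
    · simp
    · obtain ⟨i, -, rfl⟩ := List.mem_map.1 hx; simp
  · obtain ⟨e, -, hx⟩ := List.mem_flatMap.1 hx
    obtain ⟨q, -, rfl⟩ := List.mem_map.1 hx
    simp

namespace Good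

variable {D : ChevalleyDatum} {P : Pk} (h : Good D P)
include h

theorem neg_eq {r : ℕ} (hr : r < D.nroots) : P.neg r = D.negIdx.getD r 0 := by
  have := h.tab r hr
  simp only [Pk.cTab, band_eq, Bool.and_eq_true, Nat.beq_eq] at this
  exact this.1

theorem cor_eq {r : ℕ} (hr : r < D.nroots) {i : ℕ} (hi : i < D.rank) :
    dec (f4 (f32 P.K r) i) = (D.coroot.getD r #[]).getD i 0 := by
  have := h.tab r hr
  simp only [Pk.cTab, band_eq, Bool.and_eq_true, allLt_iff, eqI_iff] at this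
  exact (this.2.1 i hi).2

theorem car_eq {r : ℕ} (hr : r < D.nroots) {i : ℕ} (hi : i < D.rank) :
    dec (f4 (f32 P.C r) i) = (D.cartanSR.getD i #[]).getD r 0 := by
  have := h.tab r hr
  simp only [Pk.cTab, band_eq, Bool.and_eq_true, allLt_iff, eqI_iff] at this
  exact (this.2.1 i hi).1

theorem col_eq {r : ℕ} (hr : r < D.nroots) {b : ℕ} (hb : b < NN D) :
    P.col D.rank r b = restD D r b := by
  have := h.tab r hr
  simp only [Pk.cTab, band_eq, Bool.and_eq_true, allLt_iff, frc_eq, Nat.beq_eq] at this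
  simp only [Pk.col, restF, restD, ite'_eq, frc_eq, Nat.blt_eq, Nat.beq_eq, Nat.sub_eq, Nat.add_eq,
    this.1]
  split_ifs with h1 h2 h3
  · rw [h.car_eq hr h1]; rfl
  · rfl
  · congr 1
    exact List.map_congr_left fun i hi => by rw [h.cor_eq hr (List.mem_range.1 hi)]
  · rw [eq_of_eqCol (this.2.2 _ (by unfold NN at hb; omega)), chainR_eq]

theorem xMat_eq' (F : Type*) [Field F] (r : Fin D.nroots) (t : F) :
    D.xMat F r t = SM D (pl (P.col D.rank r)) t := by
  rw [xMat_eq]; ext a b; simp only [SM, colD, pl, h.col_eq r.2 (enc_lt D b)]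

theorem xMat_add (F : Type*) [Field F] (r : Fin D.nroots) (t u : F) :
    D.xMat F r t * D.xMat F r u = D.xMat F r (t + u) := by
  simp only [h.xMat_eq']
  exact SM_add_of_chkA D (h.add r r.2) t u

omit h in
theorem xMat_sub (F : Type*) [Field F] (r : Fin D.nroots) (t : F) (a b : D.Idx) :
    D.xMat F r t a b = (1 : Matrix D.Idx D.Idx F) a b + evC t (restD D r (enc D b)) (enc D a) := by
  rw [xMat_eq, SM, colD, pl, evC_cons, Matrix.one_apply]
  simp [(enc_inj D).eq_iff, eq_comm]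

omit h in
theorem xMat_zero (F : Type*) [Field F] (r : Fin D.nroots) : D.xMat F r 0 = 1 := by
  ext a b
  rw [xMat_sub, add_eq_left]
  refine List.sum_eq_zero fun y hy => ?_
  obtain ⟨x, hx, rfl⟩ := List.mem_map.1 hy
  rw [zero_pow (by have := restD_pos hx; omega)]; simp

theorem root' {r : ℕ} (hr : r < D.nroots) : P.neg r < D.nroots ∧ P.ht D.rank (D.rank + r) ≠ 0 ∧
    (∀ i < D.rank, P.gr (D.rank + P.neg r) i = -P.gr (D.rank + r) i) ∧
    (∀ s < r, ¬ ∀ i < D.rank, P.gr (D.rank + r) i = P.gr (D.rank + s) i) ∧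
    (∑ i : Fin D.rank, dec (f4 (f32 P.Bz r) i) * dec (f4 (f32 P.K r) i) = 1) ∧ P.neg r ≠ r ∧
    if f8 P.rk r = 0 then ∃ e ∈ P.cm, e.1 < D.rank ∧ P.s e.1 = r else
      f4 P.via r < D.rank ∧ f8 P.rk (P.w (f4 P.via r) r) < f8 P.rk r := by
  have := h.root r hr
  simp only [Pk.cRoot, band_eq, Bool.and_eq_true, allLt_iff, Nat.beq_eq, bnot_iff, eqI_iff, zI_iff,
    Nat.blt_eq, ite'_eq, sumI_eq] at this
  obtain ⟨h1, h2, h3, h4, h5, h6, h7⟩ := this
  refine ⟨h1, h2, h3, h4, h5, h6, ?_⟩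
  split_ifs at h7 ⊢
  · simpa only [anyL_iff, band_eq, Bool.and_eq_true, Nat.blt_eq, Nat.beq_eq] using h7
  · simpa only [Bool.and_eq_true, Nat.blt_eq] using h7

theorem sm' {p : ℕ} (hp : p < D.rank) : P.s p < D.nroots ∧ P.A p p = 2 ∧
    (∀ i < D.rank, P.gr p i = 0) ∧
    (∀ i < D.rank, P.gr (D.rank + P.s p) i = if i = p then 1 else 0) ∧
    (∀ r < D.nroots, P.w p r < D.nroots ∧ P.eps p (P.neg r) = P.eps p r ∧
      (∀ i < D.rank, P.gr (D.rank + P.w p r) i = P.gr (D.rank + r) i -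
        if i = p then P.pr D.rank p (D.rank + r) else 0) ∧
      (0 < P.ht D.rank (D.rank + r) → r = P.s p ∨ 0 < P.ht D.rank (D.rank + P.w p r))) ∧
    chk (NN D) [⟨P.col D.rank (P.s p), 1, 0, 0, true⟩, ⟨P.col D.rank (P.neg (P.s p)), -1, 0, 0, true⟩,
      ⟨P.col D.rank (P.s p), 1, 0, 0, true⟩] [⟨P.nc D.rank p, 1, 0, 0, false⟩] = true := by
  have := h.sm p hp
  simp only [Pk.cSm, Pk.isW, band_eq, Bool.and_eq_true, allLt_iff, Nat.beq_eq, eqI_iff, bimp_iff,
    Nat.blt_eq, ite'_eq, frcI_eq, posI_iff, bor_eq, Bool.or_eq_true, Pk.wn_eq, Pk.wr_eq] at this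
  exact this

/-- the abstract data attached to a checked datum -/
noncomputable def dat (F : Type*) [Field F] : Dat D.Idx (Fin D.nroots) D.rank F where
  x r t := ⟨D.xMat F r t, D.xMat F r (-t), by rw [h.xMat_add, add_neg_cancel, xMat_zero],
    by rw [h.xMat_add, neg_add_cancel, xMat_zero]⟩
  gr a i := P.gr (enc D a) i
  e := Sum.inr
  hh := Sum.inl
  neg r := ⟨P.neg r, (h.root' r.2).1⟩
  sm p := ⟨P.s p, (h.sm' p.2).1⟩
  w p r := ⟨P.w p r, (((h.sm' p.2).2.2.2.2.1) r r.2).1⟩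
  A p j := P.A p j

variable (F : Type*) [Field F]

theorem dat_x (r : Fin D.nroots) (t : F) : ((h.dat F).x r t).1 = D.xMat F r t := rfl

theorem dat_gr (a : D.Idx) (i : Fin D.rank) : (h.dat F).gr a i = P.gr (enc D a) i := rfl
theorem dat_rt (r : Fin D.nroots) (i : Fin D.rank) : (h.dat F).rt r i = P.gr (D.rank + r) i := rfl
theorem dat_sm (p : Fin D.rank) : ((h.dat F).sm p).1 = P.s p := rfl
theorem dat_neg (r : Fin D.nroots) : ((h.dat F).neg r).1 = P.neg r := rfl
theorem dat_w (p : Fin D.rank) (r : Fin D.nroots) : ((h.dat F).w p r).1 = P.w p r := rfl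

theorem dat_n (p : Fin D.rank) : ((h.dat F).n p).1 = SM D (P.nc D.rank p) 1 := by
  have := wm_eq_of_chk D (1 : F) 1 (h.sm' p.2).2.2.2.2.2
  simpa [wm, lm, Let.full, Dat.n, dat_x, h.xMat_eq', mul_assoc, dat_sm, dat_neg] using this

theorem graded (r : Fin D.nroots) (a b : D.Idx) {x : ℕ × ℕ × ℤ} (hx : x ∈ restD D r (enc D b))
    (ha : x.1 = enc D a) (h0 : x.2.2 ≠ 0) :
    (h.dat F).gr a = (h.dat F).gr b + x.2.1 • (h.dat F).rt r := by
  have := h.gr r r.2
  simp only [Pk.cGr, Pk.wr_eq, allLt_iff, allL_iff, bor_eq, Bool.or_eq_true, zI_iff, eqI_iff] at this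
  have h1 := (this _ (enc_lt D b) x (h.col_eq r.2 (enc_lt D b) ▸ hx)).resolve_left h0
  funext i
  rw [ha] at h1
  simpa [dat_gr, dat_rt] using h1 i i.2

theorem group_eq : D.group F = (h.dat F).US Set.univ := by
  unfold ChevalleyDatum.group Dat.US
  congr 1
  ext g
  exact ⟨fun ⟨r, t, e⟩ => ⟨r, trivial, t, Units.ext e⟩, fun ⟨r, _, t, e⟩ => ⟨r, t, e ▸ rfl⟩⟩

theorem ax : (h.dat F).Ax := by
  have rt_inj : Function.Injective (h.dat F).rt := by
    intro r s e
    rcases lt_trichotomy r s with hl | hl | hl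
    · exact absurd (fun i hi => (congrFun e ⟨i, hi⟩).symm) ((h.root' s.2).2.2.2.1 r hl)
    · exact hl
    · exact absurd (fun i hi => congrFun e ⟨i, hi⟩) ((h.root' r.2).2.2.2.1 s hl)
  have pr_eq : ∀ (p : Fin D.rank) a, (h.dat F).pr p ((h.dat F).gr a) = P.pr D.rank p (enc D a) :=
    fun p a => (sumI_eq D.rank fun j => Int.mul (P.A p j) (P.gr (enc D a) j)).symm
  have ht_eq : ∀ a, ht D.rank ((h.dat F).gr a) = P.ht D.rank (enc D a) :=
    fun a => (sumI_eq D.rank (P.gr (enc D a))).symm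
  have rt_w : ∀ p r, (h.dat F).rt ((h.dat F).w p r) = (h.dat F).W p ((h.dat F).rt r) := by
    intro p r
    funext i
    have := ((h.sm' p.2).2.2.2.2.1 r r.2).2.2.1 i i.2
    rw [Dat.W_apply, show (h.dat F).pr p ((h.dat F).rt r) = P.pr D.rank p (D.rank + r) from pr_eq _ _]
    simpa [Pi.single_apply, Fin.ext_iff, dat_rt, dat_w] using this
  have gr_hh : ∀ i, (h.dat F).gr ((h.dat F).hh i) = 0 := fun p =>
    funext fun i => (h.sm' p.2).2.2.1 i i.2
  have n_conj : ∀ (p : Fin D.rank) (r : Fin D.nroots) (t : F), (h.dat F).n p * (h.dat F).x r t =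
      (h.dat F).x ((h.dat F).w p r) (P.eps p r * t) * (h.dat F).n p := by
    intro p r t
    have h0 := h.conj p p.2 r r.2
    simp only [Pk.cConj, Pk.wn_eq, Pk.wr_eq, frcI_eq] at h0
    have := wm_eq_of_chk D t 1 h0
    ext1
    simpa [wm, lm, Let.full, dat_n, dat_x, h.xMat_eq', dat_w] using this
  have WW : ∀ p v, (h.dat F).W p ((h.dat F).W p v) = v := by
    intro p v
    have h1 : (h.dat F).pr p (Pi.single p 1) = 2 := by
      change ∑ j, (h.dat F).A p j * (Pi.single p 1 : Fin D.rank → ℤ) j = 2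
      rw [Finset.sum_eq_single p] <;> simp +contextual
      exact (h.sm' p.2).2.1
    have h2 : (h.dat F).W p (Pi.single p 1) = -Pi.single p 1 := by
      rw [Dat.W_apply, h1, two_smul]; abel
    rw [Dat.W_apply _ p v, map_sub, map_zsmul, h2, Dat.W_apply, smul_neg]; abel
  refine ⟨fun r t u => Units.ext (h.xMat_add F r t u).symm, gr_hh,
    fun r => funext fun i => (h.root' r.2).2.2.1 i i.2, fun p => funext fun i => ?_, rt_inj,
    fun r => ?_, fun r t a b hne => ?_, fun χ r t a b => ?_, fun r => ?_, fun p r => ?_,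
    fun p a b hne => ?_, rt_w, fun p => (h.sm' p.2).2.1, fun p r h1 h2 => ?_, ?_⟩
  · simpa [Pi.single_apply, Fin.ext_iff, dat_rt, dat_sm] using (h.sm' p.2).2.2.2.1 i i.2
  · rw [Dat.rt, ht_eq]; exact (h.root' r.2).2.1
  · rw [dat_x, xMat_sub, Ne, add_eq_left] at hne
    obtain ⟨x, hx, h1, h2⟩ := exists_of_evC_ne hne
    exact ⟨x.2.1, restD_pos hx, h.graded F r a b hx h1 h2⟩
  · rw [dat_x, dat_x, xMat_sub, xMat_sub, mul_add, add_mul, evC_torus (α := (χ ((h.dat F).gr a) : F))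
      (β := (χ ((h.dat F).gr b) : F)) (γ := (χ ((h.dat F).rt r) : F)) fun x hx h1 h2 => by
        rw [h.graded F r a b hx h1 h2, AddChar.map_add_eq_mul, AddChar.map_nsmul_eq_pow]; simp]
    congr 1
    by_cases e : a = b
    · subst e; simp
    · simp [e]
  · refine ⟨fun i => dec (f4 (f32 P.Bz r) i), fun t => ?_⟩
    have h1 : (h.dat F).neg r ≠ r := fun e => (h.root' r.2).2.2.2.2.2.1 (congrArg Fin.val e)
    have h2 : ∀ i, ((h.dat F).x r t).1 ((h.dat F).hh i) ((h.dat F).e ((h.dat F).neg r)) =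
        (dec (f4 (f32 P.K r) i) : F) * t := fun i => by
      change D.xMat F r t (Sum.inl i) (Sum.inr _) = _
      simp only [ChevalleyDatum.xMat, Matrix.of_apply]
      rw [if_neg h1, dat_neg, if_pos (h.neg_eq r.2), h.cor_eq r.2 i.2]
    simp only [h2, ← mul_assoc, ← Finset.sum_mul, ← Int.cast_mul, ← Int.cast_sum,
      (h.root' r.2).2.2.2.2.1]
    simp
  · refine ⟨P.eps p r, by rcases sgn_cases (f1 (nth P.E p) r) with e | e <;> simp [Pk.eps, e],
      fun t => ⟨n_conj p r t, ?_⟩⟩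
    rw [n_conj, ← ((h.sm' p.2).2.2.2.2.1 r r.2).2.1]; rfl
  · rw [dat_n] at hne
    obtain ⟨x, hx, h1, -⟩ := exists_of_evC_ne hne
    simp only [Pk.nc, colN, ite'_eq, Nat.blt_eq, frc_eq] at hx
    rcases b with j | s
    · rw [show (h.dat F).gr (Sum.inl j) = 0 from gr_hh j, map_zero]
      rw [if_pos (show enc D (Sum.inl j) < _ from j.2)] at hx
      simp only [List.mem_cons, List.not_mem_nil, or_false] at hx
      rcases hx with rfl | rfl
      · rw [← enc_inj D (show enc D (Sum.inl j) = _ from h1)]; exact gr_hh j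
      · rw [← enc_inj D (show enc D (Sum.inl p) = _ from h1)]; exact gr_hh p
    · rw [if_neg (by simp [enc]), List.mem_singleton] at hx
      subst hx
      have : enc D (Sum.inr ((h.dat F).w p s)) = enc D a := by rw [← h1]; simp [enc, dat, Pk.w]
      rw [← enc_inj D this]; exact rt_w p s
  · rw [Dat.rt, ht_eq] at h1 ⊢
    exact (((h.sm' p.2).2.2.2.2.1 r r.2).2.2.2 h1).resolve_left fun e => h2 (Fin.ext e)
  refine ⟨fun p => ∃ e ∈ P.cm, e.1 = p, fun Q h0 h1 r => ?_, ?_⟩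
  · induction hn : f8 P.rk r using Nat.strong_induction_on generalizing r with
    | _ n ih =>
      have := (h.root' r.2).2.2.2.2.2.2
      split_ifs at this
      · obtain ⟨e, he, h2, h3⟩ := this
        have : r = (h.dat F).sm ⟨e.1, h2⟩ := Fin.ext h3.symm
        exact this ▸ h0 _ ⟨e, he, rfl⟩
      · have h3 := h1 ⟨_, this.1⟩ _ (ih _ (hn ▸ this.2) ((h.dat F).w ⟨_, this.1⟩ r) rfl)
        rwa [rt_inj (show (h.dat F).rt ((h.dat F).w _ ((h.dat F).w _ r)) = (h.dat F).rt r by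
          rw [rt_w, rt_w, WW])] at h3
  rintro p ⟨e, he, hp⟩ s h1 h2 t u
  have := h.comm e he s s.2
  simp only [Pk.cComm, hp, bor_eq, band_eq, Bool.or_eq_true, Bool.and_eq_true, Nat.beq_eq, allL_iff,
    allLt_iff, Nat.blt_eq, eqI_iff, Pk.wr_eq, Pk.wl_eq] at this
  obtain ⟨h3, h4⟩ := (this.resolve_left fun e => h1 (Fin.ext e)).resolve_left fun e => h2 (Fin.ext e)
  have h5 := wm_eq_of_chk D t u h4
  generalize e.2.getD s [] = M at h3 h5
  obtain ⟨g, hg, hg'⟩ : ∃ g ∈ (h.dat F).US ((h.dat F).Sum2 ((h.dat F).sm p) s), g.1 = wm D t u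
      (M.map fun x => ⟨P.col D.rank x.1, x.2.1, x.2.2.1, x.2.2.2, true⟩) := by
    clear h5
    induction M with
    | nil => exact ⟨1, one_mem _, rfl⟩
    | cons x M ih =>
      obtain ⟨g, hg, hg'⟩ := ih fun y hy => h3 y (List.mem_cons_of_mem _ hy)
      obtain ⟨k1, k2, k3, k4⟩ := h3 x List.mem_cons_self
      refine ⟨_, mul_mem (Dat.x_mem_US (r := ⟨x.1, k1⟩) (S := (h.dat F).Sum2 _ _)
        ⟨_, _, k2, k3, funext fun i => ?_⟩ (x.2.1 * t ^ x.2.2.1 * u ^ x.2.2.2)) hg, ?_⟩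
      · simpa [dat_rt, dat_sm] using k4 i i.2
      · simp [wm, lm, Let.full, dat_x, h.xMat_eq', hg']
  have h6 : (h.dat F).x s u * (h.dat F).x ((h.dat F).sm p) t =
      (h.dat F).x ((h.dat F).sm p) t * ((h.dat F).x s u * g) := by
    ext1
    simp only [Units.val_mul, hg']
    simpa [wm, lm, Let.full, dat_x, h.xMat_eq', dat_sm] using h5
  convert hg using 1
  rw [mul_assoc, h6]; group

end Good

end Cfsg.Agent.H9.Chev
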