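import Cfsg.Prelude.Def_ChevStructure
import Cfsg.Agent.H4.Bits

/-!
A kernel-evaluated checker for identities between words in sparse polynomial matrices, used for the
Chevalley groups given by tables.
-/

set_option autoImplicit false
set_option maxRecDepth 100000

namespace Cfsg.Agent.H9.Chev

open Cfsg.Lie Cfsg.Agent.H4

noncomputable def frc {β : Type} (n : ℕ) (k : ℕ → β) : β :=
  Nat.rec (motive := fun _ => β) (k 0) (fun m _ => k m) (Nat.succ n)

@[simp] theorem frc_eq {β : Type} (n : ℕ) (k : ℕ → β) : frc n k = k n := rfl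

noncomputable def frcI {β : Type} (c : ℤ) (k : ℤ → β) : β :=
  Int.rec (fun n => frc n fun m => k (Int.ofNat m)) (fun n => frc n fun m => k (Int.negSucc m)) c

@[simp] theorem frcI_eq {β : Type} (c : ℤ) (k : ℤ → β) : frcI c k = k c := by cases c <;> rfl

structure Ent where
  a : ℕ
  i : ℕ
  j : ℕ
  c : ℤ

abbrev Col := List (ℕ × ℕ × ℤ)

noncomputable def ipow (c : ℤ) (k : ℕ) : ℤ := Nat.rec 1 (fun _ ih => Int.mul ih c) k

@[simp] theorem ipow_eq (c : ℤ) (k : ℕ) : ipow c k = c ^ k := by
  induction k with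
  | zero => rw [pow_zero]; rfl
  | succ k ih => rw [pow_succ, ← ih]; rfl

noncomputable def appE (C : Col) (c0 : ℤ) (i0 j0 : ℕ) (e : Ent) (acc : List Ent) : List Ent :=
  List.rec acc (fun x _ ih => frc x.1 fun a => frc x.2.1 fun k =>
    frc (Nat.add e.i (Nat.mul k i0)) fun i => frc (Nat.add e.j (Nat.mul k j0)) fun j =>
      frcI (Int.mul (Int.mul e.c (ipow c0 k)) x.2.2) fun c => ⟨a, i, j, c⟩ :: ih) C

structure Let where
  S : ℕ → Col
  c : ℤ
  i : ℕ
  j : ℕ
  id : Bool

/-- add the identity matrix -/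
def pl (S : ℕ → Col) (b : ℕ) : Col := (b, 0, 1) :: S b

def Let.full (l : Let) : ℕ → Col := ite' l.id (pl l.S) l.S

noncomputable def app (N : ℕ) (l : Let) (v : List Ent) : List Ent :=
  List.rec [] (fun e _ ih => ite' (Nat.blt e.a N)
    (ite' l.id (e :: appE (l.S e.a) l.c l.i l.j e ih) (appE (l.S e.a) l.c l.i l.j e ih)) ih) v

noncomputable def run (N : ℕ) (w : List Let) (v : List Ent) : List Ent :=
  List.rec v (fun l _ ih => app N l ih) w

noncomputable def ins (e : Ent) (acc : List Ent) : List Ent :=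
  List.rec [e] (fun x xs ih => ite' (band (Nat.beq x.a e.a) (band (Nat.beq x.i e.i) (Nat.beq x.j e.j)))
    (frcI (Int.add x.c e.c) fun c => ⟨x.a, x.i, x.j, c⟩ :: xs) (x :: ih)) acc

noncomputable def insL (v acc : List Ent) : List Ent := List.rec acc (fun e _ ih => ins e ih) v

noncomputable def zI (c : ℤ) : Bool := Int.rec (fun n => Nat.beq n 0) (fun _ => false) c

theorem zI_iff {c : ℤ} : zI c = true ↔ c = 0 := by
  cases c with
  | ofNat n => simp [zI]
  | negSucc n => simp [zI]

noncomputable def zero2 (v w : List Ent) : Bool := allL (insL v (insL w [])) fun e => zI e.c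

noncomputable def chk (N : ℕ) (w1 w2 : List Let) : Bool :=
  allLt N fun b => zero2 (run N w1 [⟨b, 0, 0, 1⟩]) (run N w2 [⟨b, 0, 0, -1⟩])

/-- minus the expansion of a column at `t + u` -/
noncomputable def expand (C : Col) : List Ent :=
  C.flatMap fun x => (List.range (x.2.1 + 1)).map fun i =>
    ⟨x.1, i, x.2.1 - i, -(x.2.2 * (x.2.1.choose i : ℤ))⟩

noncomputable def chkA (N : ℕ) (S : ℕ → Col) : Bool :=
  allLt N fun b => zero2 (run N [⟨S, 1, 1, 0, true⟩, ⟨S, 1, 0, 1, true⟩] [⟨b, 0, 0, 1⟩])
    (expand (pl S b))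

section sem

variable {R : Type*} [CommRing R]

def evC (t : R) (C : Col) (a : ℕ) : R :=
  (C.map fun x => if x.1 = a then (x.2.2 : R) * t ^ x.2.1 else 0).sum

def ev (t u : R) (v : List Ent) (a : ℕ) : R :=
  (v.map fun e => if e.a = a then (e.c : R) * t ^ e.i * u ^ e.j else 0).sum

theorem ev_cons (t u : R) (e : Ent) (v : List Ent) (a : ℕ) :
    ev t u (e :: v) a = (if e.a = a then (e.c : R) * t ^ e.i * u ^ e.j else 0) + ev t u v a := by
  simp [ev]

theorem evC_cons (t : R) (x : ℕ × ℕ × ℤ) (C : Col) (a : ℕ) :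
    evC t (x :: C) a = (if x.1 = a then (x.2.2 : R) * t ^ x.2.1 else 0) + evC t C a := by
  simp [evC]

theorem ev_appE (t u : R) (C : Col) (c0 : ℤ) (i0 j0 : ℕ) (e : Ent) (acc : List Ent) (a : ℕ) :
    ev t u (appE C c0 i0 j0 e acc) a =
      evC ((c0 : R) * t ^ i0 * u ^ j0) C a * ((e.c : R) * t ^ e.i * u ^ e.j) + ev t u acc a := by
  induction C with
  | nil => simp [appE, evC]
  | cons x C ih =>
    have : appE (x :: C) c0 i0 j0 e acc =
        ⟨x.1, e.i + x.2.1 * i0, e.j + x.2.1 * j0, e.c * c0 ^ x.2.1 * x.2.2⟩ ::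
          appE C c0 i0 j0 e acc := by
      simp only [appE, frc_eq, frcI_eq, ipow_eq]; rfl
    rw [this, ev_cons, ih, evC_cons]
    dsimp only
    split_ifs
    · push_cast; ring
    · ring

theorem ev_ins (t u : R) (e : Ent) (acc : List Ent) (a : ℕ) :
    ev t u (ins e acc) a = ev t u [e] a + ev t u acc a := by
  induction acc with
  | nil => simp [ins, ev]
  | cons x xs ih =>
    have : ins e (x :: xs) = ite' (band (Nat.beq x.a e.a) (band (Nat.beq x.i e.i) (Nat.beq x.j e.j)))
      (⟨x.a, x.i, x.j, x.c + e.c⟩ :: xs) (x :: ins e xs) := by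
      simp only [ins, frcI_eq]; rfl
    rw [this, ite'_eq]
    split_ifs with h
    · simp only [band_eq, Bool.and_eq_true, Nat.beq_eq] at h
      obtain ⟨h1, h2, h3⟩ := h
      simp only [ev_cons, h1, h2, h3]
      split_ifs
      · simp only [ev, List.map_nil, List.sum_nil]; push_cast; ring
      · simp [ev]
    · rw [ev_cons, ih, ev_cons t u x]; ring

theorem ev_insL (t u : R) (v acc : List Ent) (a : ℕ) :
    ev t u (insL v acc) a = ev t u v a + ev t u acc a := by
  induction v with
  | nil => simp [insL, ev]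
  | cons e v ih =>
    have : insL (e :: v) acc = ins e (insL v acc) := rfl
    rw [this, ev_ins, ih, ev_cons t u e v, ev_cons]; simp [ev]; ring

theorem ev_of_zero2 (t u : R) {v w : List Ent} (h : zero2 v w = true) (a : ℕ) :
    ev t u v a + ev t u w a = 0 := by
  have h1 : ev t u (insL v (insL w [])) a = 0 := by
    refine List.sum_eq_zero fun x hx => ?_
    obtain ⟨e, he, rfl⟩ := List.mem_map.1 hx
    rw [zI_iff.1 (allL_iff.1 h e he)]; simp
  rw [ev_insL, ev_insL] at h1
  simpa [ev] using h1

variable (D : ChevalleyDatum)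

def enc : D.Idx → ℕ := Sum.elim (fun i => i.val) (fun r => D.rank + r.val)

def NN : ℕ := D.rank + D.nroots

theorem enc_lt (a : D.Idx) : enc D a < NN D := by
  rcases a with i | r
  · exact lt_of_lt_of_le i.2 (Nat.le_add_right _ _)
  · exact Nat.add_lt_add_left r.2 _

theorem enc_inj : Function.Injective (enc D) := by
  rintro (i | r) (j | s) h <;> simp only [enc, Sum.elim_inl, Sum.elim_inr] at h
  · exact congrArg _ (Fin.ext h)
  · have := i.2; omega
  · have := j.2; omega
  · exact congrArg _ (Fin.ext (by omega))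

theorem exists_enc {b : ℕ} (hb : b < NN D) : ∃ a, enc D a = b := by
  by_cases h : b < D.rank
  · exact ⟨Sum.inl ⟨b, h⟩, rfl⟩
  · exact ⟨Sum.inr ⟨b - D.rank, by unfold NN at hb; omega⟩, by simp [enc]; omega⟩

def SM (S : ℕ → Col) (t : R) : Matrix D.Idx D.Idx R := fun a b => evC t (S (enc D b)) (enc D a)

theorem sum_ite_enc (x : ℕ) (f : ℕ → R) (c : R) :
    ∑ b : D.Idx, f (enc D b) * (if x = enc D b then c else 0) = if x < NN D then f x * c else 0 := by
  split_ifs with h
  · obtain ⟨b, rfl⟩ := exists_enc D h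
    rw [Finset.sum_eq_single b]
    · simp
    · intro b' _ hb'
      rw [if_neg (fun h => hb' (enc_inj D h).symm), mul_zero]
    · simp
  · refine Finset.sum_eq_zero fun b _ => ?_
    rw [if_neg (fun h' : x = enc D b => h (h' ▸ enc_lt D b)), mul_zero]

def lm (t u : R) (l : Let) : Matrix D.Idx D.Idx R := SM D l.full ((l.c : R) * t ^ l.i * u ^ l.j)

theorem ev_app (t u : R) (l : Let) (v : List Ent) (a : D.Idx) :
    ev t u (app (NN D) l v) (enc D a) = ∑ b, lm D t u l a b * ev t u v (enc D b) := by
  induction v with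
  | nil => simp [app, ev]
  | cons e v ih =>
    have : app (NN D) l (e :: v) = ite' (Nat.blt e.a (NN D))
      (ite' l.id (e :: appE (l.S e.a) l.c l.i l.j e (app (NN D) l v))
        (appE (l.S e.a) l.c l.i l.j e (app (NN D) l v))) (app (NN D) l v) := rfl
    simp only [ev_cons, mul_add, Finset.sum_add_distrib, ← ih]
    have h2 := sum_ite_enc D e.a (fun b => evC ((l.c : R) * t ^ l.i * u ^ l.j) (l.full b) (enc D a))
      ((e.c : R) * t ^ e.i * u ^ e.j)
    simp only [lm, SM]
    rw [h2, this, ite'_eq]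
    simp only [Nat.blt_eq]
    split_ifs
    · unfold Let.full
      cases l.id
      · exact ev_appE ..
      · change ev t u (e :: _) _ = evC _ (_ :: _) _ * _ + _
        rw [ev_cons, evC_cons, ev_appE]
        dsimp only
        split_ifs <;> simp [add_mul, add_assoc]
    · simp

def wm (t u : R) (w : List Let) : Matrix D.Idx D.Idx R := (w.map (lm D t u)).prod

theorem ev_run (t u : R) (w : List Let) (v : List Ent) (a : D.Idx) :
    ev t u (run (NN D) w v) (enc D a) = ∑ b, wm D t u w a b * ev t u v (enc D b) := by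
  induction w generalizing a with
  | nil => simp [run, wm, Matrix.one_apply]
  | cons l w ih =>
    have : run (NN D) (l :: w) v = app (NN D) l (run (NN D) w v) := rfl
    rw [this, ev_app]
    simp only [ih, wm, List.map_cons, List.prod_cons, Matrix.mul_apply, Finset.sum_mul,
      Finset.mul_sum, mul_assoc]
    exact Finset.sum_comm

theorem ev_run_one (t u : R) (w : List Let) (c : ℤ) (a b : D.Idx) :
    ev t u (run (NN D) w [⟨enc D b, 0, 0, c⟩]) (enc D a) = wm D t u w a b * c := by
  rw [ev_run, Finset.sum_eq_single b]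
  · simp [ev]
  · intro b' _ hb'
    simp [ev, (enc_inj D).ne hb'.symm]
  · simp

theorem wm_eq_of_chk (t u : R) {w1 w2 : List Let} (h : chk (NN D) w1 w2 = true) :
    wm D t u w1 = wm D t u w2 := by
  ext a b
  have := ev_of_zero2 t u (allLt_iff.1 h _ (enc_lt D b)) (enc D a)
  rw [ev_run_one, ev_run_one] at this
  simpa [add_neg_eq_zero] using this

theorem ev_expand (t u : R) (C : Col) (a : ℕ) : ev t u (expand C) a = -evC (t + u) C a := by
  induction C with
  | nil => simp [expand, ev, evC]
  | cons x C ih =>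
    have h1 : ∀ v w : List Ent, ev t u (v ++ w) a = ev t u v a + ev t u w a := by
      intro v w; simp [ev]
    rw [expand, List.flatMap_cons, h1, evC_cons, neg_add]
    congr 1
    simp only [ev, List.map_map, Function.comp_def]
    split_ifs
    · have hl : ∀ (f : ℕ → R) (n : ℕ), ((List.range n).map f).sum = ∑ i ∈ Finset.range n, f i :=
        fun f n => rfl
      rw [add_pow, hl, Finset.mul_sum, ← Finset.sum_neg_distrib]
      refine Finset.sum_congr rfl fun i _ => ?_
      push_cast; ring
    · simp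

theorem SM_add_of_chkA {S : ℕ → Col} (h : chkA (NN D) S = true) (t u : R) :
    SM D (pl S) t * SM D (pl S) u = SM D (pl S) (t + u) := by
  ext a b
  have := ev_of_zero2 t u (allLt_iff.1 h _ (enc_lt D b)) (enc D a)
  rw [ev_run_one, ev_expand] at this
  simpa [wm, lm, add_neg_eq_zero, SM, Let.full] using this

end sem

end Cfsg.Agent.H9.Chev
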