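import Mathlib

/-!
Abstract structure theory of a Chevalley group given as a matrix group: root elements, torus, the
elements `n_p`, commutator relations, unipotent subgroups.
-/

set_option autoImplicit false
set_option linter.unusedSectionVars false

namespace Cfsg.Agent.H9.Chev

open Subgroup

structure Dat (I Φ : Type) [Fintype I] [DecidableEq I] (l : ℕ) (F : Type*) [Field F] where
  x : Φ → F → GL I F
  gr : I → Fin l → ℤ
  e : Φ → I
  hh : Fin l → I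
  neg : Φ → Φ
  sm : Fin l → Φ
  w : Fin l → Φ → Φ
  A : Fin l → Fin l → ℤ

variable {I Φ : Type} [Fintype I] [DecidableEq I] {l : ℕ} {F : Type*} [Field F]

/-- the height -/
def ht (l : ℕ) : (Fin l → ℤ) →+ ℤ where
  toFun v := ∑ i, v i
  map_zero' := by simp
  map_add' v w := by simp [Finset.sum_add_distrib]

/-- a coordinate -/
def co (p : Fin l) : (Fin l → ℤ) →+ ℤ := Pi.evalAddMonoidHom (fun _ => ℤ) p

/-- the character `v ↦ a ^ f v` -/
def pc (f : (Fin l → ℤ) →+ ℤ) (a : Fˣ) : AddChar (Fin l → ℤ) Fˣ where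
  toFun v := a ^ f v
  map_zero_eq_one' := by simp
  map_add_eq_mul' v w := by simp [zpow_add]

theorem pc_apply (f : (Fin l → ℤ) →+ ℤ) (a : Fˣ) (v : Fin l → ℤ) : pc f a v = a ^ f v := rfl

namespace Dat

variable (d : Dat I Φ l F)

def rt (r : Φ) : Fin l → ℤ := d.gr (d.e r)

def n (p : Fin l) : GL I F := d.x (d.sm p) 1 * d.x (d.neg (d.sm p)) (-1) * d.x (d.sm p) 1

/-- pairing with a fundamental coroot -/
def pr (p : Fin l) : (Fin l → ℤ) →+ ℤ where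
  toFun v := ∑ j, d.A p j * v j
  map_zero' := by simp
  map_add' v w := by simp [mul_add, Finset.sum_add_distrib]

def W (p : Fin l) : (Fin l → ℤ) →+ (Fin l → ℤ) where
  toFun v := v - d.pr p v • Pi.single p 1
  map_zero' := by simp
  map_add' v w := by rw [map_add, add_smul]; abel

theorem W_apply (p : Fin l) (v : Fin l → ℤ) : d.W p v = v - d.pr p v • Pi.single p 1 := rfl

def US (S : Set Φ) : Subgroup (GL I F) := closure {g | ∃ r ∈ S, ∃ t, g = d.x r t}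

def D : AddChar (Fin l → ℤ) Fˣ →* GL I F where
  toFun χ := ⟨Matrix.diagonal fun a => (χ (d.gr a) : F), Matrix.diagonal fun a => ((χ (d.gr a))⁻¹ : Fˣ),
    by simp [Matrix.diagonal_mul_diagonal], by simp [Matrix.diagonal_mul_diagonal]⟩
  map_one' := by ext a b; simp
  map_mul' χ ψ := Units.ext (by simp [Matrix.diagonal_mul_diagonal])

theorem D_val (χ : AddChar (Fin l → ℤ) Fˣ) :
    (d.D χ).1 = Matrix.diagonal fun a => (χ (d.gr a) : F) := rfl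

def T : Subgroup (GL I F) := d.D.range

def Sum2 (r s : Φ) : Set Φ := {k | ∃ i j : ℕ, 1 ≤ i ∧ 1 ≤ j ∧ d.rt k = i • d.rt r + j • d.rt s}

structure Ax : Prop where
  x_add : ∀ r t u, d.x r (t + u) = d.x r t * d.x r u
  gr_hh : ∀ i, d.gr (d.hh i) = 0
  rt_neg : ∀ r, d.rt (d.neg r) = -d.rt r
  rt_sm : ∀ p, d.rt (d.sm p) = Pi.single p 1
  rt_inj : Function.Injective d.rt
  ht_ne : ∀ r, ht l (d.rt r) ≠ 0
  supp : ∀ r t a b, (d.x r t).1 a b ≠ (1 : Matrix I I F) a b →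
    ∃ k : ℕ, 1 ≤ k ∧ d.gr a = d.gr b + k • d.rt r
  torus : ∀ (χ : AddChar (Fin l → ℤ) Fˣ) r t a b,
    (χ (d.gr a) : F) * (d.x r t).1 a b = (d.x r (χ (d.rt r) * t)).1 a b * χ (d.gr b)
  tau : ∀ r, ∃ c : Fin l → ℤ, ∀ t, ∑ i, (c i : F) * (d.x r t).1 (d.hh i) (d.e (d.neg r)) = t
  n_conj : ∀ p r, ∃ ε : F, (ε = 1 ∨ ε = -1) ∧ ∀ t, d.n p * d.x r t = d.x (d.w p r) (ε * t) * d.n p ∧
    d.n p * d.x (d.neg r) t = d.x (d.w p (d.neg r)) (ε * t) * d.n p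
  n_gr : ∀ p a b, (d.n p).1 a b ≠ 0 → d.gr a = d.W p (d.gr b)
  rt_w : ∀ p r, d.rt (d.w p r) = d.W p (d.rt r)
  A_self : ∀ p, d.A p p = 2
  w_pos : ∀ p r, 0 < ht l (d.rt r) → r ≠ d.sm p → 0 < ht l (d.rt (d.w p r))
  reach : ∃ P0 : Fin l → Prop, (∀ P : Φ → Prop, (∀ p, P0 p → P (d.sm p)) →
      (∀ p r, P r → P (d.w p r)) → ∀ r, P r) ∧
    ∀ p, P0 p → ∀ s, s ≠ d.sm p → s ≠ d.neg (d.sm p) → ∀ t u,
      (d.x s u)⁻¹ * (d.x (d.sm p) t)⁻¹ * d.x s u * d.x (d.sm p) t ∈ d.US (d.Sum2 (d.sm p) s)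

variable {d}

theorem x_mem_US {S : Set Φ} {r : Φ} (hr : r ∈ S) (t : F) : d.x r t ∈ d.US S :=
  subset_closure ⟨r, hr, t, rfl⟩

theorem US_mono {S S' : Set Φ} (h : S ⊆ S') : d.US S ≤ d.US S' :=
  closure_mono fun _ ⟨r, hr, t, ht⟩ => ⟨r, h hr, t, ht⟩

theorem US_le {S : Set Φ} {H : Subgroup (GL I F)} (h : ∀ r ∈ S, ∀ t, d.x r t ∈ H) : d.US S ≤ H :=
  (closure_le _).2 fun _ ⟨r, hr, t, ht⟩ => ht ▸ h r hr t

theorem conj_US {S S' : Set Φ} {g : GL I F} (h : ∀ r ∈ S, ∀ t, g * d.x r t * g⁻¹ ∈ d.US S')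
    {u : GL I F} (hu : u ∈ d.US S) : g * u * g⁻¹ ∈ d.US S' :=
  US_le (H := (d.US S').comap (MulAut.conj g).toMonoidHom) h hu

theorem D_mem (χ : AddChar (Fin l → ℤ) Fˣ) : d.D χ ∈ d.T := ⟨χ, rfl⟩

namespace Ax

variable (h : d.Ax)
include h

theorem x_zero (r : Φ) : d.x r 0 = 1 := by
  have := h.x_add r 0 0
  rw [add_zero] at this
  exact left_eq_mul.1 this

theorem x_inv (r : Φ) (t : F) : (d.x r t)⁻¹ = d.x r (-t) := by
  rw [inv_eq_iff_mul_eq_one, ← h.x_add, add_neg_cancel, h.x_zero]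

theorem US_ind {S : Set Φ} {P : GL I F → Prop} (h1 : P 1)
    (hm : ∀ r ∈ S, ∀ t g, g ∈ d.US S → P g → P (d.x r t * g)) {g : GL I F} (hg : g ∈ d.US S) :
    P g := by
  induction hg using closure_induction_left with
  | one => exact h1
  | mul_left x hx y hy ih => obtain ⟨r, hr, t, rfl⟩ := hx; exact hm r hr t y hy ih
  | inv_mul_cancel x hx y hy ih =>
    obtain ⟨r, hr, t, rfl⟩ := hx; rw [h.x_inv]; exact hm r hr _ y hy ih

theorem D_x (χ : AddChar (Fin l → ℤ) Fˣ) (r : Φ) (t : F) :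
    d.D χ * d.x r t = d.x r (χ (d.rt r) * t) * d.D χ := by
  ext a b
  simp only [Units.val_mul, D_val, Matrix.diagonal_mul, Matrix.mul_diagonal]
  exact h.torus χ r t a b

theorem T_conj {S : Set Φ} {t u : GL I F} (ht : t ∈ d.T) (hu : u ∈ d.US S) :
    t * u * t⁻¹ ∈ d.US S := by
  obtain ⟨χ, rfl⟩ := ht
  exact conj_US (fun r hr t => by rw [h.D_x, mul_inv_cancel_right]; exact x_mem_US hr _) hu

theorem pr_single (p : Fin l) : d.pr p (Pi.single p 1) = 2 := by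
  change ∑ j, d.A p j * (Pi.single p 1 : Fin l → ℤ) j = 2
  rw [Finset.sum_eq_single p] <;> simp +contextual [h.A_self, Pi.single_apply]

theorem W_single (p : Fin l) : d.W p (Pi.single p 1) = -Pi.single p 1 := by
  rw [W_apply, h.pr_single, two_smul]; abel

theorem W_W (p : Fin l) (v : Fin l → ℤ) : d.W p (d.W p v) = v := by
  rw [W_apply d p v, map_sub, map_zsmul, h.W_single, W_apply, smul_neg]; abel

theorem neg_neg (r : Φ) : d.neg (d.neg r) = r := h.rt_inj (by rw [h.rt_neg, h.rt_neg, _root_.neg_neg])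

theorem w_w (p : Fin l) (r : Φ) : d.w p (d.w p r) = r := h.rt_inj (by rw [h.rt_w, h.rt_w, h.W_W])

theorem w_inj (p : Fin l) : Function.Injective (d.w p) :=
  Function.LeftInverse.injective (h.w_w p)

theorem w_neg (p : Fin l) (r : Φ) : d.w p (d.neg r) = d.neg (d.w p r) :=
  h.rt_inj (by rw [h.rt_w, h.rt_neg, h.rt_neg, h.rt_w, map_neg])

theorem w_sm (p : Fin l) : d.w p (d.sm p) = d.neg (d.sm p) :=
  h.rt_inj (by rw [h.rt_w, h.rt_neg, h.rt_sm, h.W_single])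

theorem ht_sm (p : Fin l) : ht l (d.rt (d.sm p)) = 1 := by
  rw [h.rt_sm]; simp [ht, Pi.single_apply]

theorem n_D (p : Fin l) (χ : AddChar (Fin l → ℤ) Fˣ) :
    d.n p * d.D χ = d.D (χ.compAddMonoidHom (d.W p)) * d.n p := by
  ext a b
  simp only [Units.val_mul, D_val, Matrix.diagonal_mul, Matrix.mul_diagonal]
  by_cases h0 : (d.n p).1 a b = 0
  · simp [h0]
  · rw [h.n_gr p a b h0, AddChar.compAddMonoidHom_apply, h.W_W, mul_comm]

theorem n_gen (p : Fin l) (a : Fˣ) :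
    d.x (d.sm p) a * d.x (d.neg (d.sm p)) (-(a : F)⁻¹) * d.x (d.sm p) a =
      d.D (pc (d.pr p) a) * d.n p := by
  have h1 : d.D (pc (co p) a) * d.n p =
      d.x (d.sm p) a * d.x (d.neg (d.sm p)) (-(a : F)⁻¹) * d.x (d.sm p) a * d.D (pc (co p) a) := by
    simp only [n, ← mul_assoc, h.D_x]
    simp only [mul_assoc, h.D_x]
    simp [pc_apply, h.rt_neg, h.rt_sm, co]
  have h2 := h.n_D p (pc (co p) a)⁻¹
  rw [← mul_inv_eq_iff_eq_mul] at h1
  rw [← h1, ← map_inv, mul_assoc, h2, ← mul_assoc, ← map_mul]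
  congr 2
  ext v
  simp [pc_apply, W_apply, co, ← zpow_neg, ← zpow_add, AddChar.inv_apply']

theorem n_inv (p : Fin l) : (d.n p)⁻¹ = d.D (pc (d.pr p) (-1)) * d.n p := by
  rw [← h.n_gen]; simp [n, h.x_inv, mul_assoc]

theorem n_sq (p : Fin l) : d.n p * d.n p ∈ d.T := by
  have : d.n p * d.n p = (d.D (pc (d.pr p) (-1)))⁻¹ := by
    rw [← mul_inv_eq_iff_eq_mul.2 (h.n_inv p)]; simp
  rw [this]; exact inv_mem (D_mem _)

theorem comm (r s : Φ) (h1 : s ≠ r) (h2 : s ≠ d.neg r) (t u : F) :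
    (d.x s u)⁻¹ * (d.x r t)⁻¹ * d.x s u * d.x r t ∈ d.US (d.Sum2 r s) := by
  obtain ⟨P0, hP, h0⟩ := h.reach
  revert s t u
  refine hP (fun r => ∀ s, s ≠ r → s ≠ d.neg r → ∀ t u,
    (d.x s u)⁻¹ * (d.x r t)⁻¹ * d.x s u * d.x r t ∈ d.US (d.Sum2 r s)) h0 ?_ r
  intro p r ih s h1 h2 t u
  obtain ⟨s, rfl⟩ : ∃ s', d.w p s' = s := ⟨_, h.w_w p s⟩
  obtain ⟨ε, hε, hr⟩ := h.n_conj p r
  obtain ⟨η, hη, hs⟩ := h.n_conj p s
  have e1 : d.x (d.w p r) t = d.n p * d.x r (ε * t) * (d.n p)⁻¹ := by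
    rw [(hr _).1, mul_inv_cancel_right]; rcases hε with rfl | rfl <;> simp
  have e2 : d.x (d.w p s) u = d.n p * d.x s (η * u) * (d.n p)⁻¹ := by
    rw [(hs _).1, mul_inv_cancel_right]; rcases hη with rfl | rfl <;> simp
  have := conj_US (g := d.n p) (S' := d.Sum2 (d.w p r) (d.w p s)) ?_
    (ih s (fun e => h1 (e ▸ rfl)) (fun e => h2 (by rw [e, h.w_neg])) (ε * t) (η * u))
  · rw [e1, e2]; convert this using 1; group
  · rintro k ⟨i, j, hi, hj, hk⟩ t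
    obtain ⟨θ, -, hθ⟩ := h.n_conj p k
    rw [(hθ _).1, mul_inv_cancel_right]
    exact x_mem_US (S := d.Sum2 _ _) ⟨i, j, hi, hj, by simp only [h.rt_w, hk, map_add, map_nsmul]⟩ _

end Ax

/-- upper closed sets of positive roots -/
def Up (d : Dat I Φ l F) (f : (Fin l → ℤ) →+ ℤ) (S : Set Φ) : Prop :=
  ∀ r ∈ S, 0 < f (d.rt r) ∧ ∀ s, f (d.rt r) < f (d.rt s) → s ∈ S

def Pos (d : Dat I Φ l F) (f : (Fin l → ℤ) →+ ℤ) : Set Φ := {r | 0 < f (d.rt r)}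

theorem up_pos (f : (Fin l → ℤ) →+ ℤ) : d.Up f (d.Pos f) := fun _ hr => ⟨hr, fun _ hs => hr.trans hs⟩

/-- filtration of unitriangular matrices -/
def Fil (d : Dat I Φ l F) (f : (Fin l → ℤ) →+ ℤ) (k : ℤ) (M : Matrix I I F) : Prop :=
  ∀ a b, f (d.gr a) - f (d.gr b) < k → M a b = (1 : Matrix I I F) a b

theorem Fil.mul_apply {f : (Fin l → ℤ) →+ ℤ} {k : ℤ} (hk : 0 < k) {M M' : Matrix I I F}
    (h1 : d.Fil f k M) (h2 : d.Fil f k M') {a b : I} (hab : f (d.gr a) - f (d.gr b) ≤ k) :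
    (M * M') a b = M a b + M' a b - (1 : Matrix I I F) a b := by
  have : M * M' = (M - 1) * (M' - 1) + M + M' - 1 := by noncomm_ring
  rw [this]
  have h0 : ((M - 1) * (M' - 1)) a b = 0 := by
    rw [Matrix.mul_apply]
    refine Finset.sum_eq_zero fun c _ => ?_
    by_cases hc : f (d.gr a) - f (d.gr c) < k
    · simp [h1 a c hc]
    · simp [h2 c b (by omega)]
  simp [h0]

theorem Fil.mul {f : (Fin l → ℤ) →+ ℤ} {k : ℤ} (hk : 0 < k) {M M' : Matrix I I F}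
    (h1 : d.Fil f k M) (h2 : d.Fil f k M') : d.Fil f k (M * M') := fun a b hab => by
  rw [h1.mul_apply hk h2 hab.le, h1 a b hab, h2 a b hab, add_sub_cancel_right]

namespace Ax

variable (h : d.Ax)
include h

theorem fil_x {f : (Fin l → ℤ) →+ ℤ} {k : ℤ} (hk : 0 < k) {r : Φ} (hr : k ≤ f (d.rt r)) (t : F) :
    d.Fil f k (d.x r t).1 := fun a b hab => by
  by_contra hne
  obtain ⟨j, hj, e⟩ := h.supp r t a b hne
  rw [e, map_add, map_nsmul, nsmul_eq_mul] at hab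
  have : (1 : ℤ) ≤ j := by exact_mod_cast hj
  nlinarith

theorem fil_US {f : (Fin l → ℤ) →+ ℤ} {k : ℤ} (hk : 0 < k) {S : Set Φ}
    (hS : ∀ r ∈ S, k ≤ f (d.rt r)) {u : GL I F} (hu : u ∈ d.US S) : d.Fil f k u.1 :=
  h.US_ind (P := fun u => d.Fil f k u.1) (fun _ _ _ => rfl)
    (fun r hr t _ _ ih => (h.fil_x hk (hS r hr) t).mul hk ih) hu

theorem zero_US {f : (Fin l → ℤ) →+ ℤ} {r : Φ} (hk : 0 < f (d.rt r)) {S : Set Φ}
    (hS : ∀ s ∈ S, f (d.rt r) ≤ f (d.rt s)) (hr : r ∉ S) {u : GL I F} (hu : u ∈ d.US S) {a b : I}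
    (hab : d.gr a = d.gr b + d.rt r) : u.1 a b = 0 := by
  have hne : a ≠ b := by
    rintro rfl
    rw [left_eq_add] at hab
    simp [hab] at hk
  refine h.US_ind (P := fun u => u.1 a b = 0) (by simp [hne]) (fun s hs t g hg ih => ?_) hu
  rw [Units.val_mul, (h.fil_x hk (hS s hs) t).mul_apply hk (h.fil_US hk hS hg) (by simp [hab]), ih]
  have : (d.x s t).1 a b = (1 : Matrix I I F) a b := by
    by_contra hn
    obtain ⟨j, hj, e⟩ := h.supp s t a b hn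
    rw [hab, add_right_inj] at e
    have e2 := congrArg f e
    rw [map_nsmul, nsmul_eq_mul] at e2
    have := hS s hs
    have hj1 : j = 1 := by
      by_contra hj1
      have : (2 : ℤ) ≤ j := by exact_mod_cast (by omega : 2 ≤ j)
      nlinarith
    rw [hj1, one_smul] at e
    exact hr (h.rt_inj e ▸ hs)
  simp [this]

theorem conj_x_mem {f : (Fin l → ℤ) →+ ℤ} {S : Set Φ} (hS : d.Up f S) {r : Φ}
    (hr : 0 < f (d.rt r)) (t : F) {u : GL I F} (hu : u ∈ d.US S) :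
    d.x r t * u * (d.x r t)⁻¹ ∈ d.US S := by
  refine conj_US (fun s hs c => ?_) hu
  by_cases e : s = r
  · subst e; rw [h.x_inv, ← h.x_add, ← h.x_add]; exact x_mem_US hs _
  have h2 : s ≠ d.neg r := by
    rintro rfl
    have := (hS _ hs).1
    rw [h.rt_neg, map_neg] at this; omega
  have := US_mono (S' := S) ?_ (h.comm r s e h2 (-t) c)
  · convert mul_mem (x_mem_US hs c) this using 1
    rw [← h.x_inv]; group
  · rintro k ⟨i, j, hi, hj, hk⟩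
    refine (hS s hs).2 k ?_
    have := (hS s hs).1
    rw [hk, map_add, map_nsmul, map_nsmul, nsmul_eq_mul, nsmul_eq_mul]
    have : (1 : ℤ) ≤ j := by exact_mod_cast hj
    have : (1 : ℤ) ≤ i := by exact_mod_cast hi
    nlinarith

theorem peel {f : (Fin l → ℤ) →+ ℤ} {S : Set Φ} {r : Φ} (hS : d.Up f (S \ {r}))
    (hr : 0 < f (d.rt r)) {u : GL I F} (hu : u ∈ d.US S) :
    ∃ t, ∃ u' ∈ d.US (S \ {r}), u = d.x r t * u' := by
  refine h.US_ind (P := fun u => ∃ t, ∃ u' ∈ d.US (S \ {r}), u = d.x r t * u')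
    ⟨0, 1, one_mem _, by simp [h.x_zero]⟩ ?_ hu
  rintro s hs c g - ⟨t, u', hu', rfl⟩
  by_cases e : s = r
  · subst e; exact ⟨c + t, u', hu', by rw [h.x_add, mul_assoc]⟩
  · refine ⟨t, _, mul_mem (h.conj_x_mem hS hr (-t) (x_mem_US (S := S \ {r}) ⟨hs, e⟩ c)) hu', ?_⟩
    rw [← h.x_inv]; group

omit h in
theorem up_ind [Finite Φ] {f : (Fin l → ℤ) →+ ℤ} {P : Set Φ → Prop} (h0 : P ∅)
    (h1 : ∀ S r, d.Up f S → r ∈ S → (∀ s ∈ S, f (d.rt r) ≤ f (d.rt s)) → d.Up f (S \ {r}) →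
      P (S \ {r}) → P S) (S : Set Φ) (hS : d.Up f S) : P S := by
  induction hn : S.ncard using Nat.strong_induction_on generalizing S with
  | _ n ih =>
    rcases S.eq_empty_or_nonempty with rfl | hne
    · exact h0
    obtain ⟨r, hr, hmin⟩ := Set.exists_min_image S (fun r => f (d.rt r)) (Set.toFinite S) hne
    have hup : d.Up f (S \ {r}) := fun s hs => ⟨(hS s hs.1).1, fun s' hs' => ⟨(hS s hs.1).2 s' hs', by
      rintro rfl; exact absurd (hmin s hs.1) (not_le.2 hs')⟩⟩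
    exact h1 S r hS hr hmin hup
      (ih _ (hn ▸ Set.ncard_sdiff_singleton_lt_of_mem hr (Set.toFinite S)) _ hup rfl)

theorem split [Finite Φ] {f : (Fin l → ℤ) →+ ℤ} (P : Set Φ) {S : Set Φ} (hS : d.Up f S) :
    ∀ u ∈ d.US S, ∃ a ∈ d.US (S ∩ P), ∃ b ∈ d.US (S \ P), u = a * b := by
  refine up_ind (P := fun S => ∀ u ∈ d.US S, ∃ a ∈ d.US (S ∩ P), ∃ b ∈ d.US (S \ P), u = a * b)
    ?_ ?_ S hS
  · intro u hu
    exact ⟨u, by simpa using hu, 1, one_mem _, by simp⟩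
  intro S r hS hr _ hup ih u hu
  have m1 : d.US ((S \ {r}) ∩ P) ≤ d.US (S ∩ P) := US_mono fun _ hx => ⟨hx.1.1, hx.2⟩
  have m2 : d.US ((S \ {r}) \ P) ≤ d.US (S \ P) := US_mono fun _ hx => ⟨hx.1.1, hx.2⟩
  obtain ⟨t, u', hu', rfl⟩ := h.peel hup (hS r hr).1 hu
  by_cases hP : r ∈ P
  · obtain ⟨a, ha, b, hb, rfl⟩ := ih u' hu'
    exact ⟨_, mul_mem (x_mem_US (S := S ∩ P) ⟨hr, hP⟩ t) (m1 ha), b, m2 hb, by rw [mul_assoc]⟩
  · obtain ⟨a, ha, b, hb, e⟩ := ih _ (h.conj_x_mem hup (hS r hr).1 t hu')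
    exact ⟨a, m1 ha, _, mul_mem (m2 hb) (x_mem_US (S := S \ P) ⟨hr, hP⟩ t), by rw [← mul_assoc, ← e]; group⟩

theorem tau_peel {f : (Fin l → ℤ) →+ ℤ} {r : Φ} (hk : 0 < f (d.rt r)) :
    ∃ c : Fin l → ℤ, ∀ S : Set Φ, (∀ s ∈ S, f (d.rt r) ≤ f (d.rt s)) → r ∉ S → ∀ u ∈ d.US S, ∀ t,
      ∑ i, (c i : F) * (d.x r t * u).1 (d.hh i) (d.e (d.neg r)) = t := by
  obtain ⟨c, hc⟩ := h.tau r
  refine ⟨c, fun S hS hr u hu t => ?_⟩
  conv_rhs => rw [← hc t]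
  refine Finset.sum_congr rfl fun i _ => ?_
  have e : d.gr (d.hh i) = d.gr (d.e (d.neg r)) + d.rt r := by
    rw [h.gr_hh]; exact (by rw [h.rt_neg]; simp : 0 = d.rt (d.neg r) + d.rt r)
  rw [Units.val_mul, (h.fil_x hk le_rfl t).mul_apply hk (h.fil_US hk hS hu) (by simp [e]),
    h.zero_US hk hS hr hu e,
    show (1 : Matrix I I F) _ _ = 0 from h.zero_US (S := ∅) hk (by simp) (by simp) (one_mem _) e]
  simp

/-- uniqueness of the `U T V` decomposition -/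
theorem ldu {u u' v v' t t' : GL I F} (hu : u ∈ d.US (d.Pos (ht l))) (hu' : u' ∈ d.US (d.Pos (ht l)))
    (hv : v ∈ d.US (d.Pos (-ht l))) (hv' : v' ∈ d.US (d.Pos (-ht l))) (h1 : t ∈ d.T) (h2 : t' ∈ d.T)
    (e : u * t * v = u' * t' * v') : u = u' ∧ t = t' ∧ v = v' := by
  have e1 : (u'⁻¹ * u) * t = t' * (v' * v⁻¹) := by
    rw [← mul_inv_eq_iff_eq_mul] at e; rw [← inv_mul_eq_iff_eq_mul.2 e]; group
  have f1 := h.fil_US (k := 1) one_pos (fun _ hr => hr) (mul_mem (inv_mem hu') hu)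
  have f2 := h.fil_US (k := 1) one_pos (fun _ hr => hr) (mul_mem hv' (inv_mem hv))
  obtain ⟨χ, rfl⟩ := h1
  obtain ⟨ψ, rfl⟩ := h2
  have e2 : ∀ a b, (u'⁻¹ * u).1 a b * χ (d.gr b) = ψ (d.gr a) * (v' * v⁻¹).1 a b := fun a b => by
    have := congrArg (fun g : GL I F => g.1 a b) e1
    simpa only [Units.val_mul _ (d.D χ), Units.val_mul (d.D ψ), D_val, Matrix.diagonal_mul,
      Matrix.mul_diagonal] using this
  have g1 : u'⁻¹ * u = 1 := by
    ext a b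
    by_cases hab : ht l (d.gr a) - ht l (d.gr b) < 1
    · exact f1 a b hab
    · have hne : a ≠ b := by rintro rfl; simp at hab
      have := e2 a b
      rw [f2 a b (by simp only [AddMonoidHom.neg_apply]; omega)] at this
      simpa [hne] using this
  have g2 : v' * v⁻¹ = 1 := by
    ext a b
    by_cases hab : (-ht l) (d.gr a) - (-ht l) (d.gr b) < 1
    · exact f2 a b hab
    · have hne : a ≠ b := by rintro rfl; simp at hab
      have := e2 a b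
      rw [f1 a b (by simp only [AddMonoidHom.neg_apply] at hab; omega)] at this
      simpa [hne] using this
  rw [g1, g2, one_mul, mul_one] at e1
  exact ⟨(inv_mul_eq_one.1 g1).symm, e1, (mul_inv_eq_one.1 g2).symm⟩

end Ax

/-- products of the elements `n_p` -/
def nw (d : Dat I Φ l F) (L : List (Fin l)) : GL I F := (L.map d.n).prod

def ww (d : Dat I Φ l F) (L : List (Fin l)) (r : Φ) : Φ := L.foldr d.w r

theorem nw_cons (p : Fin l) (L : List (Fin l)) : d.nw (p :: L) = d.n p * d.nw L := by simp [nw]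

theorem ww_cons (p : Fin l) (L : List (Fin l)) (r : Φ) : d.ww (p :: L) r = d.w p (d.ww L r) := rfl

/-- Bruhat cells -/
def Cell (d : Dat I Φ l F) (L : List (Fin l)) (g : GL I F) : Prop :=
  ∃ u ∈ d.US (d.Pos (ht l)), ∃ t ∈ d.T, ∃ u' ∈ d.US (d.Pos (ht l)), g = u * t * d.nw L * u'

namespace Ax

variable (h : d.Ax)
include h

theorem ww_neg (L : List (Fin l)) (r : Φ) : d.ww L (d.neg r) = d.neg (d.ww L r) := by
  induction L with
  | nil => rfl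
  | cons p L ih => rw [ww_cons, ww_cons, ih, h.w_neg]

theorem ww_surj (L : List (Fin l)) : Function.Surjective (d.ww L) := by
  induction L with
  | nil => exact fun r => ⟨r, rfl⟩
  | cons p L ih =>
    intro r
    obtain ⟨s, hs⟩ := ih (d.w p r)
    exact ⟨s, by rw [ww_cons, hs, h.w_w]⟩

theorem nw_conj (L : List (Fin l)) (r : Φ) : ∃ ε : F, (ε = 1 ∨ ε = -1) ∧ ∀ t,
    d.nw L * d.x r t = d.x (d.ww L r) (ε * t) * d.nw L ∧
    d.nw L * d.x (d.neg r) t = d.x (d.neg (d.ww L r)) (ε * t) * d.nw L := by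
  induction L with
  | nil => exact ⟨1, Or.inl rfl, fun t => by simp [nw, ww]⟩
  | cons p L ih =>
    obtain ⟨ε, hε, h1⟩ := ih
    obtain ⟨η, hη, h2⟩ := h.n_conj p (d.ww L r)
    refine ⟨η * ε, by rcases hε with rfl | rfl <;> rcases hη with rfl | rfl <;> simp, fun t => ⟨?_, ?_⟩⟩
    · rw [nw_cons, mul_assoc, (h1 t).1, ← mul_assoc, (h2 _).1, ww_cons, mul_assoc, mul_assoc]
    · rw [nw_cons, mul_assoc, (h1 t).2, ← mul_assoc, (h2 _).2, ww_cons, mul_assoc, mul_assoc, h.w_neg]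

theorem x_nw (L : List (Fin l)) (r : Φ) (t : F) :
    ∃ c, d.x (d.ww L r) t * d.nw L = d.nw L * d.x r c := by
  obtain ⟨ε, hε, h1⟩ := h.nw_conj L r
  exact ⟨ε * t, by rw [(h1 _).1]; rcases hε with rfl | rfl <;> simp⟩

theorem n_T (p : Fin l) {t : GL I F} (ht : t ∈ d.T) : d.n p * t * (d.n p)⁻¹ ∈ d.T := by
  obtain ⟨χ, rfl⟩ := ht
  rw [h.n_D, mul_inv_cancel_right]; exact D_mem _

theorem nw_T (L : List (Fin l)) {t : GL I F} (ht : t ∈ d.T) : d.nw L * t * (d.nw L)⁻¹ ∈ d.T := by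
  induction L with
  | nil => simpa [nw] using ht
  | cons p L ih => convert h.n_T p ih using 1; rw [nw_cons]; group

theorem cell_U {L : List (Fin l)} {g u : GL I F} (hu : u ∈ d.US (d.Pos (ht l))) (hg : d.Cell L g) :
    d.Cell L (u * g) := by
  obtain ⟨a, ha, t, ht, b, hb, rfl⟩ := hg
  exact ⟨_, mul_mem hu ha, t, ht, b, hb, by group⟩

theorem cell_T {L : List (Fin l)} {g s : GL I F} (hs : s ∈ d.T) (hg : d.Cell L g) :
    d.Cell L (s * g) := by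
  obtain ⟨a, ha, t, ht, b, hb, rfl⟩ := hg
  exact ⟨_, h.T_conj hs ha, _, mul_mem hs ht, b, hb, by group⟩

theorem sm_pos (p : Fin l) : d.sm p ∈ d.Pos (ht l) := by
  change 0 < ht l _; rw [h.ht_sm]; exact one_pos

theorem neg_pos {r : Φ} (hr : r ∉ d.Pos (ht l)) : d.neg r ∈ d.Pos (ht l) := by
  have := h.ht_ne r
  simp only [Pos, Set.mem_ofPred_eq, h.rt_neg, map_neg] at hr ⊢
  omega

theorem cell_n [Finite Φ] (p : Fin l) {L : List (Fin l)} {g : GL I F} (hg : d.Cell L g) :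
    d.Cell (p :: L) (d.n p * g) ∨
      (d.Cell L (d.n p * g) ∧ ∃ r ∉ d.Pos (ht l), d.ww L r = d.sm p) := by
  obtain ⟨u, hu, t, ht, b, hb, rfl⟩ := hg
  obtain ⟨u1, hu1, u2, hu2, rfl⟩ := h.split {d.sm p}ᶜ (up_pos _) u hu
  have hn1 : d.n p * u1 * (d.n p)⁻¹ ∈ d.US (d.Pos (Chev.ht l)) := by
    refine conj_US (fun r hr c => ?_) hu1
    obtain ⟨ε, -, hε⟩ := h.n_conj p r
    rw [(hε _).1, mul_inv_cancel_right]
    exact x_mem_US (S := d.Pos (Chev.ht l)) (h.w_pos p r hr.1 hr.2) _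
  obtain ⟨a, ha⟩ : ∃ a, t⁻¹ * u2 * t⁻¹⁻¹ = d.x (d.sm p) a := by
    refine h.US_ind (P := fun g => ∃ a, g = d.x (d.sm p) a) ⟨0, (h.x_zero _).symm⟩ ?_
      (h.T_conj (inv_mem ht) hu2)
    rintro r hr c g - ⟨a, rfl⟩
    obtain rfl : r = d.sm p := by simpa using hr.2
    exact ⟨c + a, (h.x_add _ _ _).symm⟩
  have e : d.n p * (u1 * u2 * t * d.nw L * b) = d.n p * u1 * (d.n p)⁻¹ *
      (d.n p * t * (d.n p)⁻¹ * (d.n p * d.x (d.sm p) a * d.nw L * b)) := by rw [← ha]; group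
  rw [e]
  suffices d.Cell (p :: L) (d.n p * d.x (d.sm p) a * d.nw L * b) ∨
      (d.Cell L (d.n p * d.x (d.sm p) a * d.nw L * b) ∧ ∃ r ∉ d.Pos (Chev.ht l), d.ww L r = d.sm p) from
    this.imp (fun h' => h.cell_U hn1 (h.cell_T (h.n_T p ht) h'))
      fun h' => ⟨h.cell_U hn1 (h.cell_T (h.n_T p ht) h'.1), h'.2⟩
  obtain ⟨r, hr⟩ := h.ww_surj L (d.sm p)
  by_cases hpos : r ∈ d.Pos (Chev.ht l)
  · obtain ⟨c, hc⟩ := h.x_nw L r a
    refine Or.inl ⟨1, one_mem _, 1, one_mem _, _, mul_mem (x_mem_US hpos c) hb, ?_⟩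
    rw [mul_assoc (d.n p), ← hr, hc, nw_cons]; group
  by_cases ha0 : a = 0
  · exact Or.inl ⟨1, one_mem _, 1, one_mem _, b, hb, by rw [ha0, h.x_zero, nw_cons]; group⟩
  refine Or.inr ⟨?_, r, hpos, hr⟩
  obtain ⟨ε, hε, h1⟩ := h.n_conj p (d.sm p)
  rw [h.w_sm] at h1
  have hc : -(ε * a)⁻¹ ≠ 0 := by rcases hε with rfl | rfl <;> simpa
  have h2 := h.n_gen p (Units.mk0 _ hc)
  simp only [Units.val_mk0, inv_neg, inv_inv, _root_.neg_neg] at h2
  obtain ⟨s, hs, h2⟩ : ∃ s ∈ d.T, d.x (d.sm p) (-(ε * a)⁻¹) * d.x (d.neg (d.sm p)) (ε * a) *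
    d.x (d.sm p) (-(ε * a)⁻¹) = s * d.n p := ⟨_, D_mem _, h2⟩
  generalize -(ε * a)⁻¹ = c at h2
  have h3 : d.x (d.neg (d.sm p)) (ε * a) = d.x (d.sm p) (-c) * s * (d.n p * d.x (d.sm p) (-c)) := by
    rw [← mul_assoc, mul_assoc _ s, ← h2, ← h.x_inv]; simp [mul_assoc]
  obtain ⟨χ, hχ⟩ := h.n_sq p
  obtain ⟨c', hc'⟩ := h.x_nw L (d.neg r) ((χ (d.rt (d.neg (d.sm p))))⁻¹.1 * (ε * -c))
  rw [h.ww_neg, hr] at hc'
  refine ⟨_, x_mem_US (h.sm_pos p) (-c), _, mul_mem hs (D_mem χ), _,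
    mul_mem (x_mem_US (h.neg_pos hpos) c') hb, ?_⟩
  have h4 := h.D_x χ (d.neg (d.sm p)) ((χ (d.rt (d.neg (d.sm p))))⁻¹.1 * (ε * -c))
  rw [Units.mul_inv_cancel_left] at h4
  rw [(h1 _).1, h3, (h1 _).1]
  simp only [mul_assoc]
  rw [← mul_assoc (d.n p), ← hχ, ← mul_assoc (d.nw L), ← hc', ← mul_assoc _ (d.D χ), ← h4]
  simp only [mul_assoc]

theorem bruhat [Finite Φ] {g : GL I F} (hg : g ∈ d.US Set.univ) : ∃ L, d.Cell L g := by
  have hn : ∀ p g, (∃ L, d.Cell L g) → ∃ L, d.Cell L (d.n p * g) := fun p g ⟨L, hL⟩ =>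
    (h.cell_n p hL).elim (fun h' => ⟨_, h'⟩) fun h' => ⟨_, h'.1⟩
  have hx : ∀ r t g, (∃ L, d.Cell L g) → ∃ L, d.Cell L (d.x r t * g) := by
    obtain ⟨P0, hP, -⟩ := h.reach
    refine hP _ (fun p _ t g ⟨L, hL⟩ => ⟨L, h.cell_U (x_mem_US (h.sm_pos p) t) hL⟩) ?_
    intro p r ih t g hg
    obtain ⟨c, hc⟩ := h.x_nw [p] r t
    have e : d.x (d.w p r) t * g =
        d.n p * (d.x r c * (d.D (pc (d.pr p) (-1)) * (d.n p * g))) := by
      rw [← mul_assoc (d.D _), ← h.n_inv, ← mul_assoc, ← mul_assoc]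
      simp only [nw, ww, List.map, List.prod_cons, List.prod_nil, mul_one, List.foldr] at hc
      rw [← hc]; group
    rw [e]
    obtain ⟨L, hL⟩ := hn p g hg
    exact hn p _ (ih _ _ ⟨L, h.cell_T (D_mem _) hL⟩)
  exact h.US_ind (P := fun g => ∃ L, d.Cell L g)
    ⟨[], 1, one_mem _, 1, one_mem _, 1, one_mem _, by simp [nw]⟩ (fun r _ t g _ ih => hx r t g ih) hg

theorem cell_ldu [Finite Φ] {L : List (Fin l)} {g : GL I F} (hg : d.Cell L g) :
    ∃ u ∈ d.US (d.Pos (ht l)), ∃ t ∈ d.T, ∃ v ∈ d.US (d.Pos (-ht l)), g = u * t * v * d.nw L := by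
  obtain ⟨u, hu, t, h1, b, hb, rfl⟩ := hg
  obtain ⟨b1, hb1, b2, hb2, rfl⟩ := h.split (d.ww L ⁻¹' d.Pos (ht l)) (up_pos _) b hb
  have h2 : ∀ {S S' : Set Φ}, (∀ r ∈ S, d.ww L r ∈ S') → ∀ b ∈ d.US S,
      d.nw L * b * (d.nw L)⁻¹ ∈ d.US S' := fun hS b hb => conj_US (fun r hr c => by
    obtain ⟨ε, -, hε⟩ := h.nw_conj L r
    rw [(hε _).1, mul_inv_cancel_right]
    exact x_mem_US (hS r hr) _) hb
  refine ⟨_, mul_mem hu (h.T_conj h1 (h2 (fun r hr => hr.2) b1 hb1)), t, h1, _,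
    h2 (fun r hr => ?_) b2 hb2, by group⟩
  have := h.neg_pos hr.2
  simpa [Pos, h.rt_neg] using this

end Ax

end Dat

end Cfsg.Agent.H9.Chev
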