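import Cfsg.Agent.H9.ChevChk
import Cfsg.Agent.H9.ChevSys

/-!
From a kernel-checked Chevalley datum to the axioms `Dat.Ax`.
-/

set_option autoImplicit false
set_option maxRecDepth 100000

namespace Cfsg.Agent.H9.Chev

open Cfsg.Lie Cfsg.Agent.H4

/-- the non-identity part of a column of `x_r(t)` -/
def restD (D : ChevalleyDatum) (r b : ℕ) : Col :=
  if b < D.rank then [(D.rank + r, 1, -((D.cartanSR.getD b #[]).getD r 0))]
  else if b - D.rank = r then []
  else if b - D.rank = D.negIdx.getD r 0 then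
    (D.rank + r, 2, -1) :: (List.range D.rank).map fun i => (i, 1, (D.coroot.getD r #[]).getD i 0)
  else ((D.chain.getD r #[]).toList.filter (fun e => e.1 = b - D.rank)).flatMap fun e =>
    e.2.toList.zipIdx.map fun q => (D.rank + q.1.1, q.2 + 1, q.1.2)

def colD (D : ChevalleyDatum) (r : ℕ) : ℕ → Col := pl (restD D r)

theorem evC_append {R : Type*} [CommRing R] (t : R) (C C' : Col) (a : ℕ) :
    evC t (C ++ C') a = evC t C a + evC t C' a := by simp [evC]

theorem evC_range {R : Type*} [CommRing R] (t : R) (c : ℕ → ℤ) (n a : ℕ) :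
    evC t ((List.range n).map fun i => (i, 1, c i)) a = if a < n then (c a : R) * t else 0 := by
  induction n with
  | zero => simp [evC]
  | succ n ih =>
    rw [List.range_succ, List.map_append, evC_append, ih]
    simp only [evC, List.map_cons, List.map_nil, List.sum_cons, List.sum_nil, add_zero, pow_one]
    rcases lt_trichotomy a n with h | rfl | h
    · rw [if_pos h, if_neg h.ne', if_pos (h.trans n.lt_succ_self), add_zero]
    · simp
    · rw [if_neg h.le.not_gt, if_neg h.ne, if_neg (by omega), add_zero]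

theorem evC_chain {R : Type*} [CommRing R] (t : R) (l : ℕ) (L : List (ℕ × Array (ℕ × ℤ))) (a : ℕ) :
    evC t (L.flatMap fun e => e.2.toList.zipIdx.map fun q => (l + q.1.1, q.2 + 1, q.1.2)) a =
      if a < l then 0 else ((L.flatMap fun e => (e.2.toList.zipIdx.filter (fun q => q.1.1 = a - l)).map
        fun q => (q.2 + 1, q.1.2)).map fun km => ((km.2 : ℤ) : R) * t ^ km.1).sum := by
  induction L with
  | nil => simp [evC]
  | cons e L ih =>
    rw [List.flatMap_cons, evC_append, ih, List.flatMap_cons, List.map_append, List.sum_append]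
    generalize e.2.toList.zipIdx = M
    have : evC t (M.map fun q => (l + q.1.1, q.2 + 1, q.1.2)) a = if a < l then 0 else
        (((M.filter (fun q => q.1.1 = a - l)).map fun q => (q.2 + 1, q.1.2)).map
          fun km => ((km.2 : ℤ) : R) * t ^ km.1).sum := by
      induction M with
      | nil => simp [evC]
      | cons q M ih =>
        rw [List.map_cons, evC_cons, ih, List.filter_cons]
        by_cases h1 : a < l
        · simp [h1, show l + q.1.1 ≠ a by omega]
        · by_cases h2 : q.1.1 = a - l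
          · simp [h1, h2, show l + (a - l) = a by omega]
          · simp [h1, h2, show l + q.1.1 ≠ a by omega]
    rw [this]; split_ifs <;> simp

theorem xMat_eq (D : ChevalleyDatum) (F : Type*) [Field F] (r : Fin D.nroots) (t : F) :
    D.xMat F r t = SM D (colD D r) t := by
  ext a b
  simp only [ChevalleyDatum.xMat, Matrix.of_apply, SM, colD, pl, evC_cons]
  rcases b with i | s
  · have hi := i.2
    rcases a with j | u
    · have := j.2
      simp [enc, restD, evC, show (j : ℕ) ≠ D.rank + r by omega, Fin.ext_iff, eq_comm]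
    · simp [enc, restD, evC, show (i : ℕ) ≠ D.rank + u by omega, Fin.ext_iff, eq_comm]
  · have e : restD D r (enc D (Sum.inr s)) = if s.val = r.val then [] else
        if s.val = D.negIdx.getD r 0 then (D.rank + r, 2, -1) ::
          (List.range D.rank).map fun i => (i, 1, (D.coroot.getD r #[]).getD i 0)
        else ((D.chain.getD r #[]).toList.filter (fun e => e.1 = s.val)).flatMap fun e =>
          e.2.toList.zipIdx.map fun q => (D.rank + q.1.1, q.2 + 1, q.1.2) := by
      simp [restD, enc]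
    rw [e]
    dsimp only
    by_cases h1 : s = r
    · subst h1
      rcases a with j | u
      · have := j.2
        simp [enc, evC, show D.rank + s ≠ j by omega]
      · simp [enc, evC, Fin.ext_iff, eq_comm]
    have h1' : s.val ≠ r.val := fun h => h1 (Fin.ext h)
    rw [if_neg h1, if_neg h1']
    by_cases h2 : s.val = D.negIdx.getD r 0
    · rw [if_pos h2, if_pos h2, evC_cons, evC_range]
      rcases a with j | u
      · have := j.2
        simp [enc, show D.rank + s ≠ j by omega, show D.rank + r ≠ j by omega]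
      · by_cases h3 : u = s
        · subst h3; simp [enc, h1'.symm]
        · have h3' : s.val ≠ u.val := fun h => h3 (Fin.ext h.symm)
          simp [enc, h3, h3', Fin.ext_iff, eq_comm]
    · rw [if_neg h2, if_neg h2, evC_chain]
      rcases a with j | u
      · have := j.2
        simp [enc, show D.rank + s ≠ j by omega]
      · simp [enc, Fin.ext_iff, eq_comm, ChevalleyDatum.chainCoeff]

theorem SM_map {R S : Type*} [CommRing R] [CommRing S] (σ : R →+* S) (D : ChevalleyDatum)
    (C : ℕ → Col) (t : R) : (SM D C t).map σ = SM D C (σ t) := by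
  ext a b
  simp only [SM, Matrix.map_apply, evC, map_list_sum, List.map_map]
  congr 1
  refine List.map_congr_left fun x _ => ?_
  simp only [Function.comp]
  split_ifs <;> simp

/-! ### Packed tables -/

structure Pk where
  wd : ℕ
  mask : ℕ
  T : List ℕ
  C : ℕ
  K : ℕ
  G : ℕ
  ng : ℕ
  sm : List ℕ
  W : List ℕ
  H : List ℕ
  E : List ℕ
  Bz : ℕ
  rk : ℕ
  via : ℕ
  cm : List (ℕ × List (List (ℕ × ℤ × ℕ × ℕ)))

noncomputable def fld (T w m i : ℕ) : ℕ := Nat.land (Nat.shiftRight T (Nat.mul w i)) m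
noncomputable def f1 (T i : ℕ) : ℕ := Nat.land (Nat.shiftRight T i) 1
noncomputable def f4 (T i : ℕ) : ℕ := Nat.land (Nat.shiftRight T (Nat.mul 4 i)) 15
noncomputable def f8 (T i : ℕ) : ℕ := Nat.land (Nat.shiftRight T (Nat.mul 8 i)) 255
noncomputable def f32 (T i : ℕ) : ℕ := Nat.land (Nat.shiftRight T (Nat.mul 32 i)) 4294967295

noncomputable def dec (x : ℕ) : ℤ := Int.subNatNat x 8

noncomputable def sgn (x : ℕ) : ℤ := ite' (Nat.beq x 0) 1 (-1)

theorem sgn_cases (x : ℕ) : sgn x = 1 ∨ sgn x = -1 := by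
  unfold sgn; cases Nat.beq x 0 <;> simp

noncomputable def nth (L : List ℕ) (i : ℕ) : ℕ :=
  List.rec (fun _ => 0) (fun a _ ih i => Nat.rec a (fun j _ => ih j) i) L i

noncomputable def ch1 (l k x : ℕ) (rest : Col) : Col :=
  frc (Nat.land x 4095) fun y => ite' (Nat.beq y 0) []
    ((Nat.add l (Nat.shiftRight y 4), k, dec (Nat.land y 15)) :: rest)

noncomputable def chainL (l x : ℕ) : Col :=
  ch1 l 1 x (ch1 l 2 (Nat.shiftRight x 12) (ch1 l 3 (Nat.shiftRight x 24) []))

noncomputable def restF (l wd mk r nr T C K b : ℕ) : Col :=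
  ite' (Nat.blt b l) [(Nat.add l r, 1, Int.neg (dec (f4 C b)))]
    (frc (Nat.sub b l) fun s => ite' (Nat.beq s r) [] (ite' (Nat.beq s nr)
      ((Nat.add l r, 2, -1) :: (List.range l).map fun i => (i, 1, dec (f4 K i)))
      (frc (fld T wd mk s) fun x => chainL l x)))

namespace Pk

variable (P : Pk) (l : ℕ)

noncomputable def col (r : ℕ) : ℕ → Col :=
  restF l P.wd P.mask r (f8 P.ng r) (nth P.T r) (f32 P.C r) (f32 P.K r)

/-- evaluate the data of a root before continuing -/
noncomputable def wr (r : ℕ) (k : (ℕ → Col) → Bool) : Bool :=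
  frc r fun r => frc P.wd fun wd => frc P.mask fun mk => frc (f8 P.ng r) fun nr => frc (nth P.T r) fun T => frc (f32 P.C r) fun C =>
    frc (f32 P.K r) fun K => k (restF l wd mk r nr T C K)

@[simp] theorem wr_eq (r : ℕ) (k : (ℕ → Col) → Bool) : P.wr l r k = k (P.col l r) := rfl

noncomputable def gr (a i : ℕ) : ℤ := dec (f4 (f32 P.G a) i)
noncomputable def neg (r : ℕ) : ℕ := f8 P.ng r
noncomputable def s (p : ℕ) : ℕ := nth P.sm p
noncomputable def w (p r : ℕ) : ℕ := f8 (nth P.W p) r
noncomputable def eps (p r : ℕ) : ℤ := sgn (f1 (nth P.E p) r)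
noncomputable def A (p j : ℕ) : ℤ := dec (f4 (f32 P.C (P.s j)) p)

end Pk

noncomputable def colN (l p C W H b : ℕ) : Col :=
  ite' (Nat.blt b l) [(b, 0, 1), (p, 0, Int.neg (dec (f4 C b)))]
    (frc (Nat.sub b l) fun s => [(Nat.add l (f8 W s), 0, sgn (f1 H s))])

noncomputable def eqI (a b : ℤ) : Bool := zI (Int.sub a b)

theorem eqI_iff {a b : ℤ} : eqI a b = true ↔ a = b := by
  rw [eqI, zI_iff]; exact sub_eq_zero

noncomputable def sumI (n : ℕ) (f : ℕ → ℤ) : ℤ := Nat.rec 0 (fun i ih => Int.add (f i) ih) n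

theorem sumI_eq (n : ℕ) (f : ℕ → ℤ) : sumI n f = ∑ i : Fin n, f i := by
  induction n with
  | zero => rfl
  | succ n ih =>
    rw [Fin.sum_univ_castSucc, add_comm _ (f _)]
    exact congrArg (f n + ·) ih

noncomputable def posI (a : ℤ) : Bool := Int.rec (fun n => Nat.blt 0 n) (fun _ => false) a

theorem posI_iff {a : ℤ} : posI a = true ↔ 0 < a := by
  cases a with
  | ofNat n => simp [posI]
  | negSucc n => simp [posI]

noncomputable def eqCol (C C' : Col) : Bool :=
  List.rec (fun C' => List.rec true (fun _ _ _ => false) C')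
    (fun x _ ih C' => List.rec false (fun y ys _ =>
      band (Nat.beq x.1 y.1) (band (Nat.beq x.2.1 y.2.1) (band (eqI x.2.2 y.2.2) (ih ys)))) C') C C'

theorem eq_of_eqCol {C C' : Col} (h : eqCol C C' = true) : C = C' := by
  induction C generalizing C' with
  | nil => cases C' with
    | nil => rfl
    | cons => exact absurd h (by simp [eqCol])
  | cons x C ih => cases C' with
    | nil => exact absurd h (by simp [eqCol])
    | cons y C' =>
      have : (band (Nat.beq x.1 y.1) (band (Nat.beq x.2.1 y.2.1) (band (eqI x.2.2 y.2.2)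
        (eqCol C C')))) = true := h
      simp only [band_eq, Bool.and_eq_true, Nat.beq_eq, eqI_iff] at this
      obtain ⟨h1, h2, h3, h4⟩ := this
      rw [ih h4, show x = y from Prod.ext h1 (Prod.ext h2 h3)]

noncomputable def chainR (l : ℕ) (L : List (ℕ × Array (ℕ × ℤ))) (s : ℕ) : Col :=
  List.rec [] (fun e _ ih => ite' (Nat.beq e.1 s)
    ((e.2.toList.zipIdx.map fun q => (l + q.1.1, q.2 + 1, q.1.2)) ++ ih) ih) L

theorem chainR_eq (l : ℕ) (L : List (ℕ × Array (ℕ × ℤ))) (s : ℕ) :
    chainR l L s = (L.filter (fun e => e.1 = s)).flatMap fun e =>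
      e.2.toList.zipIdx.map fun q => (l + q.1.1, q.2 + 1, q.1.2) := by
  induction L with
  | nil => rfl
  | cons e L ih =>
    have : chainR l (e :: L) s = ite' (Nat.beq e.1 s)
      ((e.2.toList.zipIdx.map fun q => (l + q.1.1, q.2 + 1, q.1.2)) ++ chainR l L s)
      (chainR l L s) := rfl
    rw [this, ih, ite'_eq, List.filter_cons]
    by_cases h : e.1 = s <;> simp [h]

namespace Pk

variable (P : Pk) (l n : ℕ)

noncomputable def nc (p : ℕ) : ℕ → Col := colN l p (f32 P.C (P.s p)) (nth P.W p) (nth P.H p)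

noncomputable def wn (p : ℕ) (k : (ℕ → Col) → Bool) : Bool :=
  frc (f32 P.C (P.s p)) fun C => frc (nth P.W p) fun W => frc (nth P.H p) fun H =>
    k (colN l p C W H)

@[simp] theorem wn_eq (p : ℕ) (k : (ℕ → Col) → Bool) : P.wn l p k = k (P.nc l p) := rfl

noncomputable def ht (a : ℕ) : ℤ := sumI l (P.gr a)

noncomputable def pr (p a : ℕ) : ℤ := sumI l fun j => Int.mul (P.A p j) (P.gr a j)

/-- `gr a = W p (gr b)` -/
noncomputable def isW (p a b : ℕ) : Bool :=
  frcI (P.pr l p b) fun c => allLt l fun i =>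
    eqI (P.gr a i) (Int.sub (P.gr b i) (ite' (Nat.beq i p) c 0))

/-- the tables agree, for one root -/
noncomputable def cTab (D : ChevalleyDatum) (r : ℕ) : Bool :=
  band (Nat.beq (f8 P.ng r) (D.negIdx.getD r 0)) <|
  band (allLt D.rank fun i => band (eqI (dec (f4 (f32 P.C r) i)) ((D.cartanSR.getD i #[]).getD r 0))
    (eqI (dec (f4 (f32 P.K r) i)) ((D.coroot.getD r #[]).getD i 0))) <|
  frc (nth P.T r) fun T => allLt D.nroots fun s =>
    eqCol (chainL D.rank (fld T P.wd P.mask s)) (chainR D.rank (D.chain.getD r #[]).toList s)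

noncomputable def cAdd (r : ℕ) : Bool := P.wr l r fun S => chkA (Nat.add l n) S

noncomputable def cGr (r : ℕ) : Bool :=
  P.wr l r fun S => allLt (Nat.add l n) fun b => allL (S b) fun x => bor (zI x.2.2)
    (allLt l fun i => eqI (P.gr x.1 i) (Int.add (P.gr b i) (Int.mul x.2.1 (P.gr (Nat.add l r) i))))

noncomputable def cRoot (r : ℕ) : Bool :=
  band (Nat.blt (P.neg r) n) <| band (bnot (zI (P.ht l (Nat.add l r)))) <|
  band (allLt l fun i => eqI (P.gr (Nat.add l (P.neg r)) i) (Int.neg (P.gr (Nat.add l r) i))) <|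
  band (allLt r fun s => bnot (allLt l fun i => eqI (P.gr (Nat.add l r) i) (P.gr (Nat.add l s) i))) <|
  band (eqI (sumI l fun i => Int.mul (dec (f4 (f32 P.Bz r) i)) (dec (f4 (f32 P.K r) i))) 1) <|
  band (bnot (Nat.beq (P.neg r) r)) <|
  ite' (Nat.beq (f8 P.rk r) 0) (anyL P.cm fun e => band (Nat.blt e.1 l) (Nat.beq (P.s e.1) r))
    (band (Nat.blt (f4 P.via r) l) (Nat.blt (f8 P.rk (P.w (f4 P.via r) r)) (f8 P.rk r)))

noncomputable def cSm (p : ℕ) : Bool :=
  band (Nat.blt (P.s p) n) <| band (eqI (P.A p p) 2) <|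
  band (allLt l fun i => eqI (P.gr p i) 0) <|
  band (allLt l fun i => eqI (P.gr (Nat.add l (P.s p)) i) (ite' (Nat.beq i p) 1 0)) <|
  band (allLt n fun r => band (Nat.blt (P.w p r) n) <|
    band (eqI (P.eps p (P.neg r)) (P.eps p r)) <|
    band (P.isW l p (Nat.add l (P.w p r)) (Nat.add l r)) <|
    bimp (posI (P.ht l (Nat.add l r))) (bor (Nat.beq r (P.s p)) (posI (P.ht l (Nat.add l (P.w p r)))))) <|
  P.wn l p fun M => P.wr l (P.s p) fun S => P.wr l (P.neg (P.s p)) fun S' =>
    chk (Nat.add l n) [⟨S, 1, 0, 0, true⟩, ⟨S', -1, 0, 0, true⟩, ⟨S, 1, 0, 0, true⟩]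
      [⟨M, 1, 0, 0, false⟩]

noncomputable def cConj (p r : ℕ) : Bool :=
  P.wn l p fun M => P.wr l r fun S => P.wr l (P.w p r) fun S' => frcI (P.eps p r) fun ε =>
    chk (Nat.add l n) [⟨M, 1, 0, 0, false⟩, ⟨S, 1, 1, 0, true⟩]
      [⟨S', ε, 1, 0, true⟩, ⟨M, 1, 0, 0, false⟩]

noncomputable def wl (L : List (ℕ × ℤ × ℕ × ℕ)) (k : List Let → Bool) : Bool :=
  List.rec (motive := fun _ => (List Let → Bool) → Bool) (fun k => k [])
    (fun x _ ih k => P.wr l x.1 fun S => ih fun w => k (⟨S, x.2.1, x.2.2.1, x.2.2.2, true⟩ :: w)) L k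

theorem wl_eq (L : List (ℕ × ℤ × ℕ × ℕ)) (k : List Let → Bool) :
    P.wl l L k = k (L.map fun x => ⟨P.col l x.1, x.2.1, x.2.2.1, x.2.2.2, true⟩) := by
  induction L generalizing k with
  | nil => rfl
  | cons x L ih => exact ih fun w => k (⟨P.col l x.1, x.2.1, x.2.2.1, x.2.2.2, true⟩ :: w)

noncomputable def cComm (p : ℕ) (M : List (List (ℕ × ℤ × ℕ × ℕ))) (s : ℕ) : Bool :=
  bor (Nat.beq s (P.s p)) <| bor (Nat.beq s (P.neg (P.s p))) <|
  band (allL (M.getD s []) fun x => band (Nat.blt x.1 n) <| band (Nat.blt 0 x.2.2.1) <|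
    band (Nat.blt 0 x.2.2.2) <| allLt l fun i => eqI (P.gr (Nat.add l x.1) i)
      (Int.add (Int.mul x.2.2.1 (P.gr (Nat.add l (P.s p)) i)) (Int.mul x.2.2.2 (P.gr (Nat.add l s) i)))) <|
  P.wr l (P.s p) fun S => P.wr l s fun S' => P.wl l (M.getD s []) fun w =>
    chk (Nat.add l n) [⟨S', 1, 0, 1, true⟩, ⟨S, 1, 1, 0, true⟩]
      (⟨S, 1, 1, 0, true⟩ :: ⟨S', 1, 0, 1, true⟩ :: w)

end Pk

structure Good (D : ChevalleyDatum) (P : Pk) : Prop where
  tab : ∀ r < D.nroots, P.cTab D r = true
  add : ∀ r < D.nroots, P.cAdd D.rank D.nroots r = true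
  gr : ∀ r < D.nroots, P.cGr D.rank D.nroots r = true
  root : ∀ r < D.nroots, P.cRoot D.rank D.nroots r = true
  sm : ∀ p < D.rank, P.cSm D.rank D.nroots p = true
  conj : ∀ p < D.rank, ∀ r < D.nroots, P.cConj D.rank D.nroots p r = true
  comm : ∀ e ∈ P.cm, ∀ s < D.nroots, P.cComm D.rank D.nroots e.1 e.2 s = true

end Cfsg.Agent.H9.Chev
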