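import Cfsg.Agent.H9.ChevE8a

set_option autoImplicit false
set_option maxRecDepth 100000

namespace Cfsg.Agent.H9.Chev

open Cfsg.Lie Cfsg.Agent.H4

theorem tabE8_0 : allLt 60 (fun r => pkE8.cTab chevE8 (Nat.add 0 r)) = true := by decide +kernel
theorem tabE8_1 : allLt 60 (fun r => pkE8.cTab chevE8 (Nat.add 60 r)) = true := by decide +kernel
theorem tabE8_2 : allLt 60 (fun r => pkE8.cTab chevE8 (Nat.add 120 r)) = true := by decide +kernel
theorem tabE8_3 : allLt 60 (fun r => pkE8.cTab chevE8 (Nat.add 180 r)) = true := by decide +kernel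
theorem addE8_0 : allLt 60 (fun r => pkE8.cAdd 8 240 (Nat.add 0 r)) = true := by decide +kernel
theorem addE8_1 : allLt 60 (fun r => pkE8.cAdd 8 240 (Nat.add 60 r)) = true := by decide +kernel
theorem addE8_2 : allLt 60 (fun r => pkE8.cAdd 8 240 (Nat.add 120 r)) = true := by decide +kernel
theorem addE8_3 : allLt 60 (fun r => pkE8.cAdd 8 240 (Nat.add 180 r)) = true := by decide +kernel
theorem grE8_0 : allLt 60 (fun r => pkE8.cGr 8 240 (Nat.add 0 r)) = true := by decide +kernel
theorem grE8_1 : allLt 60 (fun r => pkE8.cGr 8 240 (Nat.add 60 r)) = true := by decide +kernel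
theorem grE8_2 : allLt 60 (fun r => pkE8.cGr 8 240 (Nat.add 120 r)) = true := by decide +kernel
theorem grE8_3 : allLt 60 (fun r => pkE8.cGr 8 240 (Nat.add 180 r)) = true := by decide +kernel
theorem rootE8 : allLt 240 (pkE8.cRoot 8 240) = true := by decide +kernel
theorem smE8 : allLt 8 (pkE8.cSm 8 240) = true := by decide +kernel
theorem commE8 : allL pkE8.cm (fun e => allLt 240 (pkE8.cComm 8 240 e.1 e.2)) = true := by
  decide +kernel

end Cfsg.Agent.H9.Chev
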