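import Cfsg.Agent.H9.ChevE8a

set_option autoImplicit false
set_option maxRecDepth 100000

namespace Cfsg.Agent.H9.Chev

open Cfsg.Lie Cfsg.Agent.H4

theorem conjE8_0 : allLt 240 (pkE8.cConj 8 240 0) = true := by decide +kernel
theorem conjE8_1 : allLt 240 (pkE8.cConj 8 240 1) = true := by decide +kernel
theorem conjE8_2 : allLt 240 (pkE8.cConj 8 240 2) = true := by decide +kernel
theorem conjE8_3 : allLt 240 (pkE8.cConj 8 240 3) = true := by decide +kernel

end Cfsg.Agent.H9.Chev
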