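import Cfsg.Agent.H9.ChevDat
import Cfsg.Prelude.Def_ChevG2

set_option autoImplicit false
set_option maxRecDepth 100000

namespace Cfsg.Agent.H9.Chev

open Cfsg.Lie Cfsg.Agent.H4

def pkG2 : Pk where
  wd := 36
  mask := 68719476735
  T := [204323204703203159418015603045872741735441960920855520099581955110988965148030354935458781096600379026453823488, 16623233590184474045912406151042195094851082082713563645672309052982257768910631903424388832297672231296080426882369060864, 62323717469664360673056851583227681986995005185027428649299736887440277934568656044815046685882780621159935416834854828640305152, 235648629055330748020249506087906462673254435895385676063202172209790776317054378611772183426936326115372591117037194759842562048, 4138509660055021083379996363926730356532161759656869507530118135589217239078241624310049555129075207676470715398225920, 27275014337292971978240646254281873098719123020942374155525865218782242662748358138335358524435444381345861430864450158592, 434480377813159147159553910406028341534265366067962490407407966623669663270469302405423650854346881894541426711, 5844060866465144566084451917359906624469930993689982053494179877852573452249970071552298205015179264, 6390873211475362972070218339687010007295496614277057514555535011583934658460380983964099405324521511,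 90015505791365488150384010179880147841101193658832154146357039403226831206106043270000697, 19272149375345965165722366478636667238452174923166001689353382789209, 255926755324603439345892955835704703064281850320707911680]
  C := 1394447158784689884545784327883881905316577650509949353153841230637710380562095597814404717480241274858504312
  K := 1550405064736094358437316289824290944975917513214994897168293572968169228704026668152967318950946517154791527
  G := 28938386095869233629572983950122526322766801738749999286444150025627651089286669165351168771623556440604921293276121917930078344
  ng := 1218426182456967898401291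
  sm := [7, 6]
  W := [3411626608196089407097472256, 3108190913232640688152248321]
  H := [1686, 2409]
  E := [1686, 2409]
  Bz := 1256837241855189412358990340627402916496414804702341504288242772352626305465181913794161479248911676181840007
  rk := 620188408642015683464593923
  via := 17596482064385
  cm := [(0, [[], [(2, 1, 1, 1), (3, -1, 2, 1), (5, 1, 3, 1), (0, 1, 3, 2)], [(3, -2, 1, 1), (5, 3, 2, 1), (0, 3, 1, 2)], [(5, -3, 1, 1)], [], [], [(8, 1, 1, 1), (9, 1, 2, 1), (10, -1, 3, 1), (11, -1, 3, 2)], [], [(9, 2, 1, 1), (10, -3, 2, 1), (11, -3, 1, 2)], [(10, -3, 1, 1)], [], []]), (1, [[(1, 1, 1, 1)], [], [], [(4, 1, 1, 1), (2, 1, 1, 2), (0, 1, 1, 3), (1, 2, 2, 3)], [], [], [], [(8, -1, 1, 1), (9, -1, 1, 2), (10, 1, 1, 3), (11, -2, 2, 3)], [], [], [(11, -1, 1, 1)], []])]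
theorem tabG2 : allLt 12 (pkG2.cTab chevG2) = true := by decide +kernel
theorem addG2 : allLt 12 (pkG2.cAdd 2 12) = true := by decide +kernel
theorem grG2 : allLt 12 (pkG2.cGr 2 12) = true := by decide +kernel
theorem rootG2 : allLt 12 (pkG2.cRoot 2 12) = true := by decide +kernel
theorem smG2 : allLt 2 (pkG2.cSm 2 12) = true := by decide +kernel
theorem conjG2 : allLt 2 (fun p => allLt 12 (pkG2.cConj 2 12 p)) = true := by decide +kernel
theorem commG2 : allL pkG2.cm (fun e => allLt 12 (pkG2.cComm 2 12 e.1 e.2)) = true := by
  decide +kernel

theorem goodG2 : Good chevG2 pkG2 :=
  ⟨allLt_iff.1 tabG2, allLt_iff.1 addG2, allLt_iff.1 grG2, allLt_iff.1 rootG2, allLt_iff.1 smG2,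
    fun p hp => allLt_iff.1 (allLt_iff.1 conjG2 p hp), fun e he => allLt_iff.1 (allL_iff.1 commG2 e he)⟩

end Cfsg.Agent.H9.Chev
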