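/-
Groups of order 320 with derived subgroup of order 64 whose centre is a four-group.
-/
import Cfsg.Agent.H4.Gasch

set_option autoImplicit false

open scoped commutatorElement

namespace Cfsg.Agent.H9.G320

open Cfsg.Agent.H4

variable {G : Type*} [Group G]

/-- The conjugate of `a` by a power of `c`. -/
def cj (c a : G) (i : ℕ) : G := c ^ i * a * (c ^ i)⁻¹

theorem cj_zero (c a : G) : cj c a 0 = a := by simp [cj]

theorem conj_cj (c a : G) (i j : ℕ) : c ^ j * cj c a i * (c ^ j)⁻¹ = cj c a (j + i) := by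
  simp [cj, pow_add, mul_assoc]

theorem cj_mod {c : G} (h : c ^ 5 = 1) (a : G) (i : ℕ) : cj c a i = cj c a (i % 5) := by
  rw [cj, cj, pow_eq_pow_mod i h]

theorem commute_cj {c a z : G} (h1 : Commute z a) (h2 : Commute z c) (i : ℕ) :
    Commute z (cj c a i) := ((h2.pow_right i).mul_right h1).mul_right (h2.pow_right i).inv_right

/-- The defining relations. -/
structure Rel (a c u w : G) : Prop where
  c5 : c ^ 5 = 1
  uu : u * u = 1
  ww : w * w = 1
  uw : Commute u w
  ua : Commute u a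
  uc : Commute u c
  wa : Commute w a
  wc : Commute w c
  aa : a * a = u * w
  r1 : cj c a 1 * a = a * cj c a 1 * u
  r2 : cj c a 2 * a = a * cj c a 2 * w
  pr : a * cj c a 1 * cj c a 2 * cj c a 3 * cj c a 4 = 1

theorem shift {a c z : G} {k : ℕ} (hz : Commute z c) (h : cj c a k * a = a * cj c a k * z) (i : ℕ) :
    cj c a (i + k) * cj c a i = cj c a i * cj c a (i + k) * z := by
  have h1 := congrArg (fun x => c ^ i * x * (c ^ i)⁻¹) h
  have h2 : c ^ i * z * (c ^ i)⁻¹ = z := by rw [← (hz.pow_right i).eq, mul_inv_cancel_right]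
  simp only [← conj_mul, conj_cj, h2] at h1
  exact h1

theorem shift_sq {a c z : G} (hz : Commute z c) (h : a * a = z) (i : ℕ) :
    cj c a i * cj c a i = z := by
  rw [cj, conj_mul, h, ← (hz.pow_right i).eq, mul_inv_cancel_right]

theorem flip {x y z : G} (hz : z * z = 1) (h : x * y = y * x * z) : y * x = x * y * z := by
  rw [h, mul_assoc, hz, mul_one]

theorem sq_eq {a c u w s : G} (c5 : c ^ 5 = 1) (uu : u * u = 1) (ww : w * w = 1) (ss : s * s = 1)
    (uw : Commute u w) (us : Commute u s) (ws : Commute w s) (ua : Commute u a) (uc : Commute u c)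
    (wa : Commute w a) (wc : Commute w c) (sc : Commute s c) (aa : a * a = s)
    (r1 : cj c a 1 * a = a * cj c a 1 * u) (r2 : cj c a 2 * a = a * cj c a 2 * w)
    (pr : a * cj c a 1 * cj c a 2 * cj c a 3 * cj c a 4 = 1) : s = u * w := by
  have sa : Commute s a := aa ▸ (Commute.refl a).mul_left (Commute.refl a)
  have e21 := shift uc r1 1
  have e32 := shift uc r1 2
  have e43 := shift uc r1 3
  have e31 := shift wc r2 1
  have e42 := shift wc r2 2
  have e41 := shift wc r2 4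
  rw [cj_mod c5 a (4 + 2)] at e41
  replace e41 := flip ww e41
  have q := shift_sq sc aa
  have cu := commute_cj ua uc
  have cw := commute_cj wa wc
  have cs := commute_cj sa sc
  norm_num at e21 e32 e43 e31 e42 e41
  have key : ∀ {x y z : G}, Commute z x → Commute z y → y * x = x * y * z →
      ∀ t, y * (x * t) = z * (x * (y * t)) := fun h1 h2 h t => by
    rw [← mul_assoc, h, ← (h1.mul_right h2).eq]; simp only [mul_assoc]
  have mv : ∀ {x z : G}, Commute z x → ∀ t, x * (z * t) = z * (x * t) := fun h t => by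
    rw [← mul_assoc, ← h.eq, mul_assoc]
  have sq : ∀ {x z : G}, x * x = z → ∀ t, x * (x * t) = z * t := fun h t => by
    rw [← mul_assoc, h]
  have h1 : cj c a 1 * (cj c a 2 * (cj c a 3 * (cj c a 4 *
      (cj c a 1 * (cj c a 2 * (cj c a 3 * (cj c a 4 * 1))))))) = u * (w * 1) := by
    simp only [key (cu 1) (cu 2) e21, key (cu 2) (cu 3) e32, key (cu 3) (cu 4) e43,
      key (cw 1) (cw 3) e31, key (cw 2) (cw 4) e42, key (cw 1) (cw 4) e41, mv (cu _), mv (cw _),
      mv (cs _), sq (q _), mv uw, mv us, mv ws, sq uu, sq ww, sq ss, one_mul]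
  have h2 : cj c a 1 * (cj c a 2 * (cj c a 3 * cj c a 4)) = a⁻¹ := by
    rw [eq_inv_iff_mul_eq_one, ← mul_eq_one_comm]
    simpa only [mul_assoc] using pr
  have h3 : a⁻¹ * a⁻¹ = u * w := by
    rw [← h2]; simpa only [mul_assoc, mul_one] using h1
  rw [← mul_inv_rev, aa, inv_eq_of_mul_eq_one_right ss] at h3
  exact h3

theorem Rel.card_le [Finite G] {a c u w : G} (h : Rel a c u w) :
    Nat.card (Subgroup.closure ({a, c} : Set G)) ≤ 320 := by
  classical
  let x : ℕ → G := fun i => if i < 4 then cj c a i else if i = 4 then u else w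
  have hm : ∀ i k, i < k → k < 6 → x k ∈ Subgroup.closure {g | ∃ k, i < k ∧ k < 6 ∧ g = x k} :=
    fun i k h1 h2 => Subgroup.subset_closure ⟨k, h1, h2, rfl⟩
  have cu := commute_cj h.ua h.uc
  have cw := commute_cj h.wa h.wc
  have e30 := shift h.wc h.r2 3
  rw [cj_mod h.c5 a (3 + 2)] at e30
  replace e30 := flip h.ww e30
  have key : ∀ {x y z : G}, y * x = x * y * z → x⁻¹ * (y * x) = y * z := fun h => by
    rw [h, mul_assoc, inv_mul_cancel_left]
  have key' : ∀ {x y : G}, Commute y x → x⁻¹ * (y * x) = y := fun h => by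
    rw [h.eq, inv_mul_cancel_left]
  have h1 := card_le_of_pc x 6 (fun i hi => by
      by_cases h4 : i < 4
      · have : x i * x i = x 4 * x 5 := by
          simp only [x, if_pos h4]
          exact shift_sq (h.uc.mul_left h.wc) h.aa i
        rw [this]
        exact mul_mem (hm i 4 h4 (by omega)) (hm i 5 (by omega) (by omega))
      · have : x i * x i = 1 := by
          simp only [x, if_neg h4]
          split_ifs
          exacts [h.uu, h.ww]
        rw [this]; exact one_mem _)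
    (fun i j hij hj => by
      by_cases h4 : j < 4
      · have : ∃ k, 4 ≤ k ∧ k < 6 ∧ x j * x i = x i * x j * x k := by
          have h5 : i < 4 := by omega
          simp only [x, if_pos h4, if_pos h5]
          rcases (by omega : j = i + 1 ∨ j = i + 2 ∨ (i = 0 ∧ j = 3)) with rfl | rfl | ⟨rfl, rfl⟩
          · exact ⟨4, le_rfl, by omega, shift h.uc h.r1 i⟩
          · exact ⟨5, by omega, by omega, shift h.wc h.r2 i⟩
          · exact ⟨5, by omega, by omega, e30⟩
        obtain ⟨k, h5, h6, h7⟩ := this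
        rw [key h7]
        exact mul_mem (hm i j hij hj) (hm i k (by omega) h6)
      · have : Commute (x j) (x i) := by
          simp only [x, if_neg h4]
          split_ifs
          · exact cu i
          · omega
          · omega
          · exact cw i
          · exact h.uw.symm
          · exact Commute.refl _
        rw [key' this]
        exact hm i j hij hj)
  generalize hP : Subgroup.closure {g | ∃ k, k < 6 ∧ g = x k} = P at h1
  have h2 : ∀ i, i < 4 → cj c a i ∈ P := fun i hi =>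
    hP ▸ Subgroup.subset_closure ⟨i, by omega, by simp only [x, if_pos hi]⟩
  have h3 : ∀ i, cj c a i ∈ P := fun i => by
    rw [cj_mod h.c5]
    by_cases h4 : i % 5 < 4
    · exact h2 _ h4
    · rw [show i % 5 = 4 by omega, eq_inv_of_mul_eq_one_right h.pr]
      exact inv_mem (mul_mem (mul_mem (mul_mem (cj_zero c a ▸ h2 0 (by omega)) (h2 1 (by omega)))
        (h2 2 (by omega))) (h2 3 (by omega)))
  have h4 := cover_closure {a, c} P ((Finset.range 5).image fun i => c ^ i)
    (fun s _ => isOfFinOrder_of_finite s) (by simp; exact ⟨0, by omega, pow_zero c⟩) (by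
      intro v hv s hs
      simp only [Finset.coe_image, Finset.coe_range, Set.mem_image, Set.mem_Iio] at hv ⊢
      obtain ⟨i, hi, rfl⟩ := hv
      rcases hs with rfl | rfl
      · refine ⟨_, ⟨i, hi, rfl⟩, ?_⟩
        have h5 : (c ^ i)⁻¹ = c ^ (5 - i) := by
          rw [inv_eq_iff_mul_eq_one, ← pow_add, show i + (5 - i) = 5 by omega, h.c5]
        have := h3 (5 - i)
        rwa [cj, ← h5, inv_inv, mul_assoc] at this
      · refine ⟨_, ⟨(i + 1) % 5, Nat.mod_lt _ (by omega), rfl⟩, ?_⟩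
        rw [← pow_eq_pow_mod _ h.c5, ← pow_succ', inv_mul_cancel]
        exact one_mem _)
  obtain ⟨-, h5⟩ := card_le_of_cover _ P _ h4
  refine h5.trans (Nat.mul_le_mul (Finset.card_image_le.trans (by simp)) h1 : _ ≤ 5 * 2 ^ 6)

theorem Rel.prod {H : Type*} [Group H] {a c u w : G} {a' c' u' w' : H} (h : Rel a c u w)
    (h' : Rel a' c' u' w') : Rel (a, a') (c, c') (u, u') (w, w') :=
  ⟨Prod.ext h.c5 h'.c5, Prod.ext h.uu h'.uu, Prod.ext h.ww h'.ww, Prod.ext h.uw h'.uw,
    Prod.ext h.ua h'.ua, Prod.ext h.uc h'.uc, Prod.ext h.wa h'.wa, Prod.ext h.wc h'.wc,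
    Prod.ext h.aa h'.aa, Prod.ext h.r1 h'.r1, Prod.ext h.r2 h'.r2, Prod.ext h.pr h'.pr⟩

theorem Rel.equiv {H : Type*} [Group H] [Finite G] [Finite H] {a c u w : G} {a' c' u' w' : H}
    (h : Rel a c u w) (h' : Rel a' c' u' w') (h1 : Subgroup.closure ({a, c} : Set G) = ⊤)
    (h2 : Subgroup.closure ({a', c'} : Set H) = ⊤) (h3 : Nat.card G = 320) (h4 : Nat.card H = 320) :
    Nonempty (G ≃* H) := by
  obtain ⟨φ, h5, -⟩ := exists_hom_of_card_le (Subgroup.closure {(a, a'), (c, c')}) ⊤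
    (by rw [MonoidHom.map_closure, Set.image_pair]; exact h1)
    (by rw [Subgroup.card_top, h3]; exact (h.prod h').card_le)
  rw [MonoidHom.map_closure, Set.image_pair] at h5
  have h6 : Function.Surjective φ := MonoidHom.range_eq_top.mp (h5.trans h2)
  exact ⟨Subgroup.topEquiv.symm.trans (MulEquiv.ofBijective φ
    (h6.bijective_of_nat_card_le (by rw [Subgroup.card_top, h3, h4])))⟩

theorem card_modEq [Finite G] (W : Subgroup G) {c : G} (hc : c ^ 5 = 1)
    (h : ∀ x ∈ W, c * x * c⁻¹ ∈ W) :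
    Nat.card ↥(W ⊓ Subgroup.centralizer {c}) % 5 = Nat.card W % 5 := by
  classical
  have : Fact (Nat.Prime 5) := ⟨by norm_num⟩
  have := Fintype.ofFinite W
  have hn : c ∈ Subgroup.normalizer (W : Set G) := Subgroup.mem_normalizer_fintype h
  let σ : Equiv.Perm W := MulAction.toPermHom (MulAut W) W (W.normalizerMonoidHom ⟨c, hn⟩)
  have h1 : σ ^ 5 ^ 1 = 1 := by
    rw [← map_pow, ← map_pow, show (⟨c, hn⟩ : Subgroup.normalizer (W : Set G)) ^ 5 ^ 1 = 1 from
      Subtype.ext hc, map_one, map_one]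
  have h2 := Equiv.Perm.card_compl_support_modEq h1
  rw [← Nat.card_eq_fintype_card, ← Nat.card_eq_finsetCard] at h2
  have key : ∀ x : W, x ∈ σ.supportᶜ ↔ (x : G) ∈ Subgroup.centralizer {c} := fun x => by
    rw [Finset.mem_compl, Equiv.Perm.notMem_support, Subgroup.mem_centralizer_singleton_iff,
      Subtype.ext_iff, eq_comm (a := (x : G) * c), ← mul_inv_eq_iff_eq_mul]
    rfl
  rw [← h2]
  congr 1
  exact Nat.card_congr ⟨fun x => ⟨⟨x, x.2.1⟩, (key _).mpr x.2.2⟩,
    fun x => ⟨x.1, x.1.2, (key _).mp x.2⟩, fun _ => rfl, fun _ => rfl⟩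

theorem exists_rel [Finite G] (hG : Nat.card G = 320) (hD : Nat.card (commutator G) = 64)
    (hZ : IsKleinFour (Subgroup.center (commutator G))) :
    ∃ a c u w : G, Rel a c u w ∧ Subgroup.closure ({a, c} : Set G) = ⊤ := by
  have h5 : Fact (Nat.Prime 5) := ⟨by norm_num⟩
  have h2 : Fact (Nat.Prime 2) := ⟨by norm_num⟩
  obtain ⟨c, hc⟩ := exists_prime_orderOf_dvd_card' (G := G) 5 (by rw [hG]; norm_num)
  have c5 : c ^ 5 = 1 := hc ▸ pow_orderOf_eq_one c
  set Q := commutator G with hQ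
  let Z := (Subgroup.center Q).map Q.subtype
  have hZQ : Z ≤ Q := Subgroup.map_subtype_le _
  have mZ : ∀ z, z ∈ Z ↔ z ∈ Q ∧ ∀ x ∈ Q, Commute z x := fun z =>
    ⟨fun ⟨y, hy, e⟩ => e ▸ ⟨y.2, fun x hx =>
      (congrArg Subtype.val (Subgroup.mem_center_iff.mp hy ⟨x, hx⟩)).symm⟩,
      fun h => ⟨⟨z, h.1⟩, Subgroup.mem_center_iff.mpr fun x => Subtype.ext (h.2 x x.2).symm, rfl⟩⟩
  have cZ : Nat.card Z = 4 := by rw [Subgroup.card_subtype, hZ.card_four]
  have zz : ∀ z ∈ Z, z * z = 1 := by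
    rintro _ ⟨y, hy, rfl⟩
    have := Monoid.pow_exponent_eq_one (⟨y, hy⟩ : Subgroup.center Q)
    rw [hZ.exponent_two, pow_two] at this
    exact congrArg (fun x : Subgroup.center Q => ((x : Q) : G)) this
  have nQ : ∀ g, ∀ x ∈ Q, g * x * g⁻¹ ∈ Q := fun g x hx => (inferInstance : Q.Normal).conj_mem x hx g
  have nZ : ∀ g, ∀ x ∈ Z, g * x * g⁻¹ ∈ Z := fun g x hx =>
    (inferInstance : Z.Normal).conj_mem x hx g
  have hsup : ∀ P : Subgroup G, Q ≤ P → c ∈ P → P = ⊤ := fun P h1 h3 => by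
    have e1 := Subgroup.card_dvd_of_le h1
    have e2 := Subgroup.orderOf_dvd_natCard _ h3
    rw [hD] at e1
    rw [hc] at e2
    exact Subgroup.eq_top_of_le_card _ (hG ▸ Nat.le_of_dvd Nat.card_pos
      (Nat.Coprime.mul_dvd_of_dvd_of_dvd (by norm_num : Nat.Coprime 64 5) e1 e2))
  -- a normal subgroup modulo which `Q` is central contains `Q`
  have hcomm : ∀ P : Subgroup G, P.Normal → (∀ x ∈ Q, ∀ y ∈ Q, ⁅x, y⁆ ∈ P) →
      (∀ x ∈ Q, ⁅x, c⁆ ∈ P) → Q ≤ P := fun P hP h1 h3 => by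
    let π := QuotientGroup.mk' P
    have e0 : ∀ x y, ⁅x, y⁆ ∈ P ↔ Commute (π x) (π y) := fun x y => by
      rw [← commutatorElement_eq_one_iff_commute, ← map_commutatorElement]
      exact (QuotientGroup.eq_one_iff _).symm
    have e1 : ∀ x, (∀ y ∈ Q, Commute (π x) (π y)) → Commute (π x) (π c) →
        ∀ y, Commute (π x) (π y) := fun x e1 e2 y =>
      (hsup ((Subgroup.centralizer {π x}).comap π)
        (fun y hy => Subgroup.mem_centralizer_singleton_iff.mpr (e1 y hy).symm)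
        (Subgroup.mem_centralizer_singleton_iff.mpr e2.symm)).ge (Subgroup.mem_top y) _ rfl
    have e2 : ∀ x ∈ Q, ∀ y, Commute (π x) (π y) := fun x hx =>
      e1 x (fun y hy => (e0 x y).mp (h1 x hx y hy)) ((e0 x c).mp (h3 x hx))
    refine Subgroup.commutator_le.mpr fun x _ y _ => (e0 x y).mpr (e1 x (fun z hz => (e2 z hz x).symm)
      (e1 c (fun z hz => (e2 z hz c).symm) (Commute.refl _) x).symm y)
  have dvd64 : ∀ W : Subgroup G, W ≤ Q → Nat.card W % 5 = 4 → Nat.card W = 4 ∨ Nat.card W = 64 :=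
    fun W h1 h3 => by
      obtain ⟨k, hk, e⟩ := (Nat.dvd_prime_pow Nat.prime_two).mp
        (show Nat.card W ∣ 2 ^ 6 from (Subgroup.card_dvd_of_le h1).trans hD.dvd)
      rw [e] at h3 ⊢
      interval_cases k <;> simp_all
  have zc : Z ≤ Subgroup.centralizer {c} := by
    have e1 := card_modEq Z c5 (nZ c)
    have e2 := Subgroup.card_le_of_le (inf_le_left : Z ⊓ Subgroup.centralizer {c} ≤ Z)
    exact inf_eq_left.mp (Subgroup.eq_of_le_of_card_ge inf_le_left (by omega))
  have zc' : ∀ z ∈ Z, Commute z c := fun z hz => Subgroup.mem_centralizer_singleton_iff.mp (zc hz)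
  obtain ⟨M, hM, hZM⟩ := Sylow.exists_subgroup_card_pow_prime_le (G := Q) 2 (n := 2) (m := 5)
    (by rw [hD]; norm_num) (Subgroup.center Q) hZ.card_four (by norm_num)
  have iM : M.index = 2 := by
    have := M.card_mul_index
    rw [hM, hD] at this
    omega
  let W := Subgroup.closure ((Z : Set G) ∪ {y | ∃ x ∈ Q, y = x * x})
  have WM : W ≤ M.map Q.subtype := (Subgroup.closure_le _).mpr (by
    rintro _ (hy | ⟨x, hx, rfl⟩)
    · exact Subgroup.map_mono hZM hy
    · exact ⟨_, Subgroup.mul_self_mem_of_index_two iM ⟨x, hx⟩, rfl⟩)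
  have cW : Nat.card W ≤ 32 := by
    have := Subgroup.card_le_of_le WM
    rwa [Subgroup.card_subtype, hM] at this
  have nW : W.Normal := ⟨fun x hx g => by
    induction hx using Subgroup.closure_induction with
    | mem x hx =>
      refine Subgroup.subset_closure ?_
      rcases hx with hx | ⟨y, hy, rfl⟩
      exacts [Or.inl (nZ g x hx), Or.inr ⟨_, nQ g y hy, (conj_mul ..).symm⟩]
    | one => simp
    | mul x y _ _ e1 e2 => rw [← conj_mul]; exact mul_mem e1 e2
    | inv x _ e1 => rw [← conj_inv]; exact inv_mem e1⟩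
  have sqW : ∀ x ∈ Q, x * x ∈ W := fun x hx => Subgroup.subset_closure (Or.inr ⟨x, hx, rfl⟩)
  have cmW : ∀ x ∈ Q, ∀ y ∈ Q, ⁅x, y⁆ ∈ W := fun x hx y hy => by
    rw [show ⁅x, y⁆ = x * x * (x⁻¹ * y * (x⁻¹ * y)) * (y * y)⁻¹ by group]
    exact mul_mem (mul_mem (sqW x hx) (sqW _ (mul_mem (inv_mem hx) hy))) (inv_mem (sqW y hy))
  have hC : Q ⊓ Subgroup.centralizer {c} = Z := by
    rcases dvd64 _ inf_le_left ((card_modEq Q c5 (nQ c)).trans (by rw [hD])) with e | e
    · exact (Subgroup.eq_of_le_of_card_ge (le_inf hZQ zc) (by omega)).symm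
    · have e1 := inf_eq_left.mp (Subgroup.eq_of_le_of_card_ge inf_le_left (e.trans hD.symm).ge)
      have := Subgroup.card_le_of_le (hcomm W nW cmW fun x hx => by
        rw [commutatorElement_eq_one_iff_mul_comm.mpr
          (Subgroup.mem_centralizer_singleton_iff.mp (e1 hx))]
        exact one_mem _)
      omega
  have irr : ∀ V : Subgroup G, Z ≤ V → V ≤ Q → (∀ x ∈ V, c * x * c⁻¹ ∈ V) → V = Z ∨ V = Q :=
    fun V h1 h3 h4 => by
      have e1 : V ⊓ Subgroup.centralizer {c} = Z :=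
        le_antisymm (hC ▸ inf_le_inf_right _ h3) (le_inf h1 zc)
      have e2 := card_modEq V c5 h4
      rw [e1, cZ] at e2
      exact (dvd64 V h3 e2.symm).imp
        (fun e => (Subgroup.eq_of_le_of_card_ge h1 (by omega)).symm)
        fun e => Subgroup.eq_of_le_of_card_ge h3 (by omega)
  have WZ : W = Z := (irr W (fun z hz => Subgroup.subset_closure (Or.inl hz))
    (WM.trans (Subgroup.map_subtype_le _)) fun x hx => nW.conj_mem x hx c).resolve_right
    fun e => by rw [e] at cW; omega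
  rw [WZ] at sqW cmW
  have cjQ : ∀ a ∈ Q, ∀ i, cj c a i ∈ Q := fun a ha i => nQ _ a ha
  have fixZ : ∀ x ∈ Q, x⁻¹ * (c * x * c⁻¹) ∈ Z → x ∈ Z := fun x hx h1 => by
    obtain ⟨z, hz⟩ : ∃ z, z = x⁻¹ * (c * x * c⁻¹) := ⟨_, rfl⟩
    rw [← hz] at h1
    have e1 : ∀ i, cj c x i = x * z ^ i := fun i => by
      induction i with
      | zero => simp [cj]
      | succ i ih =>
        rw [add_comm, ← conj_cj, ih, pow_one, ← conj_mul, ← ((zc' z h1).pow_left i).eq,
          mul_inv_cancel_right, add_comm, pow_succ', ← mul_assoc, hz, mul_inv_cancel_left]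
    have e2 := e1 5
    rw [cj_mod c5, cj_zero, show z ^ 5 = z * z * (z * z) * z by
      simp only [pow_succ, pow_zero, one_mul, mul_assoc], zz z h1] at e2
    rw [← hC]
    refine ⟨hx, Subgroup.mem_centralizer_singleton_iff.mpr ?_⟩
    have e3 : z = 1 := by simpa using e2
    rw [e3, eq_inv_mul_iff_mul_eq, mul_one, eq_mul_inv_iff_mul_eq] at hz
    exact hz
  have prZ : ∀ a ∈ Q, a * cj c a 1 * cj c a 2 * cj c a 3 * cj c a 4 ∈ Z := fun a ha => by
    have e1 := mul_mem (mul_mem (mul_mem (mul_mem ha (cjQ a ha 1)) (cjQ a ha 2)) (cjQ a ha 3))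
      (cjQ a ha 4)
    refine fixZ _ e1 ?_
    have e2 : ∀ i, c * cj c a i * c⁻¹ = cj c a (1 + i) := fun i => by rw [← conj_cj, pow_one]
    have e3 : c * a * c⁻¹ = cj c a 1 := by rw [cj, pow_one]
    simp only [← conj_mul, e2, e3]
    rw [cj_mod c5 a (1 + 4)]
    convert cmW _ (inv_mem e1) _ (inv_mem ha) using 1
    simp only [commutatorElement_def, cj_zero, Nat.mod_self, Nat.reduceAdd]
    group
  obtain ⟨b, hb, hbZ⟩ := SetLike.exists_of_lt (lt_of_le_of_ne hZQ fun e => by rw [e] at cZ; omega)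
  obtain ⟨a, ha, haZ, pr⟩ : ∃ a ∈ Q, a ∉ Z ∧ a * cj c a 1 * cj c a 2 * cj c a 3 * cj c a 4 = 1 := by
    have e1 := prZ b hb
    obtain ⟨z, hz⟩ : ∃ z, z = b * cj c b 1 * cj c b 2 * cj c b 3 * cj c b 4 := ⟨_, rfl⟩
    rw [← hz] at e1
    refine ⟨b * z, mul_mem hb (hZQ e1), fun e => hbZ ((Z.mul_mem_cancel_right e1).mp e), ?_⟩
    have e2 : ∀ i, cj c (b * z) i = cj c b i * z := fun i => by
      rw [cj, ← conj_mul, ← ((zc' z e1).pow_right i).eq, mul_inv_cancel_right, cj]
    have e3 : ∀ i t, z * (cj c b i * t) = cj c b i * (z * t) := fun i t => by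
      rw [← mul_assoc, (((mZ z).mp e1).2 _ (cjQ b hb i)).eq, mul_assoc]
    have e4 : ∀ t, z * (z * t) = t := fun t => by rw [← mul_assoc, zz z e1, one_mul]
    simp only [e2, mul_assoc, e3, e4]
    simpa only [mul_assoc, hz] using zz z e1
  have hu := cmW _ (inv_mem (cjQ a ha 1)) _ (inv_mem ha)
  have hw := cmW _ (inv_mem (cjQ a ha 2)) _ (inv_mem ha)
  have hs := sqW a ha
  have cm : ∀ z ∈ Z, ∀ y ∈ Q, Commute z y := fun z hz => ((mZ z).mp hz).2
  have r1 : cj c a 1 * a = a * cj c a 1 * ⁅(cj c a 1)⁻¹, a⁻¹⁆ := by group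
  have r2 : cj c a 2 * a = a * cj c a 2 * ⁅(cj c a 2)⁻¹, a⁻¹⁆ := by group
  refine ⟨a, c, _, _, ⟨c5, zz _ hu, zz _ hw, cm _ hu _ (hZQ hw), cm _ hu _ ha, zc' _ hu, cm _ hw _ ha,
    zc' _ hw, sq_eq c5 (zz _ hu) (zz _ hw) (zz _ hs) (cm _ hu _ (hZQ hw)) (cm _ hu _ (hZQ hs))
      (cm _ hw _ (hZQ hs)) (cm _ hu _ ha) (zc' _ hu) (cm _ hw _ ha) (zc' _ hw) (zc' _ hs) rfl r1 r2
      pr, r1, r2, pr⟩, ?_⟩
  set P := Subgroup.closure ({a, c} : Set G)
  have hP : a ∈ P := Subgroup.subset_closure (by simp)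
  have hP' : c ∈ P := Subgroup.subset_closure (by simp)
  have zt : ∀ z ∈ Z, ∀ g, Commute z g := fun z hz g =>
    (hsup (Subgroup.centralizer {z})
      (fun y hy => Subgroup.mem_centralizer_singleton_iff.mpr (cm z hz y hy).symm)
      (Subgroup.mem_centralizer_singleton_iff.mpr (zc' z hz).symm)).ge (Subgroup.mem_top g) _ rfl
  have e1 : Q ≤ P ⊔ Z := ((irr ((P ⊔ Z) ⊓ Q) (le_inf le_sup_right hZQ) inf_le_right fun x hx =>
    ⟨(P ⊔ Z).mul_mem ((P ⊔ Z).mul_mem (Subgroup.mem_sup_left hP') hx.1)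
      ((P ⊔ Z).inv_mem (Subgroup.mem_sup_left hP')), nQ c x hx.2⟩).resolve_left fun e =>
        haZ (e.le ⟨Subgroup.mem_sup_left hP, ha⟩)).ge.trans inf_le_left
  have e2 := hsup _ e1 (Subgroup.mem_sup_left hP')
  refine hsup P ?_ hP'
  refine Subgroup.commutator_le.mpr fun x _ y _ => ?_
  obtain ⟨p, hp, z, hz, rfl⟩ := Subgroup.mem_sup_of_normal_right.mp (e2.ge (Subgroup.mem_top x))
  obtain ⟨p', hp', z', hz', rfl⟩ := Subgroup.mem_sup_of_normal_right.mp (e2.ge (Subgroup.mem_top y))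
  have e3 : ∀ x y t : G, (∀ g, Commute t g) → ⁅x * t, y⁆ = ⁅x, y⁆ := fun x y t ht => by
    simp only [commutatorElement_def, mul_inv_rev]
    rw [mul_assoc x t y, (ht y).eq, ← mul_assoc x y t, ← mul_assoc _ t⁻¹, mul_inv_cancel_right]
  rw [e3 _ _ _ (zt z hz), ← commutatorElement_inv, e3 _ _ _ (zt z' hz'), commutatorElement_inv]
  exact mul_mem (mul_mem (mul_mem hp hp') (inv_mem hp)) (inv_mem hp')

end Cfsg.Agent.H9.G320
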