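import Cfsg.Agent.H9.KInf2
import Cfsg.Agent.H9.Reduction

/-!
The norm map from the fixed points of a subgroup on an abelian normal subgroup.
-/

set_option autoImplicit false
set_option linter.unusedSectionVars false

namespace Cfsg.Agent.H9

open Subgroup
open scoped commutatorElement IsMulCommutative

variable {G : Type*} [Group G] [Finite G]

theorem exists_norm (D S : Subgroup G) [D.Normal] [IsMulCommutative D] :
    ∃ ν : (D ⊓ centralizer (S : Set G) : Subgroup G) →* G, (∀ x, ν x ∈ D ⊓ center G) ∧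
      ∀ (x : (D ⊓ centralizer (S : Set G) : Subgroup G)) (E : Subgroup G),
        (∀ g : G, ⁅g, (x : G)⁆ ∈ E) → ν x * ((x : G) ^ S.index)⁻¹ ∈ E := by
  letI := S.fintypeQuotientOfFiniteIndex
  let ι := inclusion (inf_le_left : D ⊓ centralizer (S : Set G) ≤ D)
  let ν₀ : (D ⊓ centralizer (S : Set G) : Subgroup G) →* D :=
    ∏ c : G ⧸ S, (MulAut.conjNormal c.out).toMonoidHom.comp ι
  have h0 : ∀ x, ν₀ x = ∏ c : G ⧸ S, MulAut.conjNormal c.out (ι x) := fun x => by
    simp [ν₀, MonoidHom.finsetProd_apply]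
  have h1 : ∀ x (s t : G), (s : G ⧸ S) = t →
      MulAut.conjNormal s (ι x) = MulAut.conjNormal t (ι x) := fun x s t hst => by
    apply Subtype.ext
    have := x.2.2 _ (QuotientGroup.eq.1 hst)
    show s * x * s⁻¹ = t * x * t⁻¹
    calc s * x * s⁻¹ = s * (x * (s⁻¹ * t)) * t⁻¹ := by group
      _ = _ := by rw [← this]; group
  refine ⟨D.subtype.comp ν₀, fun x => ⟨(ν₀ x).2, ?_⟩, fun x E hE => ?_⟩
  · refine mem_center_iff.2 fun g => ?_
    have : MulAut.conjNormal g (ν₀ x) = ν₀ x := by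
      rw [h0, map_prod]
      refine Fintype.prod_equiv (MulAction.toPerm g) _ _ fun c => ?_
      rw [MulAction.toPerm_apply, h1 x (g • c).out (g * c.out), map_mul, MulAut.mul_apply]
      rw [QuotientGroup.out_eq', ← smul_eq_mul, MulAction.Quotient.coe_smul_out]
    exact mul_inv_eq_iff_eq_mul.1 (congrArg Subtype.val this)
  · have : ν₀ x * (ι x ^ S.index)⁻¹ ∈ E.subgroupOf D := by
      rw [h0, index, Nat.card_eq_fintype_card, ← Finset.card_univ, ← Finset.prod_const,
        ← Finset.prod_inv_distrib, ← Finset.prod_mul_distrib]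
      exact prod_mem fun c _ => hE c.out
    exact this

variable {p : ℕ} [Fact p.Prime]

theorem mem_of_pow_mem {E : Subgroup G} {x : G} {k n : ℕ} (hx : x ^ p ^ k = 1) (hn : ¬ p ∣ n)
    (h : x ^ n ∈ E) : x ∈ E := by
  have hc : n.Coprime (orderOf x) := Nat.Coprime.coprime_dvd_right (orderOf_dvd_of_pow_eq_one hx)
    (((Nat.Prime.coprime_iff_not_dvd Fact.out).2 hn).symm.pow_right k)
  obtain ⟨m, hm⟩ := exists_pow_eq_self_of_coprime hc
  rw [← hm]
  exact pow_mem h m

/-- The fixed points of `G` on `D` are a direct factor of the fixed points of `S`. -/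
theorem exists_compl_center {D S : Subgroup G} [D.Normal] [IsMulCommutative D]
    (hD : IsPGroup p D) (hS : ¬ p ∣ S.index) :
    ∃ K ≤ D ⊓ centralizer (S : Set G), (D ⊓ center G) ⊓ K = ⊥ ∧
      (D ⊓ center G) ⊔ K = D ⊓ centralizer (S : Set G) := by
  obtain ⟨ν, h1, h2⟩ := exists_norm D S
  have h3 : ∀ x : (D ⊓ centralizer (S : Set G) : Subgroup G), (x : G) ∈ center G →
      ν x = x ^ S.index := fun x hx => by
    have := h2 x ⊥ fun g => by
      rw [mem_bot, commutatorElement_eq_one_iff_mul_comm]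
      exact mem_center_iff.1 hx g
    rwa [mem_bot, mul_inv_eq_one] at this
  have h4 : D ⊓ center G ≤ D ⊓ centralizer (S : Set G) :=
    inf_le_inf_left _ (center_le_centralizer _)
  refine ⟨ν.ker.map (Subgroup.subtype _), map_subtype_le _, ?_, ?_⟩
  · rw [eq_bot_iff]
    rintro _ ⟨hx, x, hx', rfl⟩
    obtain ⟨k, hk⟩ := H1.isPGroup_iff_mem.1 hD _ hx.1
    refine mem_of_pow_mem hk hS ?_
    rw [mem_bot]
    exact (h3 x hx.2).symm.trans hx'
  · refine le_antisymm (sup_le h4 (map_subtype_le _)) fun x hx => ?_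
    obtain ⟨k, hk⟩ := H1.isPGroup_iff_mem.1 hD _ hx.1
    refine mem_of_pow_mem hk hS ?_
    set y : (D ⊓ centralizer (S : Set G) : Subgroup G) := ⟨x, hx⟩
    let z : (D ⊓ centralizer (S : Set G) : Subgroup G) := ⟨ν y, h4 (h1 y)⟩
    have e : x ^ S.index = ν y * ((z⁻¹ * y ^ S.index : (D ⊓ centralizer (S : Set G) :
      Subgroup G)) : G) := by simp [z, y]
    rw [e]
    refine mul_mem (mem_sup_left (h1 y)) (mem_sup_right ⟨z⁻¹ * y ^ S.index, ?_, rfl⟩)
    show ν _ = 1
    rw [map_mul, map_inv, map_pow, h3 z (h1 y).2]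
    simp [z]

end Cfsg.Agent.H9
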