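import Mathlib

/-! Limits of conjugates `(1 + tβ) U (1 - tβ)` of a subspace `U` of an algebra as `t → ∞`. -/

set_option autoImplicit false
set_option linter.unusedSectionVars false
set_option linter.unusedVariables false
set_option linter.style.haveILetI false

namespace Cfsg.Agent.H9.QO

open Polynomial Module

variable {F R : Type*} [Field F] [Ring R] [Algebra F R]

/-- conjugation by `1 + tβ` on polynomials -/
noncomputable def EE (F : Type*) {R : Type*} [Field F] [Ring R] [Algebra F R] (β : R) :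
    R[X] →ₗ[F] R[X] where
  toFun f := (1 + X * C β) * f * (1 - X * C β)
  map_add' f g := by rw [mul_add, add_mul]
  map_smul' c f := by simp only [RingHom.id_apply, mul_smul_comm, smul_mul_assoc]

theorem EE_apply (β : R) (f : R[X]) : EE F β f = (1 + X * C β) * f * (1 - X * C β) := rfl

theorem sub_mul_add {β : R} (h : β * β = 0) : (1 - X * C β) * (1 + X * C β) = (1 : R[X]) := by
  have : (X * C β) * (X * C β) = (0 : R[X]) := by
    rw [mul_assoc, ← mul_assoc (C β), ← X_mul, mul_assoc, ← C_mul, h]; simp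
  noncomm_ring [this]

theorem add_mul_sub {β : R} (h : β * β = 0) : (1 + X * C β) * (1 - X * C β) = (1 : R[X]) := by
  have : (X * C β) * (X * C β) = (0 : R[X]) := by
    rw [mul_assoc, ← mul_assoc (C β), ← X_mul, mul_assoc, ← C_mul, h]; simp
  noncomm_ring [this]

theorem EE_mul {β : R} (h : β * β = 0) (f g : R[X]) : EE F β f * EE F β g = EE F β (f * g) := by
  simp only [EE_apply]
  calc _ = (1 + X * C β) * f * ((1 - X * C β) * (1 + X * C β)) * g * (1 - X * C β) := by
        simp only [mul_assoc]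
    _ = _ := by rw [sub_mul_add h]; simp only [mul_assoc, one_mul]

theorem EE_injective {β : R} (h : β * β = 0) : Function.Injective (EE F β) := by
  rw [← LinearMap.ker_eq_bot, Submodule.eq_bot_iff]
  intro f hf
  rw [LinearMap.mem_ker, EE_apply] at hf
  have : (1 - X * C β) * ((1 + X * C β) * f * (1 - X * C β)) * (1 + X * C β) = f := by
    calc _ = ((1 - X * C β) * (1 + X * C β)) * f * ((1 - X * C β) * (1 + X * C β)) := by
          simp only [mul_assoc]
      _ = f := by rw [sub_mul_add h]; simp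
  rw [← this, hf]; simp

theorem EE_X_pow_mul (β : R) (n : ℕ) (f : R[X]) : EE F β (X ^ n * f) = X ^ n * EE F β f := by
  simp only [EE_apply]
  rw [← mul_assoc, ← mul_assoc, ← mul_assoc, (commute_X_pow _ n).eq]

theorem EE_eq (β : R) (f : R[X]) :
    EE F β f = f + X * (C β * f - f * C β) - X ^ 2 * (C β * f * C β) := by
  rw [EE_apply]
  have h1 : f * (X * C β) = X * (f * C β) := by rw [← mul_assoc, ← X_mul, mul_assoc]
  have h2 : X * C β * f * (X * C β) = X ^ 2 * (C β * f * C β) := by
    rw [mul_assoc, h1, mul_assoc, ← mul_assoc (C β), ← X_mul, sq]; simp only [mul_assoc]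
  rw [add_mul, one_mul, mul_sub, mul_one, add_mul, h1, h2, mul_sub, mul_assoc X (C β) f]
  abel

theorem coeff_EE (β : R) (f : R[X]) (k : ℕ) :
    (EE F β f).coeff k = f.coeff k
      + (if 1 ≤ k then β * f.coeff (k - 1) - f.coeff (k - 1) * β else 0)
      - (if 2 ≤ k then β * f.coeff (k - 2) * β else 0) := by
  rw [EE_eq, coeff_sub, coeff_add, ← pow_one X, coeff_X_pow_mul', ← pow_mul, one_mul,
    coeff_X_pow_mul']
  simp only [coeff_sub, coeff_C_mul, coeff_mul_C]

/-- the limit of the conjugates of `U` -/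
def Lim (β : R) (U : Submodule F R) : Submodule F R where
  carrier := {x | ∃ f : R[X], (∀ k, f.coeff k ∈ U) ∧ ∃ d, (EE F β f).natDegree ≤ d ∧
    (EE F β f).coeff d = x}
  zero_mem' := ⟨0, by simp, 0, by simp, by simp⟩
  add_mem' := by
    rintro x y ⟨f, hf, d, hd, rfl⟩ ⟨g, hg, e, he, rfl⟩
    refine ⟨X ^ e * f + X ^ d * g, fun k => ?_, d + e, ?_, ?_⟩
    · rw [coeff_add, coeff_X_pow_mul', coeff_X_pow_mul']
      refine U.add_mem ?_ ?_ <;> split_ifs <;> simp [hf, hg]
    · rw [map_add, EE_X_pow_mul, EE_X_pow_mul]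
      refine (natDegree_add_le _ _).trans (max_le ?_ ?_)
      · refine natDegree_mul_le.trans ?_
        have := natDegree_X_pow_le (R := R) e
        omega
      · refine natDegree_mul_le.trans ?_
        have := natDegree_X_pow_le (R := R) d
        omega
    · rw [map_add, EE_X_pow_mul, EE_X_pow_mul, coeff_add, coeff_X_pow_mul, add_comm d e,
        coeff_X_pow_mul]
  smul_mem' := by
    rintro c x ⟨f, hf, d, hd, rfl⟩
    refine ⟨c • f, fun k => ?_, d, ?_, ?_⟩
    · rw [coeff_smul]; exact U.smul_mem _ (hf k)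
    · rw [map_smul]; exact (natDegree_smul_le _ _).trans hd
    · rw [map_smul, coeff_smul]

theorem mem_Lim {β : R} {U : Submodule F R} {x : R} : x ∈ Lim β U ↔
    ∃ f : R[X], (∀ k, f.coeff k ∈ U) ∧ ∃ d, (EE F β f).natDegree ≤ d ∧
      (EE F β f).coeff d = x := Iff.rfl

theorem Lim_mono (β : R) {U W : Submodule F R} (h : U ≤ W) : Lim β U ≤ Lim β W := by
  rintro x ⟨f, hf, d⟩
  exact ⟨f, fun k => h (hf k), d⟩

theorem Lim_le {β : R} {U W : Submodule F R} (h0 : U ≤ W) (h1 : ∀ u ∈ U, β * u - u * β ∈ W)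
    (h2 : ∀ u ∈ U, β * u * β ∈ W) : Lim β U ≤ W := by
  rintro x ⟨f, hf, d, -, rfl⟩
  rw [coeff_EE]
  refine W.sub_mem (W.add_mem (h0 (hf _)) ?_) ?_ <;> split_ifs
  · exact h1 _ (hf _)
  · exact W.zero_mem
  · exact h2 _ (hf _)
  · exact W.zero_mem

theorem Lim_mul {β : R} (hβ : β * β = 0) {U W : Submodule F R}
    (h : ∀ u ∈ U, ∀ w ∈ W, u * w = 0) : ∀ u ∈ Lim β U, ∀ w ∈ Lim β W, u * w = 0 := by
  rintro _ ⟨f, hf, d, hd, rfl⟩ _ ⟨g, hg, e, he, rfl⟩
  rw [← coeff_mul_add_eq_of_natDegree_le hd he, EE_mul hβ]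
  have : f * g = 0 := by
    ext n
    rw [coeff_mul, coeff_zero]
    exact Finset.sum_eq_zero fun x _ => h _ (hf _) _ (hg _)
  rw [this]; simp

theorem finrank_le_of_lead [FiniteDimensional F R] (Λ : Submodule F R) (d : ℕ) :
    ∀ S : Submodule F R[X], Module.Finite F S → (∀ g ∈ S, ∀ k, d ≤ k → g.coeff k = 0) →
      (∀ g ∈ S, ∀ k, g.natDegree ≤ k → g.coeff k ∈ Λ) → finrank F S ≤ d * finrank F Λ := by
  induction d with
  | zero =>
    intro S _ h1 _
    have : S = ⊥ := by
      rw [Submodule.eq_bot_iff]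
      intro g hg
      ext k
      simpa using h1 g hg k (Nat.zero_le _)
    subst this
    simp
  | succ d ih =>
    intro S hS h1 h2
    let φ : R[X] →ₗ[F] R := (lcoeff R d).restrictScalars F
    have e1 := LinearMap.finrank_range_add_finrank_ker (φ.domRestrict S)
    have e2 : finrank F (LinearMap.range (φ.domRestrict S)) ≤ finrank F Λ := by
      refine Submodule.finrank_mono ?_
      rintro _ ⟨g, rfl⟩
      refine h2 g g.2 d ?_
      rw [natDegree_le_iff_coeff_eq_zero]
      intro N hN
      exact h1 g g.2 N hN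
    have e3 : finrank F (LinearMap.ker (φ.domRestrict S))
        = finrank F ((LinearMap.ker (φ.domRestrict S)).map S.subtype) :=
      (Submodule.finrank_map_subtype_eq _ _).symm
    have e4 := ih ((LinearMap.ker (φ.domRestrict S)).map S.subtype) inferInstance
      (by
        rintro _ ⟨g, hg, rfl⟩ k hk
        rcases hk.eq_or_lt with rfl | hk
        · exact hg
        · exact h1 g g.2 k hk)
      (by
        rintro _ ⟨g, hg, rfl⟩ k hk
        exact h2 g g.2 k hk)
    rw [← e1, e3, add_mul, one_mul]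
    omega

theorem finrank_le_Lim [FiniteDimensional F R] {β : R} (hβ : β * β = 0) (U : Submodule F R) :
    finrank F U ≤ finrank F (Lim β U) := by
  have key : ∀ n : ℕ, n * finrank F U ≤ (n + 2) * finrank F (Lim β U) := by
    intro n
    let Φ : (Fin n → U) →ₗ[F] R[X] :=
      ∑ i : Fin n, ((monomial (R := R) i).restrictScalars F) ∘ₗ U.subtype ∘ₗ LinearMap.proj i
    have hΦ : ∀ (u : Fin n → U) (k : ℕ),
        (Φ u).coeff k = if h : k < n then (u ⟨k, h⟩ : R) else 0 := by
      intro u k
      simp only [Φ, LinearMap.coe_sum, Finset.sum_apply, LinearMap.comp_apply,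
        LinearMap.restrictScalars_apply, finset_sum_coeff, coeff_monomial, LinearMap.proj_apply,
        Submodule.subtype_apply]
      split_ifs with h
      · rw [Finset.sum_eq_single ⟨k, h⟩]
        · simp
        · intro b _ hb
          rw [if_neg]
          intro h'
          exact hb (Fin.ext h')
        · simp
      · refine Finset.sum_eq_zero fun i _ => if_neg ?_
        have := i.2
        omega
    have hinj : Function.Injective (EE F β ∘ₗ Φ) := by
      refine (EE_injective (F := F) hβ).comp (f := Φ) ?_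
      intro u v huv
      funext i
      have := congrArg (fun f => f.coeff i) huv
      simp only [hΦ, i.2, dif_pos] at this
      exact Subtype.ext this
    have e1 : finrank F (LinearMap.range (EE F β ∘ₗ Φ)) = n * finrank F U := by
      rw [LinearMap.finrank_range_of_inj hinj, finrank_pi_fintype]
      simp
    rw [← e1]
    refine finrank_le_of_lead _ _ _ inferInstance ?_ ?_
    · rintro _ ⟨u, rfl⟩ k hk
      rw [LinearMap.comp_apply, coeff_EE, hΦ, hΦ, hΦ, dif_neg (by omega), dif_neg (by omega),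
        dif_neg (by omega)]
      simp
    · rintro _ ⟨u, rfl⟩ k hk
      refine ⟨Φ u, fun j => ?_, k, hk, rfl⟩
      rw [hΦ]
      split_ifs
      · exact (u _).2
      · exact U.zero_mem
  by_contra h
  push Not at h
  have := key (2 * finrank F (Lim β U) + 1)
  nlinarith

theorem mem_Lim_two {β : R} {U : Submodule F R} {u : R} (hu : u ∈ U) : β * u * β ∈ Lim β U := by
  refine (Lim β U).neg_mem_iff.1 ⟨C u, fun k => ?_, 2, ?_, ?_⟩
  · rw [coeff_C]; split_ifs <;> simp [hu]
  · rw [natDegree_le_iff_coeff_eq_zero]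
    intro N hN
    rw [coeff_EE, coeff_C, coeff_C, coeff_C, if_neg (by omega), if_neg (by omega : ¬ N - 1 = 0),
      if_neg (by omega : ¬ N - 2 = 0)]
    simp
  · rw [coeff_EE]; simp [coeff_C]

theorem mem_Lim_one {β : R} (hβ : β * β = 0) {U : Submodule F R} {u : R} (hu : u ∈ U)
    (h2 : β * u * β ∈ U) : β * u - u * β ∈ Lim β U := by
  have e : EE F β (C u + X ^ 2 * C (β * u * β)) = C u + X * C (β * u - u * β) := by
    rw [map_add, EE_X_pow_mul, EE_eq, EE_eq]
    simp only [← C_mul, ← C_sub]
    have h3 : β * (β * u * β) = 0 := by rw [← mul_assoc, ← mul_assoc, hβ]; simp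
    have h4 : β * u * β * β = 0 := by rw [mul_assoc, hβ]; simp
    rw [h3, h4]; simp
  refine ⟨C u + X ^ 2 * C (β * u * β), fun k => ?_, 1, ?_, ?_⟩
  · rw [coeff_add, coeff_X_pow_mul', coeff_C, coeff_C]
    refine U.add_mem ?_ ?_ <;> split_ifs <;> simp [hu, h2]
  · rw [e, natDegree_le_iff_coeff_eq_zero]
    intro N hN
    rw [coeff_add, ← pow_one X, coeff_X_pow_mul', coeff_C, coeff_C, if_neg (by omega),
      if_neg (by omega : ¬ N - 1 = 0)]
    simp
  · rw [e, coeff_add, coeff_X_mul]; simp [coeff_C]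

end Cfsg.Agent.H9.QO
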