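import Cfsg.Agent.H9.QO1

/-! Quadratic offenders that are normal in their normal closure (linear form). -/

set_option autoImplicit false
set_option linter.unusedSectionVars false
set_option linter.unusedVariables false
set_option linter.style.haveILetI false

namespace Cfsg.Agent.H9.QO

open Module

variable {F R : Type*} [Field F] [Ring R] [Algebra F R]

/-- truncated exponential -/
def ex (F : Type*) {R : Type*} [Field F] [Ring R] [Algebra F R] (u : R) : R :=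
  1 + u + (2 : F)⁻¹ • (u * u) + (6 : F)⁻¹ • (u * u * u)

theorem ex_add (h2 : (2 : F) ≠ 0) (h3 : (3 : F) ≠ 0) {u w : R} (a1 : w * w = 0)
    (a2 : w * u * w = 0) (a3 : u * u * u = 0) (a4 : u * u * w * u = 0) (a5 : u * w * u * u = 0) :
    ex F (u + w) = ex F u * (1 + (w - (2 : F)⁻¹ • (u * w - w * u)
      + (6 : F)⁻¹ • (u * (u * w - w * u) - (u * w - w * u) * u))) := by
  have h6 : (6 : F) ≠ 0 := by
    have : (6 : F) = 2 * 3 := by norm_num
    rw [this]; exact mul_ne_zero h2 h3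
  have b1 : ∀ t, w * (w * t) = 0 := fun t => by rw [← mul_assoc, a1, zero_mul]
  have b2 : w * (u * w) = 0 := by rw [← mul_assoc, a2]
  have b3 : u * (u * u) = 0 := by rw [← mul_assoc, a3]
  have b3' : ∀ t, u * (u * (u * t)) = 0 := fun t => by
    rw [← mul_assoc, ← mul_assoc, a3, zero_mul]
  have b4 : u * (u * (w * u)) = 0 := by rw [← mul_assoc, ← mul_assoc, a4]
  have b5 : u * (w * (u * u)) = 0 := by rw [← mul_assoc, ← mul_assoc, a5]
  simp only [ex, mul_add, add_mul, mul_sub, sub_mul, mul_assoc, smul_mul_assoc, mul_smul_comm,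
    one_mul, mul_one, a1, b1, b2, b3, b3', b4, b5, mul_zero, smul_zero, smul_add, smul_sub,
    add_zero, zero_add, sub_zero, zero_sub]
  match_scalars <;> field_simp <;> ring

/-- `U` is an abelian ideal with respect to `y` -/
structure Sq (U : Submodule F R) : Prop where
  mul : ∀ x ∈ U, ∀ y ∈ U, x * y = 0

theorem sand2 {U : Submodule F R} (hU : Sq U) {x x' y : R} (hx : x ∈ U) (hx' : x' ∈ U)
    (hy : ∀ u ∈ U, y * u - u * y ∈ U) : x * y * x' = 0 := by
  have := hU.mul _ hx _ (hy _ hx')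
  rw [mul_sub, ← mul_assoc, ← mul_assoc, hU.mul _ hx _ hx'] at this
  simpa using this

theorem sand3 {U : Submodule F R} (hU : Sq U) {x x' y z : R} (hx : x ∈ U) (hx' : x' ∈ U)
    (hy : ∀ u ∈ U, y * u - u * y ∈ U) (hz : ∀ u ∈ U, z * u - u * z ∈ U) :
    x * y * z * x' = 0 := by
  have := sand2 hU hx (hz _ hx') hy
  rw [mul_sub, ← mul_assoc, ← mul_assoc, sand2 hU hx hx' hy] at this
  simpa using this

/-- the exponential of an element of the sum of three mutually normalising square zero spaces -/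
theorem ex_three (h2 : (2 : F) ≠ 0) (h3 : (3 : F) ≠ 0) {A B C : Submodule F R} (hA : Sq A)
    (hB : Sq B) (hC : Sq C) (AB : ∀ x ∈ A, ∀ u ∈ B, x * u - u * x ∈ B)
    (BA : ∀ x ∈ B, ∀ u ∈ A, x * u - u * x ∈ A) (AC : ∀ x ∈ A, ∀ u ∈ C, x * u - u * x ∈ C)
    (CA : ∀ x ∈ C, ∀ u ∈ A, x * u - u * x ∈ A) (BC : ∀ x ∈ B, ∀ u ∈ C, x * u - u * x ∈ C)
    (CB : ∀ x ∈ C, ∀ u ∈ B, x * u - u * x ∈ B) {x y w : R} (hx : x ∈ A) (hy : y ∈ B)
    (hw : w ∈ C) : ∃ y' ∈ B, ∃ w' ∈ C, ex F (x + y + w) = (1 + x) * (1 + y') * (1 + w') := by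
  have xx := hA.mul _ hx _ hx
  have yy := hB.mul _ hy _ hy
  have xyx := sand2 hA hx hx (BA _ hy)
  have yxy := sand2 hB hy hy (AB _ hx)
  have xwx := sand2 hA hx hx (CA _ hw)
  have ywy := sand2 hB hy hy (CB _ hw)
  have xywx := sand3 hA hx hx (BA _ hy) (CA _ hw)
  have xwyx := sand3 hA hx hx (CA _ hw) (BA _ hy)
  have yxwy := sand3 hB hy hy (AB _ hx) (CB _ hw)
  have ywxy := sand3 hB hy hy (CB _ hw) (AB _ hx)
  have uC : ∀ u ∈ C, (x + y) * u - u * (x + y) ∈ C := fun u hu => by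
    have := C.add_mem (AC _ hx _ hu) (BC _ hy _ hu)
    convert this using 1
    noncomm_ring
  have e1 := ex_add h2 h3 (u := x) (w := y) yy yxy (by rw [xx, zero_mul])
    (by rw [xx, zero_mul, zero_mul]) (by rw [xyx, zero_mul])
  have xx' : ∀ t, x * (x * t) = 0 := fun t => by rw [← mul_assoc, xx, zero_mul]
  have yy' : ∀ t, y * (y * t) = 0 := fun t => by rw [← mul_assoc, yy, zero_mul]
  have xwx' : ∀ t, x * (w * (x * t)) = 0 := fun t => by
    rw [← mul_assoc, ← mul_assoc, xwx, zero_mul]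
  have ywy' : ∀ t, y * (w * (y * t)) = 0 := fun t => by
    rw [← mul_assoc, ← mul_assoc, ywy, zero_mul]
  have e2 := ex_add h2 h3 (u := x + y) (w := w) (hC.mul _ hw _ hw) (sand2 hC hw hw uC)
    (by
      simp only [mul_assoc] at xyx yxy
      simp only [mul_add, add_mul, mul_assoc, xx, yy, xx', yy', xyx, yxy, mul_zero, add_zero,
        zero_mul, zero_add])
    (by
      simp only [mul_assoc] at xwx ywy xywx yxwy
      simp only [mul_add, add_mul, mul_assoc, xx', yy', xwx, ywy, xywx, yxwy, mul_zero, add_zero,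
        zero_mul, zero_add])
    (by
      simp only [mul_assoc] at xwyx ywxy
      simp only [mul_add, add_mul, mul_assoc, xx, yy, xwx', ywy', xwyx, ywxy, mul_zero, add_zero,
        zero_mul, zero_add])
  have e3 : ex F x = 1 + x := by simp [ex, xx]
  refine ⟨_, ?_, _, ?_, by rw [e2, e1, e3]⟩
  · exact B.add_mem (B.sub_mem hy (B.smul_mem _ (AB _ hx _ hy)))
      (B.smul_mem _ (AB _ hx _ (AB _ hx _ hy)))
  · exact C.add_mem (C.sub_mem hw (C.smul_mem _ (uC _ hw))) (C.smul_mem _ (uC _ (uC _ hw)))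

variable {G : Type*} [Group G]

/-- conjugation action on the algebra -/
def cjr (F : Type*) {R G : Type*} [Field F] [Ring R] [Algebra F R] [Group G] (ρ : G →* R) :
    G →* Module.End F R where
  toFun g :=
    { toFun := fun x => ρ g * x * ρ g⁻¹
      map_add' := fun x y => by rw [mul_add, add_mul]
      map_smul' := fun c x => by simp only [RingHom.id_apply, mul_smul_comm, smul_mul_assoc] }
  map_one' := LinearMap.ext fun x => by simp
  map_mul' g h := LinearMap.ext fun x => by simp [mul_assoc]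

variable {ρ : G →* R}

theorem cjr_apply (g : G) (x : R) : cjr F ρ g x = ρ g * x * ρ g⁻¹ := rfl

theorem cjr_mul (g : G) (x y : R) : cjr F ρ g (x * y) = cjr F ρ g x * cjr F ρ g y := by
  simp only [cjr_apply, mul_assoc]
  rw [← mul_assoc (ρ g⁻¹), ← map_mul, inv_mul_cancel, map_one, one_mul]

theorem cjr_cjr (g h : G) (x : R) : cjr F ρ g (cjr F ρ h x) = cjr F ρ (g * h) x := by
  rw [map_mul]; rfl

theorem cjr_one (x : R) : cjr F ρ 1 x = x := by rw [map_one]; rfl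

theorem cjr_rho (g h : G) : cjr F ρ g (ρ h - 1) = ρ (g * h * g⁻¹) - 1 := by
  rw [cjr_apply, mul_sub, sub_mul, mul_one, ← map_mul, ← map_mul, ← map_mul, mul_inv_cancel,
    map_one]

theorem cjr_injective (g : G) : Function.Injective (cjr F ρ g) := by
  intro x y h
  have := congrArg (cjr F ρ g⁻¹) h
  rwa [cjr_cjr, cjr_cjr, inv_mul_cancel, cjr_one, cjr_one] at this

/-- conjugate of a subspace -/
def cjs (ρ : G →* R) (g : G) (U : Submodule F R) : Submodule F R := U.comap (cjr F ρ g⁻¹)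

theorem mem_cjs {g : G} {U : Submodule F R} {x : R} : x ∈ cjs ρ g U ↔ cjr F ρ g⁻¹ x ∈ U := Iff.rfl

theorem cjr_mem_cjs {g : G} {U : Submodule F R} {x : R} : cjr F ρ g x ∈ cjs ρ g U ↔ x ∈ U := by
  rw [mem_cjs, cjr_cjr, inv_mul_cancel, cjr_one]

theorem cjs_cjs (g h : G) (U : Submodule F R) : cjs ρ g (cjs ρ h U) = cjs ρ (g * h) U := by
  ext x
  rw [mem_cjs, mem_cjs, mem_cjs, cjr_cjr, mul_inv_rev]

theorem cjs_one (U : Submodule F R) : cjs ρ 1 U = U := by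
  ext x; rw [mem_cjs, inv_one, cjr_one]

theorem cjs_eq_map (g : G) (U : Submodule F R) : cjs ρ g U = U.map (cjr F ρ g) := by
  ext x
  constructor
  · intro h
    exact ⟨_, h, by rw [cjr_cjr, mul_inv_cancel, cjr_one]⟩
  · rintro ⟨y, hy, rfl⟩
    exact cjr_mem_cjs.2 hy

theorem finrank_cjs (g : G) (U : Submodule F R) : finrank F (cjs ρ g U) = finrank F U := by
  rw [cjs_eq_map]
  exact (Submodule.equivMapOfInjective _ (cjr_injective g) U).finrank_eq.symm

/-- right annihilator -/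
def Ann (U : Submodule F R) : Submodule F R where
  carrier := {r | ∀ x ∈ U, x * r = 0}
  zero_mem' := by simp
  add_mem' := by
    intro a b ha hb x hx
    rw [mul_add, ha x hx, hb x hx, add_zero]
  smul_mem' := by
    intro c a ha x hx
    rw [mul_smul_comm, ha x hx, smul_zero]

theorem mem_Ann {U : Submodule F R} {r : R} : r ∈ Ann U ↔ ∀ x ∈ U, x * r = 0 := Iff.rfl

theorem Ann_cjs (g : G) (U : Submodule F R) : Ann (cjs ρ g U) = cjs ρ g (Ann U) := by
  ext r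
  rw [mem_cjs, mem_Ann, mem_Ann]
  constructor
  · intro h x hx
    apply cjr_injective (F := F) (ρ := ρ) g
    rw [cjr_mul, cjr_cjr, mul_inv_cancel, cjr_one, map_zero]
    exact h _ (cjr_mem_cjs.2 hx)
  · intro h x hx
    apply cjr_injective (F := F) (ρ := ρ) g⁻¹
    rw [cjr_mul, map_zero]
    exact h _ hx

/-- quadratic offenders in linear form -/
structure IsQO (ρ : G →* R) (k m : ℕ) (U : Submodule F R) : Prop where
  ne : U ≠ ⊥
  sq : Sq U
  mem : ∀ x ∈ U, ∃ g, ρ g - 1 = x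
  off : m ≤ k * finrank F U + finrank F (Ann U)

theorem IsQO.conj {k m : ℕ} {U : Submodule F R} (h : IsQO ρ k m U) (g : G) :
    IsQO ρ k m (cjs ρ g U) where
  ne := by
    obtain ⟨x, hx, hx0⟩ := (Submodule.ne_bot_iff _).1 h.ne
    refine (Submodule.ne_bot_iff _).2 ⟨_, cjr_mem_cjs.2 hx, fun h' => hx0 ?_⟩
    apply cjr_injective (F := F) (ρ := ρ) g
    rw [h', map_zero]
  sq := ⟨fun x hx y hy => by
    apply cjr_injective (F := F) (ρ := ρ) g⁻¹
    rw [cjr_mul, map_zero]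
    exact h.sq.mul _ hx _ hy⟩
  mem x hx := by
    obtain ⟨a, ha⟩ := h.mem _ hx
    refine ⟨g * a * g⁻¹, ?_⟩
    rw [← cjr_rho (F := F), ha, cjr_cjr, mul_inv_cancel, cjr_one]
  off := by rw [Ann_cjs, finrank_cjs, finrank_cjs]; exact h.off

theorem rho_inv {b : G} (h : (ρ b - 1) * (ρ b - 1) = 0) : ρ b⁻¹ = 1 - (ρ b - 1) := by
  have e : ρ b * (1 - (ρ b - 1)) = 1 := by
    have : ρ b * (1 - (ρ b - 1)) = 1 - (ρ b - 1) * (ρ b - 1) := by noncomm_ring
    rw [this, h, sub_zero]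
  have := congrArg (ρ b⁻¹ * ·) e
  simp only [← mul_assoc, ← map_mul, inv_mul_cancel, map_one, one_mul, mul_one] at this
  exact this.symm

theorem cjr_quad {b : G} (h : (ρ b - 1) * (ρ b - 1) = 0) (x : R) :
    cjr F ρ b x = x + ((ρ b - 1) * x - x * (ρ b - 1)) - (ρ b - 1) * x * (ρ b - 1) := by
  rw [cjr_apply, rho_inv h]; noncomm_ring

theorem cjr_quad_inv {b : G} (h : (ρ b - 1) * (ρ b - 1) = 0) (x : R) :
    cjr F ρ b⁻¹ x = x - ((ρ b - 1) * x - x * (ρ b - 1)) - (ρ b - 1) * x * (ρ b - 1) := by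
  rw [cjr_apply, rho_inv h, inv_inv]; noncomm_ring

theorem br_eq (h2 : (2 : F) ≠ 0) {b : G} (h : (ρ b - 1) * (ρ b - 1) = 0) (x : R) :
    (ρ b - 1) * x - x * (ρ b - 1) = (2 : F)⁻¹ • (cjr F ρ b x - cjr F ρ b⁻¹ x) := by
  rw [cjr_quad h, cjr_quad_inv h]
  generalize (ρ b - 1) * x - x * (ρ b - 1) = t
  generalize (ρ b - 1) * x * (ρ b - 1) = s
  match_scalars <;> field_simp <;> ring

theorem sw_eq (h2 : (2 : F) ≠ 0) {b : G} (h : (ρ b - 1) * (ρ b - 1) = 0) (x : R) :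
    (ρ b - 1) * x * (ρ b - 1)
      = -((2 : F)⁻¹ • ((cjr F ρ b x - x) + (cjr F ρ b⁻¹ x - x))) := by
  rw [cjr_quad h, cjr_quad_inv h]
  generalize (ρ b - 1) * x - x * (ρ b - 1) = t
  generalize (ρ b - 1) * x * (ρ b - 1) = s
  match_scalars <;> field_simp <;> ring

/-- `U` is normalised by `W` -/
def Nm (ρ : G →* R) (U W : Submodule F R) : Prop :=
  ∀ h : G, ρ h - 1 ∈ W → ∀ x ∈ U, cjr F ρ h x ∈ U

theorem Nm.br (h2 : (2 : F) ≠ 0) {k m : ℕ} {U W : Submodule F R} (h : Nm ρ U W)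
    (hW : IsQO ρ k m W) : ∀ x ∈ W, ∀ u ∈ U, x * u - u * x ∈ U := by
  intro x hx u hu
  obtain ⟨b, rfl⟩ := hW.mem x hx
  have hb := hW.sq.mul _ hx _ hx
  rw [br_eq h2 hb]
  refine U.smul_mem _ (U.sub_mem (h b hx u hu) (h b⁻¹ ?_ u hu))
  rw [rho_inv hb]
  convert W.neg_mem hx using 1
  abel

theorem IsQO.lim [FiniteDimensional F R] (h2 : (2 : F) ≠ 0) (h3 : (3 : F) ≠ 0) {k m : ℕ}
    {U : Submodule F R} (hU : IsQO ρ k m U) {b : G} (hb : (ρ b - 1) * (ρ b - 1) = 0)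
    (hN : ∀ g ∈ Subgroup.zpowers b, ∀ h ∈ Subgroup.zpowers b, Nm ρ (cjs ρ g U) (cjs ρ h U)) :
    IsQO ρ k m (Lim (ρ b - 1) U) where
  ne := by
    intro h
    have := finrank_le_Lim hb U
    rw [h, finrank_bot, Nat.le_zero, Submodule.finrank_eq_zero] at this
    exact hU.ne this
  sq := ⟨Lim_mul hb hU.sq.mul⟩
  off := by
    refine hU.off.trans (add_le_add (Nat.mul_le_mul_left _ (finrank_le_Lim hb U)) ?_)
    refine (finrank_le_Lim hb _).trans (Submodule.finrank_mono ?_)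
    intro r hr x hx
    exact Lim_mul hb (U := U) (W := Ann U) (fun u hu w hw => hw u hu) x hx r hr
  mem z hz := by
    have hz2 : z * z = 0 := Lim_mul hb hU.sq.mul z hz z hz
    have hle : Lim (ρ b - 1) U ≤ cjs ρ 1 U ⊔ cjs ρ b U ⊔ cjs ρ b⁻¹ U := by
      have m0 : ∀ u ∈ U, u ∈ cjs ρ 1 U ⊔ cjs ρ b U ⊔ cjs ρ b⁻¹ U := fun u hu =>
        Submodule.mem_sup_left (Submodule.mem_sup_left (by rwa [cjs_one]))
      have m1 : ∀ u ∈ U, cjr F ρ b u ∈ cjs ρ 1 U ⊔ cjs ρ b U ⊔ cjs ρ b⁻¹ U := fun u hu =>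
        Submodule.mem_sup_left (Submodule.mem_sup_right (cjr_mem_cjs.2 hu))
      have m2 : ∀ u ∈ U, cjr F ρ b⁻¹ u ∈ cjs ρ 1 U ⊔ cjs ρ b U ⊔ cjs ρ b⁻¹ U := fun u hu =>
        Submodule.mem_sup_right (cjr_mem_cjs.2 hu)
      refine Lim_le m0 (fun u hu => ?_) (fun u hu => ?_)
      · rw [br_eq h2 hb]
        exact Submodule.smul_mem _ _ (Submodule.sub_mem _ (m1 u hu) (m2 u hu))
      · rw [sw_eq h2 hb]
        exact Submodule.neg_mem _ (Submodule.smul_mem _ _ (Submodule.add_mem _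
          (Submodule.sub_mem _ (m1 u hu) (m0 u hu)) (Submodule.sub_mem _ (m2 u hu) (m0 u hu))))
    obtain ⟨t, ht, w, hw, rfl⟩ := Submodule.mem_sup.1 (hle hz)
    obtain ⟨x, hx, y, hy, rfl⟩ := Submodule.mem_sup.1 ht
    have z0 : (1 : G) ∈ Subgroup.zpowers b := one_mem _
    have z1 : b ∈ Subgroup.zpowers b := Subgroup.mem_zpowers b
    have z2 : b⁻¹ ∈ Subgroup.zpowers b := inv_mem z1
    obtain ⟨y', hy', w', hw', e⟩ := ex_three h2 h3 (hU.conj 1).sq (hU.conj b).sq (hU.conj b⁻¹).sq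
      ((hN _ z1 _ z0).br h2 (hU.conj _)) ((hN _ z0 _ z1).br h2 (hU.conj _))
      ((hN _ z2 _ z0).br h2 (hU.conj _)) ((hN _ z0 _ z2).br h2 (hU.conj _))
      ((hN _ z2 _ z1).br h2 (hU.conj _)) ((hN _ z1 _ z2).br h2 (hU.conj _)) hx hy hw
    obtain ⟨g1, rfl⟩ := (hU.conj 1).mem _ hx
    obtain ⟨g2, rfl⟩ := (hU.conj b).mem _ hy'
    obtain ⟨g3, rfl⟩ := (hU.conj b⁻¹).mem _ hw'
    refine ⟨g1 * g2 * g3, ?_⟩
    rw [ex, hz2] at e
    simp only [add_sub_cancel, smul_zero, zero_mul, add_zero] at e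
    rw [map_mul, map_mul, ← e]
    abel

/-- a central flag -/
structure Flag {M : Type*} [AddCommGroup M] [Module F M] (σ : G →* Module.End F M)
    (W : ℕ → Submodule F M) (n : ℕ) : Prop where
  zero : W 0 = ⊥
  top : W n = ⊤
  mono : ∀ i, W i ≤ W (i + 1)
  step : ∀ i g, ∀ x ∈ W (i + 1), σ g x - x ∈ W i

theorem Flag.inv {M : Type*} [AddCommGroup M] [Module F M] {σ : G →* Module.End F M}
    {W : ℕ → Submodule F M} {n : ℕ} (h : Flag σ W n) (i : ℕ) (g : G) :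
    ∀ x ∈ W i, σ g x ∈ W i := by
  intro x hx
  have := (W i).add_mem (h.step i g x (h.mono i hx)) hx
  rwa [sub_add_cancel] at this

/-- the weight of a subspace -/
noncomputable def mu (W : ℕ → Submodule F R) (n : ℕ) (U : Submodule F R) : ℕ :=
  ∑ i ∈ Finset.range n, finrank F ↥(U ⊓ W i)

theorem mu_cjs {W : ℕ → Submodule F R} {n : ℕ} (h : Flag (cjr F ρ) W n) (g : G)
    (U : Submodule F R) : mu W n (cjs ρ g U) = mu W n U := by
  refine Finset.sum_congr rfl fun i _ => ?_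
  rw [← finrank_cjs (ρ := ρ) g (U ⊓ W i)]
  have : cjs ρ g U ⊓ W i = cjs ρ g (U ⊓ W i) := by
    ext x
    simp only [Submodule.mem_inf, mem_cjs]
    refine and_congr_right fun _ => ⟨h.inv i _ x, fun h' => ?_⟩
    have := h.inv i g _ h'
    rwa [cjr_cjr, mul_inv_cancel, cjr_one] at this
  rw [this]

theorem mu_lt [FiniteDimensional F R] (h2 : (2 : F) ≠ 0) {W : ℕ → Submodule F R} {n : ℕ}
    (h : Flag (cjr F ρ) W n) {U : Submodule F R} {b : G} (hb : (ρ b - 1) * (ρ b - 1) = 0)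
    (hn : ¬ ∀ x ∈ U, cjr F ρ b x ∈ U) : mu W n U < mu W n (Lim (ρ b - 1) U) := by
  classical
  have s1 : ∀ i, ∀ x ∈ W (i + 1), (ρ b - 1) * x - x * (ρ b - 1) ∈ W i := fun i x hx => by
    rw [br_eq h2 hb]
    refine (W i).smul_mem _ ?_
    have := (W i).sub_mem (h.step i b x hx) (h.step i b⁻¹ x hx)
    rwa [sub_sub_sub_cancel_right] at this
  have s2 : ∀ i, ∀ x ∈ W (i + 1), (ρ b - 1) * x * (ρ b - 1) ∈ W i := fun i x hx => by
    rw [sw_eq h2 hb]
    exact (W i).neg_mem ((W i).smul_mem _ ((W i).add_mem (h.step i b x hx) (h.step i b⁻¹ x hx)))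
  have le1 : ∀ i, Lim (ρ b - 1) (U ⊓ W i) ≤ Lim (ρ b - 1) U ⊓ W i := fun i =>
    le_inf (Lim_mono _ inf_le_left) (Lim_le inf_le_right
      (fun u hu => s1 i u (h.mono i hu.2)) (fun u hu => s2 i u (h.mono i hu.2)))
  have hex : ∃ i, ∃ x ∈ U ⊓ W i, ¬ ((ρ b - 1) * x - x * (ρ b - 1) ∈ U ∧
      (ρ b - 1) * x * (ρ b - 1) ∈ U) := by
    push Not at hn
    obtain ⟨x, hx, hx'⟩ := hn
    refine ⟨n, x, ⟨hx, by rw [h.top]; trivial⟩, fun h' => hx' ?_⟩
    rw [cjr_quad hb]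
    exact U.sub_mem (U.add_mem hx h'.1) h'.2
  have hexn : Nat.find hex ≤ n := by
    apply Nat.find_min'
    push Not at hn
    obtain ⟨x, hx, hx'⟩ := hn
    refine ⟨x, ⟨hx, by rw [h.top]; trivial⟩, fun h' => hx' ?_⟩
    rw [cjr_quad hb]
    exact U.sub_mem (U.add_mem hx h'.1) h'.2
  obtain ⟨x, hx, hx'⟩ := Nat.find_spec hex
  obtain ⟨j, hj⟩ : ∃ j, Nat.find hex = j + 1 := by
    refine Nat.exists_eq_succ_of_ne_zero fun h0 => hx' ?_
    rw [h0, h.zero, inf_bot_eq, Submodule.mem_bot] at hx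
    subst hx
    simp
  have hmin := Nat.find_min hex (m := j) (by omega)
  push Not at hmin
  rw [hj] at hx
  refine Finset.sum_lt_sum (fun i _ => (finrank_le_Lim hb _).trans (Submodule.finrank_mono (le1 i)))
    ⟨j, Finset.mem_range.2 (by omega), ?_⟩
  have e : Lim (ρ b - 1) (U ⊓ W j) = U ⊓ W j := by
    refine Submodule.eq_of_le_of_finrank_le ?_ (finrank_le_Lim hb _)
    exact Lim_le le_rfl (fun u hu => ⟨(hmin u hu).1, s1 j u (h.mono j hu.2)⟩)
      (fun u hu => ⟨(hmin u hu).2, s2 j u (h.mono j hu.2)⟩)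
  refine Submodule.finrank_lt_finrank_of_lt (lt_of_le_of_ne (e ▸ le1 j) fun e' => hx' ?_)
  have t2 : (ρ b - 1) * x * (ρ b - 1) ∈ U := by
    have : (ρ b - 1) * x * (ρ b - 1) ∈ U ⊓ W j := e' ▸ ⟨mem_Lim_two hx.1, s2 j x hx.2⟩
    exact this.1
  have : (ρ b - 1) * x - x * (ρ b - 1) ∈ U ⊓ W j := e' ▸ ⟨mem_Lim_one hb hx.1 t2, s1 j x hx.2⟩
  exact ⟨this.1, t2⟩

end Cfsg.Agent.H9.QO
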