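import Cfsg.Agent.H9.QO2

/-! Quadratic offenders that are normal in their normal closure (main argument). -/

set_option autoImplicit false
set_option linter.unusedSectionVars false
set_option linter.unusedVariables false
set_option linter.style.haveILetI false

namespace Cfsg.Agent.H9.QO

open Module Subgroup

variable {F R : Type*} [Field F] [Ring R] [Algebra F R] {G : Type*} [Group G] {ρ : G →* R}

theorem exists_lt_of_lt [Finite G] {p : ℕ} [Fact p.Prime] (hG : IsPGroup p G) {K H : Subgroup G}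
    (h : K < H) : ∃ M < H, ∀ g ∈ H, ∀ x ∈ K, g * x * g⁻¹ ∈ M := by
  have hH : IsPGroup p H := hG.to_subgroup H
  haveI := hH.isNilpotent
  have hne : K.subgroupOf H ≠ ⊤ := by
    rw [Ne, subgroupOf_eq_top]; exact h.not_ge
  obtain ⟨M, hM, hKM⟩ := (eq_top_or_exists_le_coatom _).resolve_left hne
  have hn : M.Normal := NormalizerCondition.normal_of_coatom M
    Group.normalizerCondition_of_isNilpotent hM
  refine ⟨M.map H.subtype, lt_of_le_of_ne (map_subtype_le _) fun e => hM.1 ?_, fun g hg x hx => ?_⟩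
  · rw [eq_top_iff]
    intro y _
    obtain ⟨z, hz, hz'⟩ : (y : G) ∈ M.map H.subtype := by rw [e]; exact y.2
    rwa [← Subtype.ext hz']
  · exact ⟨_, hn.conj_mem ⟨x, h.le hx⟩ (hKM hx) ⟨g, hg⟩, rfl⟩

/-- elements normalising a subspace -/
def NS [FiniteDimensional F R] (ρ : G →* R) (U : Submodule F R) : Subgroup G where
  carrier := {g | cjs ρ g U = U}
  one_mem' := cjs_one U
  mul_mem' {a b} (ha : _ = _) (hb : _ = _) := by
    change _ = _
    rw [← cjs_cjs, hb, ha]
  inv_mem' {a} (ha : _ = _) := by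
    change _ = _
    conv_lhs => rw [← ha, cjs_cjs, inv_mul_cancel, cjs_one]

theorem mem_NS [FiniteDimensional F R] {U : Submodule F R} {g : G} :
    g ∈ NS ρ U ↔ ∀ x ∈ U, cjr F ρ g x ∈ U := by
  constructor
  · intro (h : _ = _) x hx
    rw [← h]; exact cjr_mem_cjs.2 hx
  · intro h
    refine Submodule.eq_of_le_of_finrank_le ?_ (finrank_cjs g U).ge
    rw [cjs_eq_map]
    rintro _ ⟨x, hx, rfl⟩
    exact h x hx

theorem core [FiniteDimensional F R] [Finite G] {p : ℕ} [Fact p.Prime] (hG : IsPGroup p G)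
    (h2 : (2 : F) ≠ 0) (h3 : (3 : F) ≠ 0) {W : ℕ → Submodule F R} {n : ℕ}
    (hW : Flag (cjr F ρ) W n) {k m : ℕ} (h : ∃ U : Submodule F R, IsQO ρ k m U) :
    ∃ U : Submodule F R, IsQO ρ k m U ∧ ∀ g, Nm ρ U (cjs ρ g U) := by
  obtain ⟨U, hU, hmax⟩ : ∃ U : Submodule F R, IsQO ρ k m U ∧
      ∀ U' : Submodule F R, IsQO ρ k m U' → mu W n U' ≤ mu W n U := by
    have hb : ∀ U : Submodule F R, mu W n U ≤ n * finrank F R := fun U => by
      refine (Finset.sum_le_card_nsmul _ _ (finrank F R) fun i _ => Submodule.finrank_le _).trans ?_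
      simp
    classical
    have hex : ∃ j, ∃ U : Submodule F R, IsQO ρ k m U ∧ n * finrank F R - mu W n U = j := by
      obtain ⟨U, hU⟩ := h
      exact ⟨_, U, hU, rfl⟩
    obtain ⟨U, hU, e⟩ := Nat.find_spec hex
    refine ⟨U, hU, fun U' hU' => ?_⟩
    have := Nat.find_min' hex ⟨U', hU', rfl⟩
    have := hb U
    have := hb U'
    omega
  refine ⟨U, hU, ?_⟩
  suffices H : ∀ g h, Nm ρ (cjs ρ g U) (cjs ρ h U) by
    intro g
    simpa only [cjs_one] using H 1 g
  let T : G → Set G := fun g => {h | ρ h - 1 ∈ cjs ρ g U}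
  suffices H : ∀ c, ∀ g h, Nat.card (closure (T g ∪ T h)) = c → Nm ρ (cjs ρ g U) (cjs ρ h U) from
    fun g h => H _ g h rfl
  intro c
  induction c using Nat.strong_induction_on with
  | _ c ih =>
  intro g h hc b hb
  by_contra hn
  have hlt : closure (T g) < closure (T g ∪ T h) := by
    refine lt_of_le_of_ne (closure_mono Set.subset_union_left) fun e => hn ?_
    have h1 : closure (T g) ≤ NS ρ (cjs ρ g U) := by
      rw [closure_le]
      intro a ha
      refine mem_NS.2 fun x hx => ?_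
      have q := (hU.conj g).sq.mul
      rw [cjr_quad (q _ ha _ ha), q _ ha _ hx, q _ hx _ ha]
      simpa using hx
    exact mem_NS.1 (h1 (e ▸ subset_closure (Or.inr hb)))
  obtain ⟨M, hM, hM'⟩ := exists_lt_of_lt hG hlt
  have hbH : zpowers b ≤ closure (T g ∪ T h) := by
    rw [zpowers_le]; exact subset_closure (Or.inr hb)
  have hT : ∀ x ∈ zpowers b, T (x * g) ⊆ M := by
    intro x hx y hy
    have : x⁻¹ * y * x⁻¹⁻¹ ∈ T g := by
      change _ ∈ cjs ρ g U
      rw [← cjr_rho (F := F), ← mem_cjs, cjs_cjs]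
      exact hy
    have := hM' x (hbH hx) _ (subset_closure this)
    simpa [mul_assoc] using this
  have hb2 := (hU.conj h).sq.mul _ hb _ hb
  have hq := (hU.conj g).lim h2 h3 hb2 (by
    intro x hx y hy
    rw [cjs_cjs, cjs_cjs]
    refine ih _ ?_ _ _ rfl
    rw [← hc]
    refine lt_of_le_of_lt (card_le_of_le ?_) (lt_of_le_of_ne (card_le_of_le hM.le)
      fun e => hM.ne (eq_of_le_of_card_ge hM.le e.ge))
    rw [closure_le]
    exact Set.union_subset (hT x hx) (hT y hy))
  have := mu_lt h2 hW hb2 hn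
  rw [mu_cjs hW] at this
  exact absurd (hmax _ hq) (by omega)

theorem exists_flag {p : ℕ} [Fact p.Prime] [Finite G] (hG : IsPGroup p G) {M : Type*}
    [AddCommGroup M] [Module (ZMod p) M] [Finite M] (σ : G →* Module.End (ZMod p) M) :
    ∃ W n, Flag σ W n := by
  obtain ⟨W, hW0, hW⟩ : ∃ W : ℕ → Submodule (ZMod p) M, W 0 = ⊥ ∧
      ∀ i x, x ∈ W (i + 1) ↔ ∀ g, σ g x - x ∈ W i :=
    ⟨fun n => Nat.rec ⊥ (fun _ U => ⨅ g, U.comap (σ g - 1)) n, rfl, fun i x => by
      simp [Submodule.mem_iInf]⟩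
  have mono : ∀ i, W i ≤ W (i + 1) := by
    intro i
    induction i with
    | zero => rw [hW0]; exact bot_le
    | succ i ih =>
      intro x hx
      rw [hW] at hx ⊢
      exact fun g => ih (hx g)
  have strict : ∀ i, W i ≠ ⊤ → W i < W (i + 1) := by
    intro i hi
    refine lt_of_le_of_ne (mono i) fun e => ?_
    have inv : ∀ g, W i ≤ (W i).comap (σ g) := by
      intro g x hx
      have := (W i).add_mem ((hW i x).1 (mono i hx) g) hx
      rwa [sub_add_cancel] at this
    let τ := Representation.quotient σ (W i) inv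
    letI : MulAction G (M ⧸ W i) := MulAction.compHom _ τ
    haveI : Finite (M ⧸ W i) := Finite.of_surjective _ (W i).mkQ_surjective
    haveI : Nontrivial (M ⧸ W i) := Submodule.Quotient.nontrivial_iff.2 hi
    have hd : p ∣ Nat.card (M ⧸ W i) := by
      rw [Module.natCard_eq_pow_finrank (K := ZMod p), Nat.card_zmod]
      exact dvd_pow_self _ finrank_pos.ne'
    obtain ⟨y, hy, hy0⟩ := hG.exists_fixed_point_of_prime_dvd_card_of_fixed_point (M ⧸ W i) hd
      (a := 0) (fun g => map_zero (τ g))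
    obtain ⟨x, rfl⟩ := (W i).mkQ_surjective y
    refine hy0 ((Submodule.Quotient.mk_eq_zero _).2 ?_).symm
    rw [e, hW]
    intro g
    exact (Submodule.Quotient.eq _).1 (hy g)
  have hr : ∀ i, W i = ⊤ ∨ i ≤ finrank (ZMod p) (W i) := by
    intro i
    induction i with
    | zero => simp
    | succ i ih =>
      by_cases h : W i = ⊤
      · exact Or.inl (top_le_iff.1 (h ▸ mono i))
      · have := Submodule.finrank_lt_finrank_of_lt (strict i h)
        have := ih.resolve_left h
        right; omega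
  refine ⟨W, finrank (ZMod p) M + 1, hW0, (hr _).resolve_right ?_, mono,
    fun i g x hx => (hW i x).1 hx g⟩
  have := Submodule.finrank_le (W (finrank (ZMod p) M + 1))
  omega

end Cfsg.Agent.H9.QO
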