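import Cfsg.Agent.H9.QO3

/-! Quadratic offenders that are normal in their normal closure (module form). -/

set_option autoImplicit false
set_option linter.unusedSectionVars false
set_option linter.unusedVariables false
set_option linter.style.haveILetI false

namespace Cfsg.Agent.H9.QO

open Module Subgroup

variable {p : ℕ} [Fact p.Prime] {V : Type*} [AddCommGroup V] [Module (ZMod p) V] [Finite V]
  {G : Type*} [Group G] [Finite G] {ρ : G →* End (ZMod p) V}

/-- fixed vectors -/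
def Fx (ρ : G →* End (ZMod p) V) (A : Subgroup G) : Submodule (ZMod p) V where
  carrier := {v | ∀ a ∈ A, ρ a v = v}
  zero_mem' := by simp
  add_mem' := by
    intro x y hx hy a ha
    rw [map_add, hx a ha, hy a ha]
  smul_mem' := by
    intro c x hx a ha
    rw [map_smul, hx a ha]

theorem mem_Fx {A : Subgroup G} {v : V} : v ∈ Fx ρ A ↔ ∀ a ∈ A, ρ a v = v := Iff.rfl

theorem rho_rho (a b : G) (v : V) : ρ a (ρ b v) = ρ (a * b) v := by rw [map_mul]; rfl

theorem exists_quadratic (hG : IsPGroup p G) (hρ : Function.Injective ρ) {E : Subgroup G}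
    (hE : E ≠ ⊥) (hc : ∀ a ∈ E, ∀ b ∈ E, a * b = b * a)
    (hoff : Nat.card V ≤ Nat.card E * Nat.card (Fx ρ E)) :
    ∃ A : Subgroup G, A ≠ ⊥ ∧ (∀ a ∈ A, ∀ b ∈ A, (ρ a - 1) * (ρ b - 1) = 0) ∧
      Nat.card V ≤ Nat.card A * Nat.card (Fx ρ A) := by
  classical
  obtain ⟨A₀, hA₀, hmax⟩ := Set.exists_max_image {A : Subgroup G | A ≤ E ∧ A ≠ ⊥}
    (fun A => Nat.card A * Nat.card (Fx ρ A)) (Set.toFinite _) ⟨E, le_rfl, hE⟩
  obtain ⟨A, ⟨⟨hAE, hA⟩, hf⟩, hmin⟩ := Set.exists_min_image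
    {A : Subgroup G | (A ≤ E ∧ A ≠ ⊥) ∧
      Nat.card A₀ * Nat.card (Fx ρ A₀) ≤ Nat.card A * Nat.card (Fx ρ A)}
    (fun A => Nat.card A) (Set.toFinite _) ⟨A₀, hA₀, le_rfl⟩
  have hV : Nat.card V ≤ Nat.card A * Nat.card (Fx ρ A) :=
    hoff.trans ((hmax E ⟨le_rfl, hE⟩).trans hf)
  refine ⟨A, hA, ?_, hV⟩
  suffices H : ∀ u : V, ∀ a ∈ A, ρ a u - u ∈ Fx ρ A by
    intro a ha b hb
    ext u
    have := H u b hb a ha
    simpa [sub_eq_zero] using this
  intro u
  let B : Subgroup G :=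
    { carrier := {a | a ∈ A ∧ ρ a u - u ∈ Fx ρ A}
      one_mem' := ⟨one_mem _, by simp⟩
      mul_mem' := by
        rintro a b ⟨ha, ha'⟩ ⟨hb, hb'⟩
        refine ⟨mul_mem ha hb, ?_⟩
        have := (Fx ρ A).add_mem ha' hb'
        rw [← hb' a ha, map_sub, rho_rho] at this
        convert this using 1
        abel
      inv_mem' := by
        rintro a ⟨ha, ha'⟩
        refine ⟨inv_mem ha, ?_⟩
        have := (Fx ρ A).neg_mem ha'
        rw [← ha' a⁻¹ (inv_mem ha), map_sub, rho_rho, inv_mul_cancel, map_one] at this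
        simpa using this }
  have hBA : B ≤ A := fun a ha => ha.1
  let X : Submodule (ZMod p) V := Submodule.span _ {x | ∃ a ∈ A, ρ a u - u = x}
  have h1 : X ⊔ Fx ρ A ≤ Fx ρ B := by
    refine sup_le (Submodule.span_le.2 ?_) fun v hv a ha => hv a ha.1
    rintro _ ⟨a, ha, rfl⟩ c hc'
    have := hc'.2 a ha
    rw [map_sub, rho_rho] at this
    rw [map_sub, rho_rho, hc c (hAE hc'.1) a (hAE ha), sub_eq_iff_eq_add.1 this]
    abel
  have h2 : Nat.card A * Nat.card (Fx ρ A) ≤ Nat.card B * Nat.card ↥(X ⊔ Fx ρ A) := by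
    let ψ : (A ⧸ B.subgroupOf A) × Fx ρ A → ↥(X ⊔ Fx ρ A) := fun q =>
      ⟨ρ (q.1.out : A) u - u + q.2, Submodule.add_mem_sup
        (Submodule.subset_span ⟨_, (q.1.out).2, rfl⟩) q.2.2⟩
    have hψ : Function.Injective ψ := by
      rintro ⟨q, y⟩ ⟨q', y'⟩ h
      have h' : ρ (q.out : A) u - u + y = ρ (q'.out : A) u - u + y' := congrArg Subtype.val h
      have hq : q = q' := by
        rw [← q.out_eq, ← q'.out_eq]
        refine Quotient.sound (QuotientGroup.leftRel_apply.2 ⟨(q.out⁻¹ * q'.out).2, ?_⟩)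
        have e : ρ (q'.out : A) u - ρ (q.out : A) u = y - y' := by
          rw [← sub_eq_zero, ← sub_eq_zero.2 h'.symm]
          abel
        have hm : ρ (q'.out : A) u - ρ (q.out : A) u ∈ Fx ρ A := e ▸ (y - y').2
        rw [← hm _ (inv_mem q.out.2), map_sub, rho_rho, rho_rho, inv_mul_cancel, map_one] at hm
        exact hm
      subst hq
      rw [Subtype.ext (add_left_cancel h')]
    have := Nat.card_le_card_of_injective ψ hψ
    rw [Nat.card_prod] at this
    rw [card_eq_card_quotient_mul_card_subgroup (B.subgroupOf A),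
      Nat.card_congr (subgroupOfEquivOfLe hBA).toEquiv]
    calc _ = Nat.card B * (Nat.card (A ⧸ B.subgroupOf A) * Nat.card (Fx ρ A)) := by ring
      _ ≤ _ := Nat.mul_le_mul_left _ this
  by_cases hB : B = ⊥
  · exfalso
    rw [hB, card_bot, one_mul] at h2
    have h3 : X ⊔ Fx ρ A = ⊤ := by
      have := AddSubgroup.eq_top_of_le_card (X ⊔ Fx ρ A).toAddSubgroup (hV.trans h2)
      exact Submodule.toAddSubgroup_eq_top.1 this
    obtain ⟨W, n, hW⟩ := exists_flag hG ρ
    have h4 : ∀ j, W j ⊔ Fx ρ A = ⊤ → Fx ρ A = ⊤ := by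
      intro j
      induction j with
      | zero => simp [hW.zero]
      | succ j ih =>
        intro h
        apply ih
        rw [eq_top_iff, ← h3]
        refine sup_le_sup_right (Submodule.span_le.2 ?_) _
        rintro _ ⟨a, ha, rfl⟩
        obtain ⟨w, hw, y, hy, e⟩ := Submodule.mem_sup.1 (h.ge (Submodule.mem_top (x := u)))
        have := hW.step j a w hw
        rw [← e, map_add, hy a ha, add_sub_add_right_eq_sub]
        exact this
    have h5 := h4 n (by simp [hW.top])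
    refine hA (eq_bot_iff.2 fun a ha => hρ ?_)
    ext v
    simpa using (h5.ge (Submodule.mem_top (x := v))) a ha
  · have h3 : Nat.card ↥(X ⊔ Fx ρ A) ≤ Nat.card (Fx ρ B) :=
      Nat.card_le_card_of_injective _ (Submodule.inclusion_injective h1)
    have := hmin B ⟨⟨hBA.trans hAE, hB⟩, hf.trans (h2.trans (Nat.mul_le_mul_left _ h3))⟩
    have e := eq_of_le_of_card_ge hBA this
    exact fun a ha => (e.ge ha).2

theorem finrank_Ann {U : Submodule (ZMod p) (End (ZMod p) V)} {K : Submodule (ZMod p) V}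
    (h : ∀ v, v ∈ K ↔ ∀ x ∈ U, x v = 0) :
    finrank (ZMod p) (Ann U) = finrank (ZMod p) V * finrank (ZMod p) K := by
  let Ψ : (V →ₗ[ZMod p] K) →ₗ[ZMod p] End (ZMod p) V := LinearMap.llcomp _ _ _ _ K.subtype
  have h1 : Function.Injective Ψ := by
    intro f g e
    ext v
    exact congrArg (fun φ : End (ZMod p) V => φ v) e
  have h2 : LinearMap.range Ψ = Ann U := by
    ext r
    constructor
    · rintro ⟨f, rfl⟩ x hx
      ext v
      exact (h _).1 (f v).2 x hx
    · intro hr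
      refine ⟨LinearMap.codRestrict K r fun v => (h _).2 fun x hx => ?_, rfl⟩
      exact congrArg (fun φ : End (ZMod p) V => φ v) (hr x hx)
  rw [← h2, LinearMap.finrank_range_of_inj h1, finrank_linearMap]

theorem card_le_iff (U : Submodule (ZMod p) (End (ZMod p) V)) (K : Submodule (ZMod p) V) :
    Nat.card V ≤ Nat.card U * Nat.card K ↔ finrank (ZMod p) V * finrank (ZMod p) V ≤
      finrank (ZMod p) V * finrank (ZMod p) U + finrank (ZMod p) V * finrank (ZMod p) K := by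
  rw [Module.natCard_eq_pow_finrank (K := ZMod p) (V := V),
    Module.natCard_eq_pow_finrank (K := ZMod p) (V := U),
    Module.natCard_eq_pow_finrank (K := ZMod p) (V := K), Nat.card_zmod, ← pow_add,
    Nat.pow_le_pow_iff_right (Fact.out : p.Prime).one_lt, ← mul_add]
  refine ⟨Nat.mul_le_mul_left _, fun h => ?_⟩
  rcases Nat.eq_zero_or_pos (finrank (ZMod p) V) with h0 | h0
  · omega
  · exact Nat.le_of_mul_le_mul_left h h0

theorem card_eq_of (hρ : Function.Injective ρ) {U : Submodule (ZMod p) (End (ZMod p) V)}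
    {A : Subgroup G} (h1 : ∀ a ∈ A, ρ a - 1 ∈ U) (h2 : ∀ x ∈ U, ∃ a ∈ A, ρ a - 1 = x) :
    Nat.card A = Nat.card U := by
  refine Nat.card_eq_of_bijective (fun a => ⟨ρ a - 1, h1 a a.2⟩) ⟨fun a b h => ?_, fun x => ?_⟩
  · exact Subtype.ext (hρ (sub_left_injective (congrArg Subtype.val h)))
  · obtain ⟨a, ha, e⟩ := h2 x x.2
    exact ⟨⟨a, ha⟩, Subtype.ext e⟩

theorem rho_mul_sub {a b : G} (h : (ρ a - 1) * (ρ b - 1) = 0) :
    ρ (a * b) - 1 = (ρ a - 1) + (ρ b - 1) := by
  rw [map_mul, ← sub_eq_zero, ← h]; noncomm_ring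

theorem main (hp : 5 ≤ p) (hG : IsPGroup p G) (hρ : Function.Injective ρ) {E : Subgroup G}
    (hE : E ≠ ⊥) (hc : ∀ a ∈ E, ∀ b ∈ E, a * b = b * a)
    (hoff : Nat.card V ≤ Nat.card E * Nat.card (Fx ρ E)) :
    ∃ A : Subgroup G, A ≠ ⊥ ∧ (∀ a ∈ A, ∀ b ∈ A, a * b = b * a) ∧ (∀ a ∈ A, a ^ p = 1) ∧
      (∀ a ∈ A, ∀ b ∈ A, (ρ a - 1) * (ρ b - 1) = 0) ∧
      Nat.card V ≤ Nat.card A * Nat.card (Fx ρ A) ∧
      ∀ g, ∀ a ∈ A, ∀ b ∈ A, (g * a * g⁻¹) * b * (g * a * g⁻¹)⁻¹ ∈ A := by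
  have hne : ∀ n : ℕ, 0 < n → n < 5 → ((n : ℕ) : ZMod p) ≠ 0 := fun n h0 h5 h =>
    absurd (Nat.le_of_dvd h0 ((ZMod.natCast_eq_zero_iff _ _).1 h)) (by omega)
  have h2 : (2 : ZMod p) ≠ 0 := by exact_mod_cast hne 2 (by omega) (by omega)
  have h3 : (3 : ZMod p) ≠ 0 := by exact_mod_cast hne 3 (by omega) (by omega)
  haveI : Finite (End (ZMod p) V) := Finite.of_injective _ DFunLike.coe_injective
  obtain ⟨W, n, hW⟩ := exists_flag hG (cjr (ZMod p) ρ)
  obtain ⟨A, hA, hq, hV⟩ := exists_quadratic hG hρ hE hc hoff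
  let U₀ : AddSubgroup (End (ZMod p) V) :=
    { carrier := {x | ∃ a ∈ A, ρ a - 1 = x}
      zero_mem' := ⟨1, one_mem _, by simp⟩
      add_mem' := by
        rintro _ _ ⟨a, ha, rfl⟩ ⟨b, hb, rfl⟩
        exact ⟨a * b, mul_mem ha hb, rho_mul_sub (hq a ha b hb)⟩
      neg_mem' := by
        rintro _ ⟨a, ha, rfl⟩
        refine ⟨a⁻¹, inv_mem ha, ?_⟩
        rw [rho_inv (hq a ha a ha)]; abel }
  obtain ⟨U, hU, hN⟩ := core hG h2 h3 hW (k := finrank (ZMod p) V)
    (m := finrank (ZMod p) V * finrank (ZMod p) V) ⟨AddSubgroup.toZModSubmodule p U₀,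
    { ne := by
        obtain ⟨⟨a, ha⟩, ha1⟩ := (ne_bot_iff_exists_ne_one).1 hA
        refine (Submodule.ne_bot_iff _).2 ⟨_, ⟨a, ha, rfl⟩, fun h => ha1 (Subtype.ext (hρ ?_))⟩
        simpa [sub_eq_zero] using h
      sq := ⟨by
        rintro _ ⟨a, ha, rfl⟩ _ ⟨b, hb, rfl⟩
        exact hq a ha b hb⟩
      mem := by
        rintro _ ⟨a, ha, rfl⟩
        exact ⟨a, rfl⟩
      off := by
        rw [finrank_Ann (K := Fx ρ A), ← card_le_iff,
          ← card_eq_of hρ (A := A) (U := AddSubgroup.toZModSubmodule p U₀) (fun a ha => ⟨a, ha, rfl⟩) (fun x hx => hx)]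
        · exact hV
        · intro v
          constructor
          · rintro hv _ ⟨a, ha, rfl⟩
            simp [hv a ha]
          · intro h a ha
            simpa [sub_eq_zero] using h _ ⟨a, ha, rfl⟩ }⟩
  let B : Subgroup G :=
    { carrier := {g | ρ g - 1 ∈ U}
      one_mem' := by simp
      mul_mem' := by
        intro a b ha hb
        change _ ∈ U
        rw [rho_mul_sub (hU.sq.mul _ ha _ hb)]
        exact U.add_mem ha hb
      inv_mem' := by
        intro a ha
        change _ ∈ U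
        rw [rho_inv (hU.sq.mul _ ha _ ha)]
        convert U.neg_mem ha using 1
        abel }
  have hB : ∀ g, g ∈ B ↔ ρ g - 1 ∈ U := fun g => Iff.rfl
  have hB2 : ∀ x ∈ U, ∃ a ∈ B, ρ a - 1 = x := fun x hx => by
    obtain ⟨g, rfl⟩ := hU.mem x hx
    exact ⟨g, hx, rfl⟩
  refine ⟨B, ?_, ?_, ?_, fun a ha b hb => hU.sq.mul _ ha _ hb, ?_, ?_⟩
  · intro h
    refine hU.ne (eq_bot_iff.2 fun x hx => ?_)
    obtain ⟨a, ha, rfl⟩ := hB2 x hx
    rw [h, mem_bot] at ha
    simp [ha]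
  · intro a ha b hb
    refine hρ (sub_left_injective (b := 1) ?_)
    beta_reduce
    rw [rho_mul_sub (hU.sq.mul _ ha _ hb), rho_mul_sub (hU.sq.mul _ hb _ ha), add_comm]
  · intro a ha
    have : ∀ n : ℕ, ρ (a ^ n) - 1 = (n : ZMod p) • (ρ a - 1) := by
      intro n
      induction n with
      | zero => simp
      | succ n ih =>
        rw [pow_succ, rho_mul_sub (hU.sq.mul _ (B.pow_mem ha n) _ ha), ih, Nat.cast_succ, add_smul,
          one_smul]
    apply hρ
    have := this p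
    rwa [ZMod.natCast_self, zero_smul, sub_eq_zero, ← map_one ρ] at this
  · rw [card_eq_of hρ (fun a ha => ha) hB2, card_le_iff, ← finrank_Ann (U := U)]
    · exact hU.off
    · intro v
      constructor
      · intro hv x hx
        obtain ⟨a, ha, rfl⟩ := hB2 x hx
        simp [hv a ha]
      · intro h a ha
        simpa [sub_eq_zero] using h _ ha
  · intro g a ha b hb
    rw [hB, ← cjr_rho (F := ZMod p)]
    refine hN g _ ?_ _ hb
    rw [← cjr_rho (F := ZMod p)]
    exact cjr_mem_cjs.2 ha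

end Cfsg.Agent.H9.QO
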