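/-
The special unitary group as a computational group.
-/
import Cfsg.Agent.H4.Cover
import Cfsg.Prelude.Def_Classical

set_option autoImplicit false
set_option maxRecDepth 100000

open Matrix

namespace Cfsg.Agent.H9.SUcg

open Cfsg.Agent.H4

/-- The special unitary group as matrices. -/
def suHom (n : ℕ) (F : Type*) [Field F] (e : ℕ) : SU n F e →* Matrix (Fin n) (Fin n) F :=
  (slToMat n F).comp (SU n F e).subtype

theorem suHom_inj (n : ℕ) (F : Type*) [Field F] (e : ℕ) : Function.Injective (suHom n F e) :=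
  fun _ _ h => Subtype.ext (Subtype.ext h)

theorem mem_SU_of {n e : ℕ} {F : Type*} [Field F] (τ : F →+* F) (hτ : ∀ x, τ x = x ^ e)
    (A : Matrix.SpecialLinearGroup (Fin n) F)
    (h : ∀ i j, ∑ k, A k i * A k j ^ e = if i = j then 1 else 0) : A ∈ SU n F e := by
  intro u v
  change hermForm n F e ((A : Matrix (Fin n) (Fin n) F) *ᵥ u) ((A : Matrix (Fin n) (Fin n) F) *ᵥ v) = _
  simp only [hermForm, ← hτ, mulVec, dotProduct, map_sum, map_mul, Finset.sum_mul_sum] at h ⊢
  rw [Finset.sum_comm]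
  refine Finset.sum_congr rfl fun i _ => ?_
  rw [Finset.sum_comm]
  have : ∀ j, ∑ k, A k i * u i * (τ (A k j) * τ (v j)) = (if i = j then 1 else 0) * (u i * τ (v j)) :=
    fun j => by
      rw [← h i j, Finset.sum_mul]
      exact Finset.sum_congr rfl fun k _ => by ring
  simp [this]

/-- The test for a unitary matrix. -/
def uniC (O : Ops) (w n e c : ℕ) : Bool :=
  allLt n fun i => allLt n fun j => Nat.beq
    (O.sum n fun k => O.mul (img w c (n * k + i)) (O.pw (img w c (n * k + j)) e))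
    (ite' (Nat.beq i j) 1 0)

variable {F : Type*} [Field F] {q w : ℕ} {O : Ops} (K : FC F q w O)

/-- The special unitary group as a computational group. -/
def sucg (n e : ℕ) : CG (SU n F e) (ℕ × ℕ) := K.cg n (suHom n F e) (suHom_inj n F e)

theorem sucg_vt {n e : ℕ} (τ : F →+* F) (hτ : ∀ x, τ x = x ^ e) {p : ℕ × ℕ → Bool}
    (h : (K.slcg n).VT p) : (sucg K n e).VT fun c => band (p c) (uniC O w n e c.1) := by
  refine h.sub (H := SU n F e) fun g c hg hc => mem_SU_of τ hτ g fun i j => ?_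
  have h1 := Nat.eq_of_beq_eq_true (allLt_iff.mp (allLt_iff.mp hc i i.2) j j.2)
  have h2 := congrArg K.val h1
  rw [(K.sum_spec n _ fun k hk => K.mul_lt _ _ (hg.1 ⟨k, hk⟩ i).1
    (K.pw_spec (hg.1 ⟨k, hk⟩ j).1 e).1).2, ite'_eq] at h2
  have h3 : ∀ k : Fin n, K.val (O.mul (img w c.1 (n * k + i)) (O.pw (img w c.1 (n * k + j)) e)) =
      g k i * g k j ^ e := fun k => by
    rw [K.val_mul _ _ (hg.1 k i).1 (K.pw_spec (hg.1 k j).1 e).1, (K.pw_spec (hg.1 k j).1 e).2,
      ← (hg.1 k i).2, ← (hg.1 k j).2]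
    rfl
  simp only [h3] at h2
  rw [h2]
  by_cases hij : i = j
  · simp [hij, K.val_one]
  · have : (i : ℕ) ≠ j := fun h' => hij (Fin.ext h')
    simp [hij, this, K.val_zero]

theorem exists_frob {F : Type*} [Field F] (p k : ℕ) (hp : p.Prime) [CharP F p] :
    ∃ τ : F →+* F, ∀ x, τ x = x ^ p ^ k :=
  haveI := Fact.mk hp
  ⟨iterateFrobenius F p k, fun _ => rfl⟩

end Cfsg.Agent.H9.SUcg
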