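import Cfsg.Agent.H2.CoprimeGen
import Cfsg.Agent.H2.Extra
import Cfsg.Agent.L.PSolv

/-! An element of order three with one cubic block: counting lemmas and four-groups. -/

set_option autoImplicit false

namespace Cfsg.Agent.H9.T3

open Subgroup

@[to_additive relIndex_le_add]
theorem relIndex_le {Z F : Type*} [Group Z] {C V : Subgroup Z} (f : Z → F) {s : Set F} (hs : s.Finite)
    (h1 : ∀ z ∈ V, f z ∈ s) (h2 : ∀ z ∈ V, ∀ w ∈ V, f z = f w → z⁻¹ * w ∈ C) : C.relIndex V ≤ s.ncard := by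
  haveI := hs.to_subtype
  refine Nat.card_le_card_of_injective (fun q : V ⧸ C.subgroupOf V => (⟨f q.out, h1 _ q.out.2⟩ : s)) fun q r e => ?_
  rw [← q.out_eq, ← r.out_eq]
  exact QuotientGroup.eq.2 (h2 _ q.out.2 _ r.out.2 (congrArg Subtype.val e))
theorem cnt {G Z : Type*} [Group G] [Finite Z] (φ : G →* Equiv.Perm Z) {p : ℕ} [Fact p.Prime] {Y : Subgroup G}
    (hY : IsPGroup p Y) {V C : Set Z} (hV : ∀ y ∈ Y, ∀ v ∈ V, φ y v ∈ V)
    (hC : ∀ v, v ∈ C ↔ v ∈ V ∧ ∀ y ∈ Y, φ y v = v) : Nat.card V ≡ Nat.card C [MOD p] := by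
  letI := MulAction.compHom Z (φ.comp Y.subtype)
  let W : SubMulAction Y Z := ⟨V, fun y _ h => hV y y.2 _ h⟩
  refine (hY.card_modEq_card_fixedPoints W).trans (Eq.symm (congrArg (· % p) (Nat.card_congr
    ⟨fun v => ⟨⟨v, ((hC v).1 v.2).1⟩, fun y => Subtype.ext (((hC v).1 v.2).2 y y.2)⟩,
      fun v => ⟨v.1, (hC _).2 ⟨v.1.2, fun y hy => congrArg Subtype.val (v.2 ⟨y, hy⟩)⟩⟩, fun _ => rfl, fun _ => rfl⟩)))
@[to_additive idx_add]
theorem idx {Z : Type*} [Group Z] [Finite Z] {C V : Subgroup Z} {p q : ℕ} (hq : q.Prime) (c : q.Coprime p)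
    (hV : ∃ n, Nat.card V = q ^ n) (h : Nat.card V ≡ Nat.card (V ⊓ C : Subgroup Z) [MOD p]) :
    ∃ k, C.relIndex V = q ^ k ∧ q ^ k ≡ 1 [MOD p] := by
  obtain ⟨n, e⟩ := hV
  have a : Nat.card (V ⊓ C : Subgroup Z) * C.relIndex V = Nat.card V := by
    rw [← relIndex_bot_left, ← relIndex_bot_left, ← inf_relIndex_left V C,
      relIndex_mul_relIndex _ _ _ bot_le inf_le_left]
  obtain ⟨k, -, b⟩ := (Nat.dvd_prime_pow hq).1 (e ▸ Dvd.intro_left _ a)
  refine ⟨k, b, Nat.ModEq.cancel_left_of_coprime (c := Nat.card (V ⊓ C : Subgroup Z))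
    ((e ▸ c.pow_left n).coprime_dvd_left (Dvd.intro _ a)).symm ?_⟩
  rwa [← b, a, mul_one]
theorem idxG {S : Type*} [Group S] [Finite S] {p q : ℕ} [Fact p.Prime] [Fact q.Prime] (c : q ≠ p) {Y T : Subgroup S}
    (hY : IsPGroup p Y) (hT : IsPGroup q T) (h : Y ≤ normalizer (T : Set S)) :
    ∃ k, (centralizer (Y : Set S)).relIndex T = q ^ k ∧ q ^ k ≡ 1 [MOD p] :=
  idx Fact.out ((Nat.coprime_primes Fact.out Fact.out).2 c) hT.exists_card_eq
    (cnt ((MulAut.toPerm S).comp MulAut.conj) hY (fun y hy v hv => (mem_normalizer_iff.1 (h hy) v).1 hv) fun _ =>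
      and_congr_right fun _ => forall₂_congr fun _ _ => mul_inv_eq_iff_eq_mul.symm)

variable {S E : Type*} [Group S] [AddCommGroup E] [DistribMulAction S E]

/-- the vectors fixed by an element -/
def fx (E : Type*) [AddCommGroup E] [DistribMulAction S E] (g : S) : AddSubgroup E where
  carrier := {v | g • v = v}
  zero_mem' := smul_zero g
  add_mem' := fun {_ _} a b => (smul_add _ _ _).trans (congrArg₂ _ a b)
  neg_mem' := fun {_} a => (smul_neg _ _).trans (congrArg _ a)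
theorem card3 [Finite E] (h3 : ∀ v : E, v + v + v = 0) (V : AddSubgroup E) : ∃ n, Nat.card V = 3 ^ n :=
  haveI : Fact (Nat.Prime 3) := ⟨Nat.prime_three⟩
  IsPGroup.exists_card_eq (G := Multiplicative V) fun v => ⟨1, by
    rw [pow_one, pow_three']; exact Subtype.ext (h3 _)⟩
theorem idxE [Finite E] (h3 : ∀ v : E, v + v + v = 0) {p : ℕ} [Fact p.Prime] (c : 3 ≠ p) {Y : Subgroup S}
    (hY : IsPGroup p Y) {V : AddSubgroup E} (hV : ∀ y ∈ Y, ∀ v ∈ V, y • v ∈ V) :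
    ∃ k, (FixedPoints.addSubgroup Y E).relIndex V = 3 ^ k ∧ 3 ^ k ≡ 1 [MOD p] :=
  idx_add Nat.prime_three ((Nat.coprime_primes Nat.prime_three Fact.out).2 c) (card3 h3 V)
    (cnt (MulAction.toPermHom S E) hY hV fun _ => and_congr_right fun _ => Subtype.forall)

/-- the line through a vector -/
def ln (e : E) : AddSubgroup E := AddSubgroup.zmultiples e
theorem mem_ln (h3 : ∀ v : E, v + v + v = 0) {e v : E} : v ∈ ln e ↔ v = 0 ∨ v = e ∨ v = -e := by
  refine ⟨?_, ?_⟩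
  · rintro ⟨k, rfl⟩
    have : k • e = (k % 3) • e := by
      conv_lhs => rw [← Int.emod_add_mul_ediv k 3, add_smul, mul_comm, mul_smul, show (3 : ℤ) • e = 0 by
        rw [← h3 e]; abel, smul_zero, add_zero]
    dsimp only
    obtain a | a | a : k % 3 = 0 ∨ k % 3 = 1 ∨ k % 3 = 2 := by omega
    · exact Or.inl (by rw [this, a, zero_smul])
    · exact Or.inr (Or.inl (by rw [this, a, one_smul]))
    · exact Or.inr (Or.inr (by rw [this, a, eq_neg_iff_add_eq_zero, ← h3 e]; abel))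
  · rintro (rfl | rfl | rfl)
    exacts [zero_mem _, AddSubgroup.mem_zmultiples _, neg_mem (AddSubgroup.mem_zmultiples _)]
theorem z2 (h3 : ∀ v : E, v + v + v = 0) {v : E} (h : v = -v) : v = 0 := by
  rw [← h3 v, ← add_zero v, add_zero, eq_neg_iff_add_eq_zero.1 h, zero_add]

/-- `u` generates with `b` an alternating group of degree four -/
structure W (b u : S) : Prop where
  b3 : b * b * b = 1
  ne : u ≠ 1
  sq : u * u = 1
  comm : Commute u (b * u * b⁻¹)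
  prod : b * (b * u * b⁻¹) * b⁻¹ = u * (b * u * b⁻¹)

theorem W.next {b u : S} (h : W b u) : W b (b * u * b⁻¹) := by
  have e : b * (b * (b * u * b⁻¹) * b⁻¹) * b⁻¹ = u := by
    rw [show b * (b * (b * u * b⁻¹) * b⁻¹) * b⁻¹ = (b * b * b) * u * (b * b * b)⁻¹ by group, h.b3]; group
  have s : b * u * b⁻¹ * (b * u * b⁻¹) = 1 := by rw [conj_mul, h.sq]; group
  refine ⟨h.b3, fun a => h.ne (conj_eq_one_iff.1 a), s, h.comm.conj b, ?_⟩
  rw [e, h.prod, ← mul_assoc, ← h.comm.eq, mul_assoc, s, mul_one]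
theorem W.ww {b u : S} (h : W b u) : b * u * b⁻¹ * (b * u * b⁻¹) = 1 := h.next.sq
theorem W.bbb {b u : S} (h : W b u) (v : E) : b • b • b • v = v := by rw [smul_smul, smul_smul, h.b3, one_smul]
/-- a weight space of the four-group -/
def E1 (E : Type*) [AddCommGroup E] [DistribMulAction S E] (b u : S) : AddSubgroup E where
  carrier := {v | u • v = v ∧ (b * u * b⁻¹) • v = -v}
  zero_mem' := ⟨smul_zero _, by simp⟩
  add_mem' := fun {_ _} a c => ⟨by rw [smul_add, a.1, c.1], by rw [smul_add, a.2, c.2, neg_add]⟩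
  neg_mem' := fun {_} a => ⟨by rw [smul_neg, a.1], by rw [smul_neg, a.2]⟩
theorem E1_next {b u : S} {v : E} : b • v ∈ E1 E b (b * u * b⁻¹) ↔ v ∈ E1 E b u := by
  refine and_congr ?_ ?_
  · rw [mul_smul, inv_smul_smul, mul_smul, smul_left_cancel_iff]
  · rw [mul_smul, inv_smul_smul, mul_smul, ← smul_neg, smul_left_cancel_iff]
theorem W.E2 {b u : S} (h : W b u) {v : E} : b • v ∈ E1 E b (b * u * b⁻¹) ↔
    u • b • v = -(b • v) ∧ (b * u * b⁻¹) • b • v = b • v := by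
  rw [and_comm]
  exact and_congr_right fun a => by rw [h.prod, mul_smul, a]
theorem W.E3 {b u : S} (h : W b u) {v : E} : v ∈ E1 E b u ↔
    u • b • b • v = -(b • b • v) ∧ (b * u * b⁻¹) • b • b • v = -(b • b • v) := by
  rw [← E1_next, ← E1_next, h.next.E2, h.prod, and_comm]
  exact and_congr_left fun a => by rw [mul_smul, a, smul_neg, neg_eq_iff_eq_neg]
theorem W.dec (h3 : ∀ v : E, v + v + v = 0) {b u : S} (h : W b u) (v : E) : ∃ v0 : E, ∃ x ∈ E1 E b u, ∃ y ∈ E1 E b u,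
    ∃ z ∈ E1 E b u, v = v0 + x + b • y + b • b • z ∧ u • v0 = v0 ∧ (b * u * b⁻¹) • v0 = v0 ∧
      ∀ N : AddSubgroup E, (∀ v ∈ N, u • v ∈ N ∧ (b * u * b⁻¹) • v ∈ N) → v ∈ N →
        v0 ∈ N ∧ x ∈ N ∧ b • y ∈ N ∧ b • b • z ∈ N := by
  have a1 : ∀ v : E, u • u • v = v := fun v => by rw [smul_smul, h.sq, one_smul]
  have a2 : ∀ v : E, (b * u * b⁻¹) • (b * u * b⁻¹) • v = v := fun v => by rw [smul_smul, h.ww, one_smul]
  have a3 : ∀ v : E, (b * u * b⁻¹) • u • v = u • (b * u * b⁻¹) • v := fun v => by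
    rw [smul_smul, smul_smul, h.comm.eq]
  refine ⟨v + u • v + (b * u * b⁻¹) • v + u • (b * u * b⁻¹) • v,
    v + u • v - (b * u * b⁻¹) • v - u • (b * u * b⁻¹) • v, ⟨?_, ?_⟩,
    b⁻¹ • (v - u • v + (b * u * b⁻¹) • v - u • (b * u * b⁻¹) • v), E1_next.1 (h.E2.2 ⟨?_, ?_⟩),
    b • (v - u • v - (b * u * b⁻¹) • v + u • (b * u * b⁻¹) • v), h.E3.2 ⟨?_, ?_⟩, ?_, ?_, ?_, fun N a c => ?_⟩
  iterate 9
    simp only [smul_inv_smul, h.bbb, smul_add, smul_sub, a1, a2, a3]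
    first | abel1 | (rw [← sub_eq_zero, ← neg_eq_zero, ← h3 v]; abel1)
  rw [smul_inv_smul, h.bbb]
  have c1 := (a _ c).1
  have c2 := (a _ c).2
  have c3 := (a _ c2).1
  exact ⟨add_mem (add_mem (add_mem c c1) c2) c3, sub_mem (sub_mem (add_mem c c1) c2) c3,
    sub_mem (add_mem (sub_mem c c1) c2) c3, add_mem (sub_mem (sub_mem c c1) c2) c3⟩

/-- a weight vector -/
structure Fr (b u : S) (e : E) : Prop where
  w : W b u
  ne : e ≠ 0
  eq : E1 E b u = ln e
  e0 : ∀ v : E, u • v = v → (b * u * b⁻¹) • v = v → b • v = v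

theorem W.inj (h3 : ∀ v : E, v + v + v = 0) {b u : S} (h : W b u) {x y v : E} (hx : x ∈ E1 E b u)
    (hy : y ∈ E1 E b u) (h1 : u • (b • v - v) = b • v - v) (h2 : (b * u * b⁻¹) • (b • v - v) = b • v - v)
    (e : v + (x + b • y) ∈ fx E b) : b • v = v ∧ (v = 0 → x = 0 ∧ y = 0) := by
  have e1 : b • v - v = x + b • y - b • x - b • b • y := by
    have : b • (v + (x + b • y)) = v + (x + b • y) := e
    rw [smul_add, smul_add, ← sub_eq_zero] at this
    rw [← sub_eq_zero, ← this]; abel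
  rw [e1] at h1 h2
  simp only [smul_sub, smul_add, hx.1, hx.2, h.E2.1 (E1_next.2 hx), h.E2.1 (E1_next.2 hy), h.E3.1 hy] at h1 h2
  have a : b • y - b • x - b • b • y = 0 := z2 h3 (by rw [← sub_eq_zero] at h1 ⊢; rw [← neg_eq_zero, ← h1]; abel)
  have c : x - b • b • y = 0 := z2 h3 (by rw [← sub_eq_zero] at h2 ⊢; rw [← neg_eq_zero, ← h2]; abel)
  have d : x = 0 := by
    have := (h.E3.1 hy).1
    rw [← sub_eq_zero.1 c, hx.1] at this
    exact z2 h3 this
  rw [d, zero_sub, neg_eq_zero, smul_eq_zero_iff_eq, smul_eq_zero_iff_eq] at c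
  exact ⟨by rw [← sub_eq_zero, e1, c, d]; simp, fun _ => ⟨d, c⟩⟩
theorem W.fr [Finite E] [FaithfulSMul S E] (h3 : ∀ v : E, v + v + v = 0) {b u : S} (h : W b u)
    (h9 : (fx E b).index ≤ 9) : ∃ e : E, Fr b u e := by
  obtain ⟨e, he, e0⟩ : ∃ e ∈ E1 E b u, e ≠ 0 := by
    by_contra! n
    refine h.ne (eq_of_smul_eq_smul (α := E) fun v => ?_)
    obtain ⟨v0, x, hx, y, hy, z, hz, rfl, a, -⟩ := h.dec h3 v
    simp [n _ hx, n _ hy, n _ hz, a]
  have i : Function.Injective fun p : E1 E b u × E1 E b u => ((p.1 + b • p.2.1 : E) : E ⧸ fx E b) := fun p q a => by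
    have := (h.inj h3 (sub_mem q.1.2 p.1.2) (sub_mem q.2.2 p.2.2) (v := 0) (by simp) (by simp) (by
      convert QuotientAddGroup.eq.1 a using 1
      rw [smul_sub]; abel)).2 rfl
    exact Prod.ext (Subtype.ext (sub_eq_zero.1 this.1).symm) (Subtype.ext (sub_eq_zero.1 this.2).symm)
  have l : ln e ≤ E1 E b u := AddSubgroup.zmultiples_le.2 he
  have c3 : Nat.card (ln e) = 3 := by
    haveI : Fact (Nat.Prime 3) := ⟨Nat.prime_three⟩
    rw [ln, Nat.card_zmultiples]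
    exact addOrderOf_eq_prime (by rw [← h3 e]; abel) e0
  have c1 := Nat.card_le_card_of_injective _ i
  have c2 := AddSubgroup.card_le_of_le l
  rw [Nat.card_prod] at c1
  have c4 : Nat.card (E1 E b u) = 3 := by
    change _ ≤ (fx E b).index at c1
    nlinarith
  refine ⟨e, h, e0, (AddSubgroup.eq_of_le_of_card_ge l (by omega)).symm, fun v a c => ?_⟩
  obtain ⟨p, hp⟩ := (i.bijective_of_nat_card_le (by rw [Nat.card_prod, c4]; exact h9)).2 ((-v : E) : E ⧸ fx E b)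
  have d : u = b * (u * (b * u * b⁻¹)) * b⁻¹ := by
    rw [← h.prod, h.next.prod, h.prod, h.comm.eq, ← mul_assoc, h.ww, one_mul]
  exact (h.inj h3 p.1.2 p.2.2 (by
    rw [smul_sub, a]; congr 1; conv_lhs => rw [d, mul_smul, inv_smul_smul, mul_smul, mul_smul u, c, a])
    (by rw [smul_sub, c, mul_smul, inv_smul_smul, mul_smul, a]) (by
    simpa only [neg_neg] using QuotientAddGroup.eq.1 hp.symm)).1
theorem smul_ln {g : S} {e v : E} (h : v ∈ ln e) : g • v ∈ ln (g • e) := by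
  obtain ⟨k, rfl⟩ := h
  exact ⟨k, (smul_comm g k e).symm⟩
theorem Fr.next {b u : S} {e : E} (h : Fr b u e) : Fr b (b * u * b⁻¹) (b • e) := by
  refine ⟨h.w.next, fun a => h.ne (smul_eq_zero_iff_eq _ |>.1 a), AddSubgroup.ext fun v => ?_, fun v a c => ?_⟩
  · obtain ⟨v, rfl⟩ := MulAction.surjective b v
    rw [E1_next, h.eq]
    exact ⟨smul_ln, fun a => by simpa using smul_ln (g := b⁻¹) a⟩
  · rw [h.w.prod, mul_smul, a] at c
    exact h.e0 v c a
theorem Fr.mem {b u : S} {e : E} (h : Fr b u e) : e ∈ E1 E b u := h.eq ▸ AddSubgroup.mem_zmultiples e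

end Cfsg.Agent.H9.T3
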