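import Cfsg.Agent.H9.T3a

/-! Signed permutations and the `2`-groups generated by commutators with the element of order three. -/

set_option autoImplicit false

namespace Cfsg.Agent.H9.T3

open Subgroup Equiv

abbrev SP (n : ℕ) := (Fin n → ℤˣ) ⋊[mulAutArrow] Perm (Fin n)
instance spFin (n : ℕ) : Fintype (SP n) := Fintype.ofEquiv _ SemidirectProduct.equivProd.symm
instance spDec (n : ℕ) : DecidableEq (SP n) := fun f g =>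
  decidable_of_iff ((∀ i, f.right i = g.right i) ∧ ∀ i, f.left i = g.left i) (by
    rw [SemidirectProduct.ext_iff, and_comm, funext_iff, Equiv.ext_iff])
def V4 {n : ℕ} (σ : Perm (Fin n)) : Prop := σ = 1 ∨ (σ * σ = 1 ∧ ∀ i, σ i ≠ i)
instance v4Dec {n : ℕ} (σ : Perm (Fin n)) : Decidable (V4 σ) := by unfold V4; infer_instance
def mM {n : ℕ} (f : SP n) : Prop := V4 f.right ∧ ∏ i, f.left i = 1
instance mMDec {n : ℕ} (f : SP n) : Decidable (mM f) := by unfold mM; infer_instance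
def dl (n : ℕ) : SP n →* ℤˣ := MonoidHom.mk' (fun f => ∏ i, f.left i) fun f g => by
  rw [SemidirectProduct.mul_left, ← Equiv.prod_comp f.right⁻¹ g.left, ← Finset.prod_mul_distrib]
  rfl
def c3 : Perm (Fin 3) := ⟨![1, 2, 0], ![2, 0, 1], by decide, by decide⟩
def c4 : Perm (Fin 4) := ⟨![1, 2, 0, 3], ![2, 0, 1, 3], by decide, by decide⟩
def zt : SP 4 := ⟨fun _ => -1, 1⟩
theorem d3a : (∀ σ : Perm (Fin 3), σ ^ 12 = 1 ∧ (σ ^ 4 = 1 → (σ * (c3 * σ * c3⁻¹)) ^ 4 = 1 → V4 σ)) ∧ ¬ V4 c3 ∧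
    ¬ V4 (c3 * c3) := by decide +kernel
theorem d4a : (∀ σ : Perm (Fin 4), σ ^ 12 = 1 ∧ (σ ^ 4 = 1 → (σ * (c4 * σ * c4⁻¹)) ^ 4 = 1 → V4 σ)) ∧ ¬ V4 c4 ∧
    ¬ V4 (c4 * c4) := by decide +kernel
theorem d3b : (∀ f : SP 3, mM f → (∃ a b : Fin 2, f = ⟨![1, -1, -1], 1⟩ ^ a.1 * ⟨![-1, 1, -1], 1⟩ ^ b.1) ∧ f ^ 2 = 1 ∧
    ∀ g : SP 3, mM g → f * g = g * f) ∧ Fintype.card {f : SP 3 // mM f} = 4 := by decide +kernel
theorem d4b : ∀ τ : SP 4, mM τ → τ.right 3 = 0 → ∀ f : SP 4, mM f → ∃ a b c d e : Fin 2,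
    f = ⟨![1, -1, -1, 1], 1⟩ ^ a.1 * ⟨![-1, 1, -1, 1], 1⟩ ^ b.1 * (τ * ⟨![-1, 1, -1, 1], 1⟩ * τ⁻¹) ^ c.1 * τ ^ d.1 *
      (⟨1, c4⟩ * τ * ⟨1, c4⟩⁻¹) ^ e.1 := by decide +kernel
theorem d4c : ∀ f : SP 4, mM f → (f ^ 2 = 1 ∨ f ^ 2 = zt) ∧ f * zt = zt * f ∧
    ((∀ g : SP 4, mM g → g * f = f * g) → f = 1 ∨ f = zt) ∧ (f.right = 1 → f ^ 2 = 1) ∧
    ∀ g : SP 4, mM g → (f * g * f⁻¹ * g⁻¹ = 1 ∨ f * g * f⁻¹ * g⁻¹ = zt) ∧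
      (f.right = 1 → g.right = 1 → f * g = g * f) := by decide +kernel
theorem d4d : Fintype.card {f : SP 4 // mM f} = 32 ∧ Fintype.card {f : SP 4 // mM f ∧ f.right = 1} = 8 ∧ mM zt ∧
    zt ≠ 1 ∧ zt ^ 2 = 1 := by decide +kernel

end Cfsg.Agent.H9.T3
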