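import Cfsg.Agent.H9.T3b

/-! The `2`-groups generated by commutators with the element of order three. -/

set_option autoImplicit false

namespace Cfsg.Agent.H9.T3

open Subgroup Equiv Pointwise

variable {G : Type*} [Group G]

theorem ex2 [Finite G] {P : Subgroup G} (hP : IsPGroup 2 P) (h : P ≠ ⊥) : ∃ a ∈ P, a ≠ 1 ∧ a * a = 1 := by
  obtain ⟨n, a, e⟩ := hP.nontrivial_iff_card.1 ((nontrivial_iff_ne_bot P).2 h)
  obtain ⟨x, hx⟩ := exists_prime_orderOf_dvd_card' (G := P) 2 (e ▸ dvd_pow_self 2 a.ne')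
  exact ⟨x, x.2, fun c => by rw [show x = 1 from Subtype.ext c, orderOf_one] at hx; omega,
    congrArg Subtype.val ((sq x).symm.trans (hx ▸ pow_orderOf_eq_one x))⟩
theorem zp3 {b g : G} (h : b * b * b = 1) (hg : g ∈ zpowers b) : g = 1 ∨ g = b ∨ g = b * b := by
  obtain ⟨k, rfl⟩ := hg
  have : b ^ k = b ^ (k % 3) := zpow_eq_zpow_emod k (by rw [← h, ← pow_three']; exact zpow_natCast b 3)
  dsimp only
  obtain a | a | a : k % 3 = 0 ∨ k % 3 = 1 ∨ k % 3 = 2 := by omega
  all_goals rw [this, a]; simp [sq, zpow_ofNat]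
theorem W.ord {b u : G} (h : W b u) : Nat.card (zpowers b) = 3 := by
  haveI : Fact (Nat.Prime 3) := ⟨Nat.prime_three⟩
  rw [Nat.card_zpowers]
  refine orderOf_eq_prime ((pow_three' b).trans h.b3) fun e => h.ne ?_
  simpa [e] using h.prod
theorem W.of {b a : G} (h3 : b * b * b = 1) (h2 : a * a = 1) (hn : ¬ Commute a b)
    (c : ∀ g ∈ zpowers b, ∀ k ∈ zpowers b, Commute (g * a * g⁻¹) (k * a * k⁻¹)) : W b (a * (b * a * b⁻¹)) := by
  have m := mem_zpowers b
  have c1 : Commute a (b * a * b⁻¹) := by simpa using c 1 (one_mem _) b m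
  have c2 : Commute a (b * (b * a * b⁻¹) * b⁻¹) := by simpa [mul_assoc] using c 1 (one_mem _) _ (mul_mem m m)
  have s : b * a * b⁻¹ * (b * a * b⁻¹) = 1 := by rw [conj_mul, h2]; group
  refine ⟨h3, fun e => hn ?_, by rw [← c1.mul_mul_mul_comm, h2, s, one_mul], ?_, ?_⟩
  · rw [Commute, SemiconjBy, eq_comm, ← mul_inv_eq_iff_eq_mul, ← inv_eq_of_mul_eq_one_right e,
      inv_eq_of_mul_eq_one_right h2]
  · rw [← conj_mul]
    exact (c1.mul_right c2).mul_left ((Commute.refl _).mul_right (c1.conj b))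
  · rw [← conj_mul (a := a), ← conj_mul (a := b * a * b⁻¹), mul_assoc a, ← mul_assoc (b * a * b⁻¹), s, one_mul, c2.eq,
      mul_right_inj, show b * (b * (b * a * b⁻¹) * b⁻¹) * b⁻¹ = (b * b * b) * a * (b * b * b)⁻¹ by group, h3]
    group
theorem W.cj {b u : G} (h : W b u) {g k : G} (hg : g ∈ zpowers b) (hk : k ∈ zpowers b) :
    Commute (g * u * g⁻¹) (k * u * k⁻¹) := by
  have e : b * b * u * (b * b)⁻¹ = u * (b * u * b⁻¹) := by rw [← h.prod]; group
  have c := h.comm
  rcases zp3 h.b3 hg with rfl | rfl | rfl <;> rcases zp3 h.b3 hk with rfl | rfl | rfl <;>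
    simp only [e, one_mul, inv_one, mul_one, Commute.refl, c, c.symm, Commute.mul_left, Commute.mul_right]
theorem exists_u [Finite G] {Y : Subgroup G} [Y.Normal] (hY : IsPGroup 2 Y) {b u : G} (hb : ⁅Y, zpowers b⁆ = Y)
    (hG : Y ⊔ zpowers b = ⊤) (h0 : u ∈ Y) (w : W b u) :
    ∃ u ∈ Y, W b u ∧ ∀ g k : G, Commute (g * u * g⁻¹) (k * u * k⁻¹) := by
  by_cases h : ∃ A : Subgroup G, A.Normal ∧ A ≤ Y ∧ A ≤ centralizer A ∧ ⁅A, zpowers b⁆ ≠ ⊥
  · obtain ⟨A, hA, a1, a2, a3⟩ := h
    have l : ⁅A, zpowers b⁆ ≤ A := commutator_le_left _ _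
    obtain ⟨a, b1, b2, b3⟩ := ex2 (hY.to_le (l.trans a1)) a3
    have c : ∀ x ∈ A, ∀ g k : G, Commute (g * x * g⁻¹) (k * x * k⁻¹) := fun x hx g k =>
      a2 (hA.conj_mem _ hx k) _ (hA.conj_mem _ hx g)
    have m := mul_mem (l b1) (hA.conj_mem _ (l b1) b)
    refine ⟨_, a1 m, W.of w.b3 b3 (fun n => b2 ?_) fun g _ k _ => c _ (l b1) g k, c _ m⟩
    obtain ⟨j, e⟩ := (hY.to_le a1).exists_card_eq
    refine (H2.centralizer_inf_commutator_eq_bot le_normalizer_of_normal (by
      rw [w.ord, e]; exact Nat.Coprime.pow_right _ (by norm_num)) (le_centralizer_iff_isMulCommutative.1 a2)).le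
      ⟨?_, b1⟩
    rintro _ ⟨k, rfl⟩
    exact (n.zpow_right k).symm
  refine ⟨u, h0, w, fun g k => ?_⟩
  have key : ∀ N : Subgroup G, N.Normal → N ≤ ⁅Y, Y⁆ → ⁅N, Y⁆ = ⊥ := fun N => by
    induction N using WellFoundedLT.induction with | ind N ih => ?_
    intro hN l
    have l1 : N ≤ Y := l.trans (commutator_le_left _ _)
    by_cases n : N = ⊥
    · rw [n, commutator_bot_left]
    haveI := hY.isNilpotent
    have a := H2.commutator_lt_of_nilpotent l1 le_normalizer_of_normal n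
    have c := ih _ a inferInstance (a.le.trans l)
    have d : ⁅⁅Y, Y⁆, N⁆ = ⊥ := commutator_commutator_eq_bot_of_rotate (by rwa [commutator_comm Y N]) c
    have e : zpowers b ≤ centralizer N := le_centralizer_iff.1 (commutator_eq_bot_iff_le_centralizer.1 (by
      by_contra f
      exact h ⟨N, hN, l1, l.trans (commutator_eq_bot_iff_le_centralizer.1 d), f⟩))
    rw [commutator_comm, commutator_eq_bot_iff_le_centralizer, ← hb]
    exact (commutator_mono le_rfl e).trans (commutator_le_right _ _)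
  have z := commutator_eq_bot_iff_le_centralizer.1 (key _ inferInstance le_rfl)
  have d : ∀ g : G, ∃ c ∈ Y, ∃ k ∈ zpowers b, (∀ y ∈ Y, Commute y c) ∧ g * u * g⁻¹ = c * (k * u * k⁻¹) := fun g => by
    obtain ⟨y, hy, k, hk, rfl⟩ := mem_sup_of_normal_left.1 (hG.ge (mem_top g))
    have m := commutator_mem_commutator hy (Normal.conj_mem inferInstance _ h0 k)
    exact ⟨_, commutator_le_left _ _ m, k, hk, z m, by rw [commutatorElement_def]; group⟩
  obtain ⟨c, c1, x, x1, c2, e⟩ := d g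
  obtain ⟨c', d1, y, y1, d2, e'⟩ := d k
  rw [e, e']
  exact ((d2 _ c1).mul_right (c2 _ (Normal.conj_mem inferInstance _ h0 y)).symm).mul_left
    ((d2 _ (Normal.conj_mem inferInstance _ h0 x)).mul_right (w.cj x1 y1))
theorem perm4 [Finite G] {Ω : Type*} [MulAction G Ω] {Y : Subgroup G} [Y.Normal] (hY : IsPGroup 2 Y) {b : G}
    (hG : Y ⊔ zpowers b = ⊤) (h3 : b * b * b = 1) {p : Ω} (tr : ∀ q, ∃ g : G, g • p = q) (hp : b • p ≠ p)
    (su : ∀ q, b • q = q ∨ q = p ∨ q = b • p ∨ q = b • b • p) {x y : Ω} (hx : b • x = x) (hy : b • y = y) : x = y := by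
  have bb : ∀ q : Ω, b • b • b • q = q := fun q => by rw [smul_smul, smul_smul, h3, one_smul]
  have s2 : ∀ q r : Ω, b • q ≠ q → b • r ≠ r → r = q ∨ r = b • q ∨ q = b • r := fun q r a c => by
    rcases (su q).resolve_left a with rfl | rfl | rfl <;> rcases (su r).resolve_left c with rfl | rfl | rfl <;>
      simp only [bb, true_or, or_true]
  have t : ∀ q, ∃ g ∈ Y, g • x = q := fun q => by
    obtain ⟨g, rfl⟩ := tr q
    obtain ⟨k, rfl⟩ := tr x
    obtain ⟨c, hc, l, hl, e⟩ := mem_sup_of_normal_left.1 (hG.ge (mem_top (g * k⁻¹)))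
    refine ⟨c, hc, ?_⟩
    rw [← inv_smul_smul k p, smul_smul g, ← e, mul_smul, inv_smul_smul, smul_left_cancel_iff]
    rcases zp3 h3 hl with rfl | rfl | rfl <;> simp only [one_smul, mul_smul, hx]
  let φ := MulAction.toPermHom G Ω
  have hP := hY.map φ
  haveI : Finite (Y.map φ) := Finite.of_surjective _ (φ.subgroupMap_surjective Y)
  haveI : Nontrivial (Y.map φ) := (nontrivial_iff_ne_bot _).2 fun e => by
    obtain ⟨g, hg, c⟩ := t p
    have : g • x = x := congrArg (fun σ : Perm Ω => σ x) (e.le (mem_map_of_mem φ hg))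
    exact hp (by rw [← c, this, hx])
  obtain ⟨⟨_, z, hz, rfl⟩, z1, z2, z3⟩ := ex2 (hP.to_subgroup (center _))
    ((nontrivial_iff_ne_bot _).1 hP.center_nontrivial)
  have zz : ∀ q : Ω, z • z • q = q := fun q => congrArg (fun σ : Y.map φ => σ.1 q) z3
  have zc : ∀ g ∈ Y, ∀ q : Ω, g • z • q = z • g • q := fun g hg q =>
    congrArg (fun σ : Y.map φ => σ.1 q) (mem_center_iff.1 z1 ⟨_, mem_map_of_mem φ hg⟩)
  have fr : ∀ c : G, (∀ g ∈ Y, ∀ q : Ω, g • c • q = c • g • q) → ∀ q : Ω, c • q = q → ∀ r : Ω, c • r = r :=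
    fun c a q e r => by
      obtain ⟨g, hg, rfl⟩ := t q
      obtain ⟨k, hk, rfl⟩ := t r
      rw [← a g hg, smul_left_cancel_iff] at e
      rw [← a k hk, e]
  have zf : ∀ q : Ω, z • q ≠ q := fun q e => z2 (Subtype.ext (Equiv.ext (fr z zc q e)))
  have bz : b * z * b⁻¹ ∈ Y := Normal.conj_mem inferInstance _ hz b
  have nf : ∀ q : Ω, b • q = q → b • z • q ≠ z • q := fun q a e => by
    have c : ∀ r : Ω, z • b • r = b • z • r := fun r => by
      have := fr (z * (b * z * b⁻¹)) (fun g hg r => by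
        have := zc _ (Normal.conj_mem inferInstance _ hg b⁻¹) (b⁻¹ • r)
        simp only [mul_smul, inv_inv, smul_inv_smul, inv_smul_eq_iff] at this ⊢
        rw [zc g hg, this]) q (by simp only [mul_smul]; rw [inv_smul_eq_iff.2 a.symm, e, zz]) (b • r)
      simp only [mul_smul, inv_smul_smul] at this
      rw [← this, zz]
    have k : z • p ≠ b • p := fun f => by
      have : p = b • b • p := by conv_lhs => rw [← zz p, f, c, f]
      exact hp ((congrArg (b • ·) this).trans (bb p))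
    rcases s2 p (z • p) hp (by rwa [← c, Ne, smul_left_cancel_iff]) with f | f | f
    exacts [zf p f, k f, k ((congrArg (z • ·) (f.trans (c p).symm)).trans (zz _))]
  have key : ∀ x y : Ω, b • x = x → b • y = y → z • y ≠ b • z • x := fun x y hx hy e => by
    have a := zc _ bz y
    rw [mul_smul, mul_smul, mul_smul, mul_smul, inv_smul_eq_iff.2 hy.symm, e, inv_smul_smul, zz, hx] at a
    exact nf x hx ((congrArg (b • z • ·) a).trans (by simp only [zz, bb]))
  rcases s2 _ _ (nf x hx) (nf y hy) with e | e | e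
  · exact (smul_left_cancel _ e).symm
  · exact absurd e (key x y hx hy)
  · exact absurd e (key y x hy hx)

end Cfsg.Agent.H9.T3
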