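import Cfsg.Agent.H9.T3c

/-! The monomial model. -/

set_option autoImplicit false

namespace Cfsg.Agent.H9.T3

open Subgroup Equiv Pointwise

variable {G E : Type*} [Group G] [AddCommGroup E] [DistribMulAction G E]

theorem exists_phi {n : ℕ} (vec : Fin n → E) (inj : ∀ i j (s : ℤˣ), vec i = s • vec j → i = j ∧ s = 1)
    (cl : ∀ (g : G) i, ∃ j, ∃ s : ℤˣ, g • vec i = s • vec j) : ∃ φ : G →* SP n, ∀ g f,
      φ g = f ↔ ∀ i, g • vec i = f.left (f.right i) • vec (f.right i) := by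
  have uq : ∀ f k : SP n, (∀ i, f.left (f.right i) • vec (f.right i) = k.left (k.right i) • vec (k.right i)) →
      f = k := fun f k a => by
    have c := fun i => inj _ _ _ ((eq_inv_smul_iff.2 (a i)).trans (smul_smul _ _ _))
    obtain e : f.right = k.right := Equiv.ext fun i => (c i).1
    refine SemidirectProduct.ext (funext fun j => ?_) e
    obtain ⟨i, rfl⟩ := f.right.surjective j
    rw [inv_mul_eq_one.1 (c i).2, e]
  have ex : ∀ g : G, ∃ f : SP n, ∀ i, g • vec i = f.left (f.right i) • vec (f.right i) := fun g => by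
    choose σ s a using cl g
    have i : Function.Injective σ := fun i j e => (inj i j (s i * (s j)⁻¹) (by
      rw [← smul_left_cancel_iff g, smul_comm, a, a, e, smul_smul, inv_mul_cancel_right])).1
    exact ⟨⟨fun j => s ((Equiv.ofBijective σ (Finite.injective_iff_bijective.1 i)).symm j),
      Equiv.ofBijective σ (Finite.injective_iff_bijective.1 i)⟩, fun i => by simpa using a i⟩
  choose φ a using ex
  refine ⟨MonoidHom.mk' φ fun g k => uq _ _ fun i => ?_, fun g f => ⟨fun e => e ▸ a g, fun e => uq _ _ fun i => ?_⟩⟩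
  · rw [← a, mul_smul, a, smul_comm, a, smul_smul, mul_comm]
    exact congrArg (fun j => ((φ g).left ((φ g).right ((φ k).right i)) * (φ k).left j) •
      vec ((φ g).right ((φ k).right i))) ((φ g).right.symm_apply_apply _).symm
  · exact (a g i).symm.trans (e i)
theorem eq1 {Y : Subgroup G} (hY : IsPGroup 2 Y) {y : G} (hy : y ∈ Y) (h : y * y * y = 1) : y = 1 := by
  obtain ⟨k, e⟩ := hY ⟨y, hy⟩
  exact (pow_eq_one_iff_of_coprime (Nat.Coprime.pow_left k (by norm_num : Nat.Coprime 2 3))).1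
    ⟨congrArg Subtype.val e, (pow_three' y).trans h⟩
theorem model {Y : Subgroup G} [Y.Normal] (hY : IsPGroup 2 Y) {b : G} (hb : ⁅Y, zpowers b⁆ = Y)
    (hG : Y ⊔ zpowers b = ⊤) (h3 : b * b * b = 1) {n : ℕ} {c : Perm (Fin n)} {φ : G →* SP n} (hc : φ b = ⟨1, c⟩)
    (d : (∀ σ : Perm (Fin n), σ ^ 12 = 1 ∧ (σ ^ 4 = 1 → (σ * (c * σ * c⁻¹)) ^ 4 = 1 → V4 σ)) ∧ ¬ V4 c ∧ ¬ V4 (c * c))
    (f : ∀ g, φ g = 1 → g * g * g = 1) : Function.Injective φ ∧ ∀ y ∈ Y, mM (φ y) := by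
  have a : ∀ y ∈ Y, (φ y).right ^ 4 = 1 := fun y hy => by
    obtain ⟨k, e⟩ := hY ⟨y, hy⟩
    have e1 : (φ y).right ^ 2 ^ k = 1 := by
      rw [← SemidirectProduct.rightHom_eq_right, ← map_pow, ← map_pow, show y ^ 2 ^ k = 1 from congrArg Subtype.val e,
        map_one, map_one]
    exact orderOf_dvd_iff_pow_eq_one.1 (((Nat.Coprime.pow_left k (by norm_num : Nat.Coprime 2 3)).coprime_dvd_left
      (orderOf_dvd_of_pow_eq_one e1)).dvd_of_dvd_mul_left (orderOf_dvd_of_pow_eq_one (d.1 _).1))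
  have v : ∀ y ∈ Y, V4 (φ y).right := fun y hy => (d.1 _).2 (a y hy) (by
    simpa [hc] using a _ (mul_mem hy (Normal.conj_mem inferInstance _ hy b)))
  refine ⟨(injective_iff_map_eq_one φ).2 fun g e => ?_, fun y hy => ⟨v y hy, ?_⟩⟩
  · obtain ⟨y, hy, k, hk, rfl⟩ := mem_sup_of_normal_left.1 (hG.ge (mem_top g))
    have := v _ (inv_mem hy)
    rw [map_inv, inv_eq_of_mul_eq_one_right ((map_mul φ y k).symm.trans e)] at this
    rcases zp3 h3 hk with rfl | rfl | rfl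
    · exact eq1 hY (mul_mem hy (one_mem _)) (f _ e)
    · exact absurd (by rwa [hc] at this) d.2.1
    · exact absurd (by rwa [map_mul, hc] at this) d.2.2
  · exact (commutator_le (H₃ := ((dl n).comp φ).ker)).2 (fun _ _ _ _ => by
      rw [MonoidHom.mem_ker, map_commutatorElement, commutatorElement_eq_one_iff_mul_comm, mul_comm]) (hb.ge hy)

theorem smul_ln' (g : G) (e : E) : g • ln e = ln (g • e) := AddSubgroup.ext fun v => by
  rw [AddSubgroup.mem_pointwise_smul_iff_inv_smul_mem]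
  exact ⟨fun a => by simpa using smul_ln (g := g) a, fun a => by simpa using smul_ln (g := g⁻¹) a⟩
theorem self_ln (e : E) : e ∈ ln e := AddSubgroup.mem_zmultiples e
variable (h3 : ∀ v : E, v + v + v = 0)
include h3
theorem ln_eq {e v : E} (h : v ∈ ln e) (n : v ≠ 0) : ln v = ln e := by
  obtain a | rfl | rfl := (mem_ln h3).1 h
  exacts [absurd a n, rfl, AddSubgroup.zmultiples_neg]
theorem sg_ln {e v : E} (h : v ∈ ln e) (n : v ≠ 0) : ∃ s : ℤˣ, v = s • e := by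
  obtain a | rfl | rfl := (mem_ln h3).1 h
  exacts [absurd a n, ⟨1, (one_smul _ _).symm⟩, ⟨-1, by simp⟩]
theorem sg_inj {v : E} (n : v ≠ 0) {s t : ℤˣ} (h : s • v = t • v) : s = t := by
  rcases Int.units_eq_one_or s with rfl | rfl <;> rcases Int.units_eq_one_or t with rfl | rfl
  exacts [rfl, absurd (z2 h3 (by simpa using h)) n, absurd (z2 h3 (by simpa using h.symm)) n, rfl]
theorem inj_of {n : ℕ} {vec : Fin n → E} {u w : G} {χ ψ : Fin n → ℤˣ} (a : ∀ i, vec i ≠ 0 ∧ u • vec i = χ i • vec i ∧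
    w • vec i = ψ i • vec i) (c : ∀ i j, χ i = χ j → ψ i = ψ j → i = j) (i j : Fin n) (s : ℤˣ)
    (e : vec i = s • vec j) : i = j ∧ s = 1 := by
  obtain rfl : i = j := c i j
    (sg_inj h3 (a i).1 (by rw [← (a i).2.1, e, smul_comm, (a j).2.1, smul_comm]))
    (sg_inj h3 (a i).1 (by rw [← (a i).2.2, e, smul_comm, (a j).2.2, smul_comm]))
  exact ⟨rfl, sg_inj h3 (a i).1 (by rw [← e, one_smul])⟩
variable {b u : G} {e : E} (h : Fr b u e) (hc : ∀ g k : G, Commute (g * u * g⁻¹) (k * u * k⁻¹))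
include h hc
theorem Fr.wt (g : G) : (u • g • e = g • e ∧ (b * u * b⁻¹) • g • e = g • e) ∨ g • e ∈ ln e ∨ g • e ∈ ln (b • e) ∨
    g • e ∈ ln (b • b • e) := by
  have a : ∀ k : G, (k * u * k⁻¹) • g • e = g • e ∨ (k * u * k⁻¹) • g • e = -(g • e) := fun k => by
    have c1 : Commute (g⁻¹ * k * u * (g⁻¹ * k)⁻¹) u := by simpa using hc (g⁻¹ * k) 1
    have : (g⁻¹ * k * u * (g⁻¹ * k)⁻¹) • e ∈ E1 E b u :=
      ⟨by rw [smul_smul, ← c1.eq, mul_smul, h.mem.1], by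
        rw [smul_smul, ← (hc (g⁻¹ * k) b).eq, mul_smul, h.mem.2, smul_neg]⟩
    rw [h.eq, mem_ln h3, smul_eq_zero_iff_eq, or_iff_right h.ne, show g⁻¹ * k * u * (g⁻¹ * k)⁻¹ =
      g⁻¹ * (k * u * k⁻¹ * g) by group, mul_smul, mul_smul, inv_smul_eq_iff, inv_smul_eq_iff, smul_neg] at this
    exact this
  have a1 := a 1
  rw [one_mul, inv_one, mul_one] at a1
  rcases a1 with c | c <;> rcases a b with d | d
  · exact Or.inl ⟨c, d⟩
  · exact Or.inr (Or.inl (h.eq.le ⟨c, d⟩))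
  · rw [← smul_inv_smul b (g • e)] at c d
    exact Or.inr (Or.inr (Or.inl (by simpa using h.next.eq.le (h.w.E2.2 ⟨c, d⟩))))
  · rw [← h.w.bbb (g • e)] at c d
    exact Or.inr (Or.inr (Or.inr (by
      simpa only [h.w.bbb] using smul_ln (g := b) (smul_ln (g := b) (h.eq.le (h.w.E3.2 ⟨c, d⟩))))))
theorem Fr.ex4 [Finite G] {Y : Subgroup G} [Y.Normal] (hY : IsPGroup 2 Y) (hG : Y ⊔ zpowers b = ⊤) :
    ∃ f : E, u • f = f ∧ (b * u * b⁻¹) • f = f ∧ (f = 0 ∨ ∃ t : G, t • e = f) ∧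
      ∀ g : G, g • e ∈ ln e ∨ g • e ∈ ln (b • e) ∨ g • e ∈ ln (b • b • e) ∨ g • e ∈ ln f := by
  by_cases a : ∃ t : G, u • t • e = t • e ∧ (b * u * b⁻¹) • t • e = t • e
  swap
  · exact ⟨0, smul_zero _, smul_zero _, Or.inl rfl, fun g => ((h.wt h3 hc g).resolve_left fun c => a ⟨g, c⟩).imp_right
      (Or.imp_right Or.inl)⟩
  obtain ⟨t, a⟩ := a
  refine ⟨_, a.1, a.2, Or.inr ⟨t, rfl⟩, fun g => (h.wt h3 hc g).elim (fun c => Or.inr (Or.inr (Or.inr ?_)))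
    (Or.imp_right (Or.imp_right Or.inl))⟩
  have n : ∀ g : G, g • e ≠ 0 := fun g c => h.ne ((smul_eq_zero_iff_eq g).1 c)
  have := perm4 (Ω := MulAction.orbit G (ln e)) hY hG h.w.b3 (p := ⟨_, MulAction.mem_orbit_self _⟩)
    (fun ⟨_, k, rfl⟩ => ⟨k, rfl⟩) (fun c => by
      have c1 : ln (b • e) = ln e := (smul_ln' b e).symm.trans (congrArg Subtype.val c)
      exact h.ne (z2 h3 ((h.next.eq.ge (c1.ge (self_ln e))).1.symm.trans h.mem.2)))
    (fun ⟨_, k, rfl⟩ => by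
      simp only [Subtype.ext_iff, MulAction.orbit.coe_smul, smul_ln']
      exact (h.wt h3 hc k).imp (fun c => by rw [h.e0 _ c.1 c.2]) (Or.imp (ln_eq h3 · (n k))
        (Or.imp (ln_eq h3 · (n k)) (ln_eq h3 · (n k)))))
    (x := ⟨_, MulAction.mem_orbit _ g⟩) (y := ⟨_, MulAction.mem_orbit _ t⟩)
    (Subtype.ext (by simp only [MulAction.orbit.coe_smul, smul_ln', h.e0 _ c.1 c.2]))
    (Subtype.ext (by simp only [MulAction.orbit.coe_smul, smul_ln', h.e0 _ a.1 a.2]))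
  rw [← smul_ln', ← show g • ln e = t • ln e from congrArg Subtype.val this, smul_ln']
  exact self_ln _
omit hc in
theorem Fr.zero {x y z : E} (hx : x ∈ ln e) (hy : y ∈ ln (b • e)) (hz : z ∈ ln (b • b • e))
    (h1 : u • (x + y + z) = x + y + z) (h2 : (b * u * b⁻¹) • (x + y + z) = x + y + z) : x + y + z = 0 := by
  obtain ⟨a1, a2⟩ := h.eq.ge hx
  have b1 := h.next.eq.ge hy
  rw [← smul_inv_smul b y, h.w.E2, smul_inv_smul] at b1
  have c1 := h.eq.ge (show b • z ∈ ln e by simpa only [h.w.bbb] using smul_ln (g := b) hz)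
  rw [h.w.E3, h.w.bbb] at c1
  simp only [smul_add, a1, a2, b1, c1] at h1 h2
  have d1 : y + z = 0 := z2 h3 (by rw [← sub_eq_zero] at h1 ⊢; rw [← neg_eq_zero, ← h1]; abel)
  have d2 : x + z = 0 := z2 h3 (by rw [← sub_eq_zero] at h2 ⊢; rw [← neg_eq_zero, ← h2]; abel)
  have d3 : x = 0 := z2 h3 (by
    conv_lhs => rw [← a1, eq_neg_of_add_eq_zero_left d2, smul_neg, c1.1, neg_neg, eq_neg_of_add_eq_zero_right d2])
  rw [add_assoc, d1, d3, add_zero]
omit hc in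
theorem Fr.mod [Finite G] [FaithfulSMul G E] {Y : Subgroup G} [Y.Normal] (hY : IsPGroup 2 Y) (hb : ⁅Y, zpowers b⁆ = Y)
    (hG : Y ⊔ zpowers b = ⊤) (hu : u ∈ Y) {f : E} (f1 : u • f = f) (f2 : (b * u * b⁻¹) • f = f)
    (f3 : f = 0 ∨ ∃ t : G, t • e = f)
    (f4 : ∀ g : G, g • e ∈ ln e ∨ g • e ∈ ln (b • e) ∨ g • e ∈ ln (b • b • e) ∨ g • e ∈ ln f) :
    (∀ g : G, g • e = e → g • b • e = b • e → g • b • b • e = b • b • e → g • f = f → g * g * g = 1) ∧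
    ∃ F0 F1 : AddSubgroup E, F0 ⊓ F1 = ⊥ ∧ F0 ⊔ F1 = ⊤ ∧ (∀ r ∈ Y, ∀ v ∈ F1, r • v = v) ∧
      (∀ r : G, ∀ v ∈ F0, r • v ∈ F0) ∧ (e ∈ F0 ∧ f ∈ F0) ∧
      ∀ N ≤ F0, (∀ r : G, ∀ v ∈ N, r • v ∈ N) → N = ⊥ ∨ N = F0 := by
  obtain ⟨F, hF⟩ : ∃ F, F = ln e ⊔ ln (b • e) ⊔ ln (b • b • e) ⊔ ln f := ⟨_, rfl⟩
  have le : ∀ N : AddSubgroup E, e ∈ N → b • e ∈ N → b • b • e ∈ N → f ∈ N → F ≤ N := fun N a1 a2 a3 a4 => by
    simp only [hF, sup_le_iff, ln, AddSubgroup.zmultiples_le, a1, a2, a3, a4, and_self]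
  obtain ⟨⟨⟨l1, l2⟩, l3⟩, l4⟩ : ((ln e ≤ F ∧ ln (b • e) ≤ F) ∧ ln (b • b • e) ≤ F) ∧ ln f ≤ F := by
    simpa only [sup_le_iff] using hF.ge
  have m : ∀ g : G, g • e ∈ F := fun g => (f4 g).elim (l1 ·) (·.elim (l2 ·) (·.elim (l3 ·) (l4 ·)))
  have iv : ∀ r : G, ∀ v ∈ F, r • v ∈ F := fun r => le (F.comap (DistribSMul.toAddMonoidHom E r)) (m r)
    (show r • b • e ∈ F from smul_smul r b e ▸ m _) (show r • b • b • e ∈ F by rw [smul_smul, smul_smul]; exact m _)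
    (show r • f ∈ F by
      obtain rfl | ⟨t, rfl⟩ := f3
      · rw [smul_zero]; exact zero_mem _
      · exact smul_smul r t e ▸ m _)
  let K : Subgroup G :=
    { carrier := {g | ∀ v : E, g • v - v ∈ F}
      one_mem' := fun v => by simp
      mul_mem' := fun {g k} a c v => by simpa [mul_smul] using add_mem (a (k • v)) (c v)
      inv_mem' := fun {g} a v => by simpa using neg_mem (a (g⁻¹ • v)) }
  have kb : zpowers b ≤ K := zpowers_le.2 fun v => by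
    obtain ⟨v0, x, hx, y, hy, z, hz, rfl, a1, a2, -⟩ := h.w.dec h3 v
    have := add_mem (add_mem (l1 (h.eq.le hx)) (iv b _ (l1 (h.eq.le hy)))) (iv b _ (iv b _ (l1 (h.eq.le hz))))
    convert sub_mem (iv b _ this) this using 1
    simp only [smul_add, h.e0 _ a1 a2]; abel
  haveI : K.Normal := ⟨fun g a k v => by simpa [mul_smul, smul_sub] using iv k _ (a (k⁻¹ • v))⟩
  have kt : ∀ (g : G) (v : E), g • v - v ∈ F := fun g => (sup_le (hb.ge.trans ((commutator_mono le_rfl kb).trans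
    (commutator_le_right _ _))) kb) (hG.ge (mem_top g))
  have ir : ∀ N ≤ F, (∀ r : G, ∀ v ∈ N, r • v ∈ N) → N = ⊥ ∨ N = F := fun N a c => by
    refine or_iff_not_imp_left.2 fun n => a.antisymm ?_
    have k : ∀ g : G, ∀ v ∈ N, v ∈ ln (g • e) → v ≠ 0 → F ≤ N := fun g v a1 a2 a3 => by
      have : e ∈ N := by
        simpa using c g⁻¹ _ ((AddSubgroup.zmultiples_le.2 a1) ((ln_eq h3 a2 a3).ge (self_ln _)))
      refine le N this (c _ _ this) (c _ _ (c _ _ this)) ?_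
      obtain rfl | ⟨t, rfl⟩ := f3
      exacts [zero_mem _, c _ _ this]
    obtain ⟨⟨v, hv⟩, v0⟩ := AddSubgroup.ne_bot_iff_exists_ne_zero.1 n
    obtain ⟨w, x, hx, y, hy, z, hz, rfl, a1, a2, a3⟩ := h.w.dec h3 v
    obtain ⟨b0, b1, b2, b3⟩ := a3 N (fun v a => ⟨c _ _ a, c _ _ a⟩) hv
    by_contra nn
    have c1 : x = 0 := by_contra fun d => nn (k 1 _ b1 (by simpa using h.eq.le hx) d)
    have c2 : b • y = 0 := by_contra fun d => nn (k b _ b2 (smul_ln (h.eq.le hy)) d)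
    have c3 : b • b • z = 0 := by_contra fun d => nn (k (b * b) _ b3 (by
      rw [mul_smul]; exact smul_ln (smul_ln (h.eq.le hz))) d)
    have c4 : w ≠ 0 := fun d => v0 (Subtype.ext (by simp [c1, c2, c3, d]))
    have := a b0
    simp only [hF, AddSubgroup.mem_sup] at this
    obtain ⟨_, ⟨_, ⟨p, p1, q, q1, rfl⟩, r, r1, rfl⟩, s, s1, e1⟩ := this
    have s2 : u • s = s := AddSubgroup.zmultiples_le.2 (show f ∈ fx E u from f1) s1
    have s3 : (b * u * b⁻¹) • s = s := AddSubgroup.zmultiples_le.2 (show f ∈ fx E _ from f2) s1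
    rw [h.zero h3 p1 q1 r1 (by rw [eq_sub_of_add_eq e1, smul_sub, a1, s2])
      (by rw [eq_sub_of_add_eq e1, smul_sub, a2, s3]), zero_add] at e1
    subst e1
    obtain rfl | ⟨t, rfl⟩ := f3
    · exact c4 (by simpa [ln] using s1)
    · exact nn (k t _ b0 s1 c4)
  refine ⟨fun g a1 a2 a3 a4 => eq_of_smul_eq_smul (α := E) fun v => ?_, F, FixedPoints.addSubgroup Y E, ?_,
    top_le_iff.1 fun v _ => ?_, fun r a v c => c ⟨r, a⟩, iv, ⟨l1 (self_ln _), l4 (self_ln _)⟩, ir⟩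
  · have a : g • (g • v - v) = g • v - v := le (fx E g) a1 a2 a3 a4 (kt g v)
    rw [smul_sub, sub_eq_iff_eq_add] at a
    rw [mul_smul, mul_smul, a, smul_add, smul_sub, a, one_smul, ← sub_eq_zero, ← h3 (g • v - v)]
    abel
  · refine (ir _ inf_le_left fun r v a => ⟨iv r v a.1, fun y => ?_⟩).resolve_right fun a => h.ne (z2 h3 ?_)
    · have := a.2 ⟨_, Normal.conj_mem' inferInstance _ y.2 r⟩
      rwa [Subgroup.mk_smul, mul_smul, mul_smul, inv_smul_eq_iff] at this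
    · exact ((a.ge (l1 (self_ln e))).2 ⟨_, Normal.conj_mem inferInstance _ hu b⟩).symm.trans h.mem.2
  · haveI := Fintype.ofFinite Y
    obtain ⟨k, a⟩ := hY.exists_card_eq
    have c : ∀ k : ℕ, (2 ^ k * 2 ^ k) • v = v := fun k => by
      rw [← mul_pow]
      induction k with
      | zero => simp
      | succ k ih => rw [pow_succ', mul_smul, ih, ← zero_add v, ← h3 v, h3 v, zero_add, ← sub_eq_zero, ← h3 v]; abel
    have d : (∑ y : Y, y • v) - ∑ y : Y, (y • v - v) = 2 ^ k • v := by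
      rw [← Finset.sum_sub_distrib, ← a, Nat.card_eq_fintype_card]; simp
    rw [← c k, mul_smul, ← d]
    have s : ∑ y : Y, y • v ∈ FixedPoints.addSubgroup Y E := (FixedPoints.mem_addSubgroup _ _ _).2 fun y => by
      rw [Finset.smul_sum, ← Equiv.sum_comp (Equiv.mulLeft y) (· • v)]
      exact Finset.sum_congr rfl fun _ _ => smul_smul _ _ _
    exact nsmul_mem (sub_mem (AddSubgroup.mem_sup_right s) (AddSubgroup.mem_sup_left
      (sum_mem fun (y : Y) _ => show y • v - v ∈ F from kt y v))) _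
omit h hc in
theorem twoG [Finite G] [Finite E] [FaithfulSMul G E] {Y : Subgroup G} [Y.Normal] (hY : IsPGroup 2 Y)
    (hb : ⁅Y, zpowers b⁆ = Y) (hG : Y ⊔ zpowers b = ⊤) (hu : u ∈ Y) (w : W b u) (h9 : (fx E b).index ≤ 9) :
    ((∃ φ : G →* SP 3, Function.Injective φ ∧ ∀ f, (∃ y ∈ Y, φ y = f) ↔ mM f) ∨
      ∃ φ : G →* SP 4, Function.Injective φ ∧ ∀ f, (∃ y ∈ Y, φ y = f) ↔ mM f) ∧
    ∃ F0 F1 : AddSubgroup E, F0 ⊓ F1 = ⊥ ∧ F0 ⊔ F1 = ⊤ ∧ (∀ r ∈ Y, ∀ v ∈ F1, r • v = v) ∧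
      (∀ r : G, ∀ v ∈ F0, r • v ∈ F0) ∧ (∀ r : G, (∀ v ∈ F0, r • v = v) → r = 1) ∧
      ∀ N ≤ F0, (∀ r : G, ∀ v ∈ N, r • v ∈ N) → N = ⊥ ∨ N = F0 := by
  obtain ⟨u, hu, w, hc⟩ := exists_u hY hb hG hu w
  obtain ⟨e, h⟩ := w.fr h3 h9
  obtain ⟨f, f1, f2, f3, f4⟩ := h.ex4 h3 hc hY hG
  obtain ⟨m, F0, F1, a1, a2, a3, a4, ⟨a5, a6⟩, a7⟩ := h.mod h3 hY hb hG hu f1 f2 f3 f4
  have hw := Normal.conj_mem inferInstance _ hu b
  have n : ∀ g : G, g • e ≠ 0 := fun g c => h.ne ((smul_eq_zero_iff_eq g).1 c)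
  have n2 : b • b • e ≠ 0 := mul_smul b b e ▸ n _
  obtain ⟨e1, e2⟩ := h.mem
  obtain ⟨e3, e4⟩ := w.E2.1 (E1_next.2 h.mem)
  obtain ⟨e5, e6⟩ := w.E3.1 h.mem
  have fin : ∀ {k : ℕ} (vec : Fin k → E) (φ : G →* SP k), (∀ i, vec i ∈ F0) → Function.Injective φ →
      (∀ g f, φ g = f ↔ ∀ i, g • vec i = f.left (f.right i) • vec (f.right i)) →
      ∀ r : G, (∀ v ∈ F0, r • v = v) → r = 1 := fun vec φ a i c r d =>
    i (((c r 1).2 fun j => by simpa using d _ (a j)).trans (map_one φ).symm)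
  by_cases f0 : f = 0
  · subst f0
    have cl : ∀ g : G, ∃ j, ∃ s : ℤˣ, g • e = s • ![e, b • e, b • b • e] j := fun g => by
      rcases f4 g with c | c | c | c
      exacts [⟨0, sg_ln h3 c (n g)⟩, ⟨1, sg_ln h3 c (n g)⟩, ⟨2, sg_ln h3 c (n g)⟩,
        absurd (by simpa [ln] using c) (n g)]
    obtain ⟨φ, p⟩ := exists_phi (G := G) ![e, b • e, b • b • e] (inj_of h3 (u := u) (w := b * u * b⁻¹)
      (χ := ![1, -1, -1]) (ψ := ![-1, 1, -1]) (fun i => by fin_cases i <;> simp [*, h.ne]) (by decide))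
      fun g i => by
        fin_cases i
        exacts [cl g, mul_smul g b e ▸ cl _, by have := cl (g * b * b); rwa [mul_smul, mul_smul] at this]
    obtain ⟨i, c⟩ := model hY hb hG w.b3 ((p b ⟨1, c3⟩).2 fun i => by fin_cases i <;> simp [c3, w.bbb]) d3a
      fun g a => m g (by simpa using (p g 1).1 a 0) (by simpa using (p g 1).1 a 1) (by simpa using (p g 1).1 a 2)
        (smul_zero g)
    refine ⟨Or.inl ⟨φ, i, fun f => ⟨fun ⟨y, a, e⟩ => e ▸ c y a, fun a => ?_⟩⟩, F0, F1, a1, a2, a3, a4,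
      fin _ φ (fun i => by fin_cases i <;> simp [a4, a5]) i p, a7⟩
    obtain ⟨x, y, rfl⟩ := (d3b.1 f a).1
    exact ⟨_, mul_mem (pow_mem hu x) (pow_mem hw y), by
      rw [map_mul, map_pow, map_pow, (p u ⟨![1, -1, -1], 1⟩).2 fun i => by fin_cases i <;> simp [*],
        (p _ ⟨![-1, 1, -1], 1⟩).2 fun i => by fin_cases i <;> simp [*]]⟩
  obtain ⟨t, rfl⟩ := f3.resolve_left f0
  have bf := h.e0 _ f1 f2
  have cl : ∀ g : G, ∃ j, ∃ s : ℤˣ, g • e = s • ![e, b • e, b • b • e, t • e] j := fun g => by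
    rcases f4 g with c | c | c | c
    exacts [⟨0, sg_ln h3 c (n g)⟩, ⟨1, sg_ln h3 c (n g)⟩, ⟨2, sg_ln h3 c (n g)⟩, ⟨3, sg_ln h3 c (n g)⟩]
  have inj := inj_of h3 (vec := ![e, b • e, b • b • e, t • e]) (u := u) (w := b * u * b⁻¹)
    (χ := ![1, -1, -1, 1]) (ψ := ![-1, 1, -1, 1]) (fun i => by fin_cases i <;> simp [*, h.ne]) (by decide)
  obtain ⟨φ, p⟩ := exists_phi (G := G) _ inj fun g i => by
    fin_cases i
    exacts [cl g, mul_smul g b e ▸ cl _, by have := cl (g * b * b); rwa [mul_smul, mul_smul] at this,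
      mul_smul g t e ▸ cl _]
  have pb := (p b ⟨1, c4⟩).2 fun i => by fin_cases i <;> simp [c4, w.bbb, bf]
  obtain ⟨i, c⟩ := model hY hb hG w.b3 pb d4a
    fun g a => m g (by simpa using (p g 1).1 a 0) (by simpa using (p g 1).1 a 1) (by simpa using (p g 1).1 a 2)
      (by simpa using (p g 1).1 a 3)
  refine ⟨Or.inr ⟨φ, i, fun f => ⟨fun ⟨y, a, e⟩ => e ▸ c y a, fun a => ?_⟩⟩, F0, F1, a1, a2, a3, a4,
    fin _ φ (fun i => by fin_cases i <;> simp [a4, a5]) i p, a7⟩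
  obtain ⟨y, hy, k, hk, d⟩ := mem_sup_of_normal_left.1 (hG.ge (mem_top t⁻¹))
  have d1 : y • t • e = e := by
    rw [← zpowers_le.2 (show b ∈ MulAction.stabilizer G (t • e) from bf) hk, smul_smul, d, inv_smul_smul]
  have d2 : (φ y).right 3 = 0 := (inj 0 _ _ (d1.symm.trans ((p y _).1 rfl 3))).1.symm
  obtain ⟨x1, x2, x3, x4, x5, rfl⟩ := d4b _ (c y hy) d2 f a
  exact ⟨_, mul_mem (mul_mem (mul_mem (mul_mem (pow_mem hu x1) (pow_mem hw x2))
    (pow_mem (mul_mem (mul_mem hy hw) (inv_mem hy)) x3)) (pow_mem hy x4))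
    (pow_mem (Normal.conj_mem inferInstance _ hy b) x5), by
      simp only [map_mul φ _ (_ ^ _), map_pow, (p u ⟨![1, -1, -1, 1], 1⟩).2 fun i => by fin_cases i <;> simp [*]]
      rw [map_mul φ (y * _), map_mul φ y, map_inv,
        (p (b * u * b⁻¹) ⟨![-1, 1, -1, 1], 1⟩).2 fun i => by fin_cases i <;> simp [*], map_mul, map_mul, map_inv, pb]⟩

end Cfsg.Agent.H9.T3
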