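import Cfsg.Agent.H9.T3d
import Cfsg.Agent.H3.FischerOdd

/-! Reduction to `2`-groups. -/

set_option autoImplicit false

namespace Cfsg.Agent.H9.T3

open Subgroup

variable {S E : Type*} [Group S] [AddCommGroup E] [DistribMulAction S E]

theorem es4 {Y : Type*} [Group Y] [Finite Y] {ψ : Y →* SP 4} (i : Function.Injective ψ)
    (h : ∀ f, (∃ y, ψ y = f) ↔ mM f) : IsExtraspecial 2 Y ∧ Nat.card Y = 32 ∧
      ∃ A : Subgroup Y, IsElementaryAbelian 2 A ∧ Nat.card A = 8 := by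
  obtain ⟨z, hz⟩ := (h zt).2 d4d.2.2.1
  have m : ∀ y, mM (ψ y) := fun y => (h _).1 ⟨y, rfl⟩
  have k : ∀ w, ψ w = 1 ∨ ψ w = zt → w ∈ zpowers z := by
    rintro w (a | a)
    · rw [i (a.trans (map_one ψ).symm)]; exact one_mem _
    · rw [i (a.trans hz.symm)]; exact mem_zpowers _
  have c : Nat.card Y = 32 := by
    rw [← d4d.1, ← Nat.card_eq_fintype_card]
    exact Nat.card_congr (Equiv.ofBijective (fun y => ⟨ψ y, m y⟩) ⟨fun x y e => i (congrArg Subtype.val e),
      fun f => ((h f).2 f.2).imp fun _ => Subtype.ext⟩)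
  have es : H2.ES 2 z := ⟨orderOf_eq_prime (i (by rw [map_pow, hz, map_one, d4d.2.2.2.2])) fun a =>
    d4d.2.2.2.1 (by rw [← hz, a, map_one]), le_antisymm (fun w a => k w ((d4c _ (m w)).2.2.1 fun g b => by
      obtain ⟨y, rfl⟩ := (h g).2 b
      rw [← map_mul, ← map_mul, mem_center_iff.1 a])) (zpowers_le.2 (mem_center_iff.2 fun g => i (by
        rw [map_mul, map_mul, hz, (d4c _ (m g)).2.1]))),
    fun x y => k _ (by simpa only [commutatorElement_def, map_mul, map_inv] using ((d4c _ (m x)).2.2.2.2 _ (m y)).1),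
    fun x => k _ (by simpa only [map_pow] using (d4c _ (m x)).1)⟩
  obtain ⟨x, hx⟩ : ∃ x, x ∉ zpowers z := by
    by_contra! a
    have := es.forall_mem_iff.1 a
    omega
  refine ⟨es.isExtraspecial hx, c, (SemidirectProduct.rightHom.comp ψ).ker, ⟨⟨⟨fun x y => Subtype.ext (i ?_)⟩⟩,
    fun x a => i ?_⟩, ?_⟩
  · simpa only [coe_mul, map_mul] using ((d4c _ (m x)).2.2.2.2 _ (m y)).2 x.2 y.2
  · rw [map_pow, map_one, (d4c _ (m x)).2.2.2.1 a]
  · rw [← d4d.2.1, ← Nat.card_eq_fintype_card]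
    exact Nat.card_congr (Equiv.ofBijective (fun y => ⟨ψ y, m y, y.2⟩)
      ⟨fun x y e => Subtype.ext (i (congrArg Subtype.val e)), fun f => by
        obtain ⟨y, e⟩ := (h f).2 f.2.1
        exact ⟨⟨y, (congrArg _ e).trans f.2.2⟩, Subtype.ext e⟩⟩)
/-- the conclusion -/
def Con (E : Type*) [AddCommGroup E] [DistribMulAction S E] (Y B : Subgroup S) : Prop :=
  ((IsElementaryAbelian 2 Y ∧ Nat.card Y = 4) ∨ (IsExtraspecial 2 Y ∧ Nat.card Y = 32 ∧
    ∃ A : Subgroup S, A ≤ Y ∧ IsElementaryAbelian 2 A ∧ Nat.card A = 8)) ∧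
  ∃ F0 F1 : AddSubgroup E, F0 ⊓ F1 = ⊥ ∧ F0 ⊔ F1 = ⊤ ∧ (∀ r ∈ Y, ∀ v ∈ F1, r • v = v) ∧
    (∀ r ∈ Y ⊔ B, ∀ v ∈ F0, r • v ∈ F0) ∧ (∀ r ∈ Y ⊔ B, (∀ v ∈ F0, r • v = v) → r = 1) ∧
    ∀ N ≤ F0, (∀ r ∈ Y ⊔ B, ∀ v ∈ N, r • v ∈ N) → N = ⊥ ∨ N = F0
variable [Finite S] [Finite E] [FaithfulSMul S E] (h3 : ∀ v : E, v + v + v = 0) {b u : S} (w : W b u)
  (h9 : (fx E b).index ≤ 9)
include h3 w h9
theorem two {Y : Subgroup S} (hY : IsPGroup 2 Y) (hb : ⁅Y, zpowers b⁆ = Y) (hu : u ∈ Y) : Con E Y (zpowers b) := by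
  have l : Y ≤ Y ⊔ zpowers b := le_sup_left
  let b' : ↥(Y ⊔ zpowers b) := ⟨b, mem_sup_right (mem_zpowers b)⟩
  have zb : zpowers b' = (zpowers b).subgroupOf _ := map_injective (subtype_injective _) (by
    rw [MonoidHom.map_zpowers, map_subgroupOf_eq_of_le le_sup_right]; rfl)
  haveI : (Y.subgroupOf (Y ⊔ zpowers b)).Normal := normal_subgroupOf_of_le_normalizer (sup_le le_normalizer
    (le_normalizer_iff_commutator_le_left.2 hb.le))
  obtain ⟨a, F0, F1, a1, a2, a3, a4, a5, a6⟩ := twoG (E := E) h3 (Y := Y.subgroupOf (Y ⊔ zpowers b)) (b := b')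
    (u := ⟨u, l hu⟩) (hY.comap_subtype) (map_injective (subtype_injective _) (by
      rw [map_commutator, zb, map_subgroupOf_eq_of_le le_sup_right, map_subgroupOf_eq_of_le l, hb]))
    (by rw [zb, ← subgroupOf_sup l le_sup_right, subgroupOf_self]) hu
    ⟨Subtype.ext w.b3, fun e => w.ne (congrArg Subtype.val e), Subtype.ext w.sq, Subtype.ext w.comm,
      Subtype.ext w.prod⟩ h9
  have tr : ∀ {n : ℕ} (φ : ↥(Y ⊔ zpowers b) →* SP n), (∀ f, (∃ y ∈ Y.subgroupOf _, φ y = f) ↔ mM f) →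
      ∀ f, (∃ y, φ.comp (inclusion l) y = f) ↔ mM f := fun φ c f =>
    Iff.trans ⟨fun ⟨y, e⟩ => ⟨_, y.2, e⟩, fun ⟨y, d, e⟩ => ⟨⟨y, d⟩, e⟩⟩ (c f)
  refine ⟨a.imp ?_ ?_, F0, F1, a1, a2, fun r c => a3 ⟨r, l c⟩ c, fun r c => a4 ⟨r, c⟩,
    fun r c d => congrArg Subtype.val (a5 ⟨r, c⟩ d), fun N c d => a6 N c fun r => d r r.2⟩
  · rintro ⟨φ, i, c⟩
    replace c := tr φ c
    have j := i.comp (inclusion_injective l)
    have m : ∀ y, mM (φ.comp (inclusion l) y) := fun y => (c _).1 ⟨y, rfl⟩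
    refine ⟨⟨⟨⟨fun x y => j ?_⟩⟩, fun x d => congrArg Subtype.val (j (a₁ := ⟨x, d⟩ ^ 2) (a₂ := 1) ?_)⟩, ?_⟩
    · simpa only [Function.comp, map_mul, MonoidHom.comp_apply] using (d3b.1 _ (m x)).2.2 _ (m y)
    · simpa only [Function.comp, map_pow, map_one, MonoidHom.comp_apply] using (d3b.1 _ (m ⟨x, d⟩)).2.1
    · rw [← d3b.2, ← Nat.card_eq_fintype_card]
      exact Nat.card_congr (Equiv.ofBijective (fun y => ⟨_, m y⟩) ⟨fun x y e => j (congrArg Subtype.val e),
        fun f => ((c f).2 f.2).imp fun _ => Subtype.ext⟩)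
  · rintro ⟨φ, i, c⟩
    obtain ⟨c1, c2, A, c3, c4⟩ := es4 (ψ := φ.comp (inclusion l)) (i.comp (inclusion_injective l)) (tr φ c)
    haveI := c3.1
    refine ⟨c1, c2, A.map Y.subtype, map_subtype_le _, ⟨inferInstance, ?_⟩, (card_subtype _ _).trans c4⟩
    rintro _ ⟨x, d, rfl⟩
    exact congrArg Subtype.val (c3.2 x d)
omit h9 w [Finite S] [FaithfulSMul S E] in
theorem card_ln (e : E) : (ln e : Set E).ncard ≤ 3 :=
  (Nat.card_zmultiples e).le.trans (addOrderOf_le_of_nsmul_eq_zero (by norm_num) (by rw [← h3 e]; abel))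
omit h9 w [Finite S] [FaithfulSMul S E] in
theorem triv9 {r : ℕ} [hr : Fact r.Prime] (r2 : r ≠ 2) (r3 : 3 ≠ r) {N : Subgroup S} (hN : IsPGroup r N) {x : S}
    (hx : x ∈ N) {V : AddSubgroup E} (hV : ∀ y ∈ zpowers x, ∀ v ∈ V, y • v ∈ V) (h : (fx E x).relIndex V ≤ 9) :
    V ≤ fx E x := by
  obtain ⟨k, a, c⟩ := idxE h3 r3 (hN.to_le (zpowers_le.2 hx)) hV
  have e : FixedPoints.addSubgroup (zpowers x) E = fx E x := AddSubgroup.ext fun v =>
    ⟨fun d => d ⟨x, mem_zpowers x⟩, fun d y => zpowers_le.2 (show x ∈ MulAction.stabilizer S v from d) y.2⟩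
  rw [e] at a
  have : k ≤ 2 := (Nat.pow_le_pow_iff_right (by norm_num)).1 (a ▸ h : 3 ^ k ≤ 3 ^ 2)
  have d := (Nat.modEq_iff_dvd' (Nat.one_le_pow _ _ (by norm_num))).1 c.symm
  interval_cases k
  · exact AddSubgroup.relIndex_eq_one.1 a
  · exact absurd ((Nat.prime_dvd_prime_iff_eq hr.1 Nat.prime_two).1 d) r2
  · exact absurd ((Nat.prime_dvd_prime_iff_eq hr.1 Nat.prime_two).1 (hr.1.dvd_of_dvd_pow (n := 3) d)) r2
omit h9 w [Finite S] in
theorem Fr.comm {r : ℕ} [hr : Fact r.Prime] (r2 : r ≠ 2) (r3 : 3 ≠ r) {N : Subgroup S} [N.Normal] (hN : IsPGroup r N)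
    {e : E} (h : Fr b u e) {x : S} (hx : x ∈ N) (c : Commute x u) : Commute x (b * u * b⁻¹) := by
  have ww := h.w.ww
  have wu := h.w.comm.symm
  have m : b * u * b⁻¹ * (x * (b * u * b⁻¹) * x⁻¹) ∈ N := by
    have := mul_mem (Normal.conj_mem inferInstance _ hx (b * u * b⁻¹)) (inv_mem hx)
    rwa [inv_eq_of_mul_eq_one_right ww, mul_assoc, mul_assoc, ← mul_assoc x] at this
  have key : ∀ (s : ℤˣ) (a : E), (∀ v : E, u • v = s • v → (b * u * b⁻¹) • v = -v → v ∈ ln a) → ∀ v : E,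
      u • v = s • v → (b * u * b⁻¹ * (x * (b * u * b⁻¹) * x⁻¹)) • v = v := fun s a d => by
    let V : AddSubgroup E :=
      { carrier := {v | u • v = s • v}
        zero_mem' := by simp
        add_mem' := fun {_ _} a c => by rw [Set.mem_setOf_eq, smul_add, a, c, smul_add]
        neg_mem' := fun {_} a => by rw [Set.mem_setOf_eq, smul_neg, a, smul_neg] }
    have iv : ∀ g, Commute g u → ∀ v ∈ V, g • v ∈ V := fun g c v a =>
      show u • g • v = _ by rw [smul_smul, ← c.eq, mul_smul, a, smul_comm]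
    have l : ∀ v ∈ V, (b * u * b⁻¹) • v - v ∈ ln a := fun v c => d _ (sub_mem (iv _ wu v c) c) (by
      rw [smul_sub, smul_smul, ww, one_smul, neg_sub])
    refine triv9 h3 r2 r3 hN m (V := V) (fun y ⟨k, e⟩ => iv _ (e ▸ (wu.mul_left ((c.mul_left wu).mul_left
      c.inv_left)).zpow_left k)) ((relIndex_le_add (fun v => ((b * u * b⁻¹) • v - v,
        x • ((b * u * b⁻¹) • x⁻¹ • v - x⁻¹ • v))) (s := (ln a : Set E) ×ˢ ln (x • a)) (Set.toFinite _)
        (fun v e => ⟨l v e, smul_ln (l _ (iv _ c.inv_left v e))⟩) fun p _ q _ e => ?_).trans (by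
          rw [Set.ncard_prod]; exact Nat.mul_le_mul (card_ln h3 _) (card_ln h3 _)))
    obtain ⟨e1, e2⟩ := Prod.ext_iff.1 e
    simp only [smul_sub, smul_inv_smul, sub_eq_sub_iff_sub_eq_sub] at e1 e2
    change _ • _ = _
    rw [neg_add_eq_sub, ← neg_sub, smul_neg, mul_smul, mul_smul _ x⁻¹, mul_smul x, smul_sub, smul_sub, smul_sub, e2,
      smul_sub, e1]
  have : b * u * b⁻¹ * (x * (b * u * b⁻¹) * x⁻¹) = 1 := eq_of_smul_eq_smul (α := E) fun v => by
    have a1 := key 1 e (fun v a c => h.eq.le ⟨by simpa using a, c⟩) (v + u • v) (by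
      rw [smul_add, smul_smul, h.w.sq, one_smul, one_smul, add_comm])
    have a2 := key (-1) (b • b • e) (fun v a c => by
      rw [← h.w.bbb v] at a c ⊢
      exact smul_ln (smul_ln (h.eq.le (h.w.E3.2 ⟨by simpa using a, c⟩)))) (v - u • v) (by
      rw [smul_sub, smul_smul, h.w.sq]; simp)
    have a3 : v = -(v + u • v) - (v - u • v) := by rw [← sub_eq_zero, ← h3 v]; abel
    rw [a3, smul_sub, smul_neg, a1, a2, one_smul]
  exact mul_inv_eq_iff_eq_mul.1 (mul_left_cancel (this.trans ww.symm))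
omit h3 h9 [Finite S] [Finite E] [FaithfulSMul S E] in
/-- the four-group -/
def W.Q4 : Subgroup S where
  carrier := {g | g = 1 ∨ g = u ∨ g = b * u * b⁻¹ ∨ g = u * (b * u * b⁻¹)}
  one_mem' := Or.inl rfl
  mul_mem' := by
    have a := w.sq
    have c := w.ww
    have d := w.comm.eq
    generalize b * u * b⁻¹ = v at a c d
    have a' : ∀ g, u * (u * g) = g := fun g => by rw [← mul_assoc, a, one_mul]
    have d' : ∀ g, v * (u * g) = u * (v * g) := fun g => by rw [← mul_assoc, ← d, mul_assoc]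
    rintro _ _ (rfl | rfl | rfl | rfl) (rfl | rfl | rfl | rfl) <;> simp [mul_assoc, a, c, a', d', ← d]
  inv_mem' := by
    rintro _ (rfl | rfl | rfl | rfl)
    · simp
    · simp [inv_eq_of_mul_eq_one_right w.sq]
    · simp only [inv_eq_of_mul_eq_one_right w.ww]; simp
    · rw [mul_inv_rev, inv_eq_of_mul_eq_one_right w.ww, inv_eq_of_mul_eq_one_right w.sq, ← w.comm.eq]; simp
omit h3 h9 [Finite S] [Finite E] [FaithfulSMul S E] in
theorem W.q2 {g : S} (h : g ∈ w.Q4) : g * g = 1 := by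
  obtain rfl | rfl | rfl | rfl := h
  exacts [one_mul _, w.sq, w.ww, w.prod ▸ w.next.ww]
omit h3 h9 [Finite S] [Finite E] [FaithfulSMul S E] in
theorem W.qp : IsPGroup 2 w.Q4 := fun g => ⟨1, Subtype.ext ((pow_two g.1).trans (w.q2 g.2))⟩
theorem odd_core {r : ℕ} [hr : Fact r.Prime] (r2 : r ≠ 2) (r3 : 3 ≠ r) {N : Subgroup S} [N.Normal] (hN : IsPGroup r N)
    {x : S} (hx : x ∈ N) : Commute x b := by
  obtain ⟨e, h⟩ := w.fr h3 h9
  have uu : b * (b * (b * u * b⁻¹) * b⁻¹) * b⁻¹ = u := by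
    rw [w.next.prod, w.prod, w.comm.eq, ← mul_assoc, w.ww, one_mul]
  have ne : u ≠ b * u * b⁻¹ := fun a => w.next.next.ne (by rw [w.prod, ← a, w.sq])
  have l : N ≤ centralizer {u} ⊓ centralizer {b * u * b⁻¹} := by
    refine H2.le_of_forall_centralizer_le (A := w.Q4) ⟨⟨fun x y => ?_⟩⟩ (fun ⟨g, a⟩ => ?_) le_normalizer_of_normal
      (IsPGroup.coprime_card_of_ne 2 r r2.symm _ _ w.qp hN) ?_
    · have a : ∀ g : w.Q4, g⁻¹ = g := fun g => inv_eq_of_mul_eq_one_right (Subtype.ext (w.q2 g.2))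
      rw [← a (x * y), mul_inv_rev, a, a]
    · have k : ∀ y : w.Q4, y = 1 ∨ y = g := fun y => by
        obtain ⟨k, rfl⟩ := a y
        have : g ^ k = g ^ (k % 2) := zpow_eq_zpow_emod k (Subtype.ext ((zpow_two g.1).trans (w.q2 g.2)))
        obtain c | c : k % 2 = 0 ∨ k % 2 = 1 := by omega
        all_goals simp [this, c]
      exact ne (congrArg Subtype.val (((k ⟨u, by simp [W.Q4]⟩).resolve_left fun c =>
        w.ne (congrArg Subtype.val c)).trans ((k ⟨b * u * b⁻¹, by simp [W.Q4]⟩).resolve_left fun c =>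
          w.next.ne (congrArg Subtype.val c)).symm))
    · rintro a (rfl | rfl | rfl | rfl) n y ⟨y1, y2⟩ <;>
        replace y2 : Commute y _ := mem_centralizer_singleton_iff.1 y2 <;>
        simp only [mem_inf, mem_centralizer_singleton_iff]
      · exact absurd rfl n
      · exact ⟨y2, h.comm h3 r2 r3 hN y1 y2⟩
      · have := h.next.comm h3 r2 r3 hN y1 y2
        rw [w.prod] at this
        exact ⟨by simpa only [mul_inv_cancel_right] using (this.mul_right y2.inv_right).eq, y2⟩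
      · have := h.next.next.comm h3 r2 r3 hN y1 (w.prod ▸ y2)
        rw [uu] at this
        exact ⟨this, by simpa only [inv_mul_cancel_left] using (this.inv_right.mul_right y2).eq⟩
  obtain ⟨c1, c2⟩ := l hx
  replace c1 : Commute x u := mem_centralizer_singleton_iff.1 c1
  replace c2 : Commute x (b * u * b⁻¹) := mem_centralizer_singleton_iff.1 c2
  have k : ∀ {u : S} {e : E}, Fr b u e → Commute x u → Commute x (b * u * b⁻¹) → E1 E b u ≤ fx E x :=
    fun {u e} h c1 c2 => triv9 h3 r2 r3 hN hx (fun y ⟨k, d⟩ v a => d ▸ ⟨by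
      rw [smul_smul, ← (c1.zpow_left k).eq, mul_smul, a.1], by
      rw [smul_smul, ← (c2.zpow_left k).eq, mul_smul, a.2, smul_neg]⟩)
      ((relIndex_le_add id (s := ln e) (Set.toFinite _) (fun _ a => h.eq.le a) fun p _ q _ (e : p = q) => by
        simp [e]).trans ((card_ln h3 e).trans (by norm_num)))
  have c3 : Commute x (b * (b * u * b⁻¹) * b⁻¹) := w.prod ▸ c1.mul_right c2
  refine eq_of_smul_eq_smul (α := E) fun v => ?_
  obtain ⟨v0, p, hp, q, hq, t, ht, rfl, a1, a2, -⟩ := w.dec h3 v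
  have k1 : ∀ p ∈ E1 E b u, x • p = p := k h c1 c2
  have k2 : ∀ p ∈ E1 E b u, x • b • p = b • p := fun p a => k h.next c2 c3 (E1_next.2 a)
  have k3 : ∀ p ∈ E1 E b u, x • b • b • p = b • b • p := fun p a =>
    k h.next.next c3 (uu.symm ▸ c1) (E1_next.2 (E1_next.2 a))
  simp only [mul_smul, smul_add, w.bbb, h.e0 _ a1 a2, k1 _ hp, k1 _ ht, k2 _ hp, k2 _ hq, k3 _ hq, k3 _ ht,
    h.e0 (x • v0) (by rw [smul_smul, ← c1.eq, mul_smul, a1]) (by rw [smul_smul, ← c2.eq, mul_smul, a2])]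
theorem odd_syl [Group.IsSolvable S] (h0 : pCore 3 S = ⊥) {Y : Subgroup S} (hY : Nat.card Y ≤ 32)
    (hT : ∀ t ∈ pCore 2 S, t * b * t⁻¹ * b⁻¹ ∈ Y) {p : ℕ} [hp : Fact p.Prime] (p2 : p ≠ 2) (p3 : 3 ≠ p) {D : Subgroup S}
    (hD : IsPGroup p D) (hb : zpowers b ≤ normalizer (D : Set S)) {g : S} (hg : g ∈ D) : Commute g b := by
  obtain ⟨Z, hZ⟩ : ∃ Z, Z = D ⊓ (zpowers b ⊔ zpowers (g * b * g⁻¹)) := ⟨_, rfl⟩
  have z1 : ∀ K : Subgroup S, b ∈ K → g * b * g⁻¹ ∈ K → Z ≤ K := fun K a c =>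
    hZ ▸ inf_le_right.trans (sup_le (zpowers_le.2 a) (zpowers_le.2 c))
  have zp : IsPGroup p Z := hD.to_le (hZ ▸ inf_le_left)
  have zn : zpowers b ≤ normalizer (Z : Set S) := hZ ▸ H2.le_normalizer_inf hb (le_sup_left.trans le_normalizer)
  have m : g * b * g⁻¹ * b⁻¹ ∈ Z := hZ ▸ ⟨by
    simpa [mul_assoc] using mul_mem hg (H2.conj_mem_of_le_normalizer hb (mem_zpowers b) (inv_mem hg)),
    mul_mem (mem_sup_right (mem_zpowers _)) (mem_sup_left (inv_mem (mem_zpowers _)))⟩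
  suffices k : ∀ y ∈ Z, Commute y b by
    have c := k _ m
    have : (g * b * g⁻¹ * b⁻¹) ^ 3 = 1 := by
      have := c.mul_pow 3
      rwa [inv_mul_cancel_right, conj_pow, pow_three' b, w.b3, mul_one, mul_one, mul_inv_cancel, eq_comm] at this
    obtain ⟨k, e⟩ := zp ⟨_, m⟩
    exact commutatorElement_eq_one_iff_commute.1 ((pow_eq_one_iff_of_coprime (((Nat.coprime_primes Nat.prime_three
      hp.1).2 p3).pow_right k)).1 ⟨this, congrArg Subtype.val e⟩)
  have i1 : (FixedPoints.addSubgroup Z E).index ≤ 81 := by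
    rw [← AddSubgroup.relIndex_top_right]
    refine (relIndex_le_add (C := FixedPoints.addSubgroup Z E) (V := ⊤) (fun v : E => ((v : E ⧸ fx E b), ((g⁻¹ • v : E) : E ⧸ fx E b))) Set.finite_univ
      (fun _ _ => trivial) fun v _ x _ e (y : Z) => z1 (MulAction.stabilizer S _)
        (QuotientAddGroup.eq.1 (Prod.ext_iff.1 e).1) ?_ y.2).trans (by
      rw [Set.ncard_univ, Nat.card_prod]; exact Nat.mul_le_mul h9 h9)
    have : b • _ = _ := QuotientAddGroup.eq.1 (Prod.ext_iff.1 e).2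
    rw [MulAction.mem_stabilizer_iff, mul_smul, mul_smul, smul_add g⁻¹, smul_neg, this, ← smul_neg, ← smul_add,
      smul_inv_smul]
  have i2 : ∀ X ≤ Z, X ≠ ⊥ → (p = 5 ∧ (FixedPoints.addSubgroup X E).index = 81) ∨ p = 13 := fun X a n => by
    obtain ⟨k, c, d⟩ := idxE h3 p3 (zp.to_le a) (V := ⊤) fun _ _ _ _ => trivial
    rw [AddSubgroup.relIndex_top_right] at c
    have l : FixedPoints.addSubgroup Z E ≤ FixedPoints.addSubgroup X E := fun v e (y : X) => e ⟨y, a y.2⟩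
    have : k ≤ 4 := (Nat.pow_le_pow_iff_right (by norm_num)).1 (c ▸ (AddSubgroup.index_antitone l).trans i1 :
      3 ^ k ≤ 3 ^ 4)
    replace d := (Nat.modEq_iff_dvd' (Nat.one_le_pow _ _ (by norm_num))).1 d.symm
    have q : ∀ j r : ℕ, r.Prime → p ∣ 2 ^ j * r → p = r := fun j r e f => (Nat.prime_dvd_prime_iff_eq hp.1 e).1
      (((Nat.Prime.dvd_mul hp.1).1 f).resolve_left fun f =>
        p2 ((Nat.prime_dvd_prime_iff_eq hp.1 Nat.prime_two).1 (hp.1.dvd_of_dvd_pow f)))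
    interval_cases k
    · exact absurd (eq_bot_iff.2 fun y e => eq_of_smul_eq_smul (M := S) (α := E) fun v =>
        ((AddSubgroup.index_eq_one.1 c).ge trivial ⟨y, e⟩).trans (one_smul S v).symm) n
    exacts [absurd (q 0 2 (by norm_num) d) p2, absurd (q 2 2 (by norm_num) d) p2, Or.inr (q 1 13 (by norm_num) d),
      Or.inl ⟨q 4 5 (by norm_num) d, c⟩]
  by_cases n : Z = ⊥
  · exact fun y a => by rw [mem_bot.1 (n.le a)]; exact Commute.one_left b
  obtain ⟨rfl, c⟩ | rfl := i2 Z le_rfl n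
  · haveI : Fact (Nat.Prime 3) := ⟨Nat.prime_three⟩
    let U : SubMulAction Z E := ⟨(FixedPoints.addSubgroup Z E : Set E)ᶜ, fun y v a d => a (by
      have e := d y⁻¹
      rw [inv_smul_smul] at e
      exact e ▸ d)⟩
    have f : Nat.card Z ∣ Nat.card U := Dvd.intro_left _ ((Nat.card_prod _ _).symm.trans (Nat.card_congr
      (MulAction.selfEquivOrbitsQuotientProd fun v => eq_bot_iff.2 fun y a => by_contra fun n => v.2 (by
        have l : zpowers y.1 ≤ Z := zpowers_le.2 y.2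
        have l1 : FixedPoints.addSubgroup Z E ≤ FixedPoints.addSubgroup (zpowers y.1) E := fun v e y => e ⟨y, l y.2⟩
        have d := AddSubgroup.relIndex_mul_index l1
        rw [c, ((i2 _ l fun e => n (Subtype.ext (zpowers_eq_bot.1 e))).resolve_right (by norm_num)).2] at d
        exact (AddSubgroup.relIndex_eq_one (H := FixedPoints.addSubgroup Z E)
          (K := FixedPoints.addSubgroup (zpowers y.1) E)).1 (by omega) fun x : zpowers y.1 => zpowers_le.2
            (show y.1 ∈ MulAction.stabilizer S v.1 from congrArg Subtype.val a) x.2)).symm))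
    obtain ⟨i, e⟩ := card3 h3 (FixedPoints.addSubgroup Z E)
    have d := (FixedPoints.addSubgroup Z E).index_mul_card
    have d1 : Nat.card (FixedPoints.addSubgroup Z E) + Nat.card U = Nat.card E := Set.ncard_add_ncard_compl _
    obtain ⟨j, e1⟩ := zp.exists_card_eq
    rw [c] at d
    rw [show Nat.card U = 16 * 3 ^ i * 5 by omega, e1] at f
    replace f := (Nat.Coprime.pow_left j (Nat.Coprime.mul_right (by norm_num) (Nat.Coprime.pow_right i
      (by norm_num)))).dvd_of_dvd_mul_left f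
    obtain ⟨k, a1, a2⟩ := idxG (p := 3) (by norm_num) (IsPGroup.of_card (n := 1) w.ord) zp zn
    have : 5 ^ k ∣ 5 ^ 1 := (a1 ▸ e1 ▸ relIndex_dvd_card _ _).trans f
    have := (Nat.pow_dvd_pow_iff_le_right (by norm_num)).1 this
    interval_cases k
    · exact fun y a => (relIndex_eq_one.1 a1 a b (mem_zpowers b)).symm
    · exact absurd a2 (by decide)
  · have a : pCore 2 S ≤ centralizer Z := by
      obtain ⟨k, c, d⟩ := idxG (by norm_num) zp (L.pCore_isPGroup 2) le_normalizer_of_normal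
      have : k ≤ 10 := (Nat.pow_le_pow_iff_right (by norm_num)).1 (c ▸ (relIndex_le (fun t => (t * b * t⁻¹ * b⁻¹,
        g⁻¹ * t * g * b * (g⁻¹ * t * g)⁻¹ * b⁻¹)) (s := (Y : Set S) ×ˢ Y) (Set.toFinite _)
        (fun t a => ⟨hT t a, hT _ (Normal.conj_mem' inferInstance _ a g)⟩) fun x _ y _ e =>
          le_centralizer_iff.1 (z1 (centralizer (zpowers (x⁻¹ * y))) ?_ ?_) (mem_zpowers _)).trans (by
            rw [Set.ncard_prod]; exact (Nat.mul_le_mul hY hY).trans (by norm_num)) : 2 ^ k ≤ 2 ^ 10)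
      · interval_cases k <;> first | exact relIndex_eq_one.1 c | exact absurd d (by decide)
      · rintro _ ⟨k, rfl⟩
        refine Commute.zpow_left ?_ k
        have := mul_right_cancel (Prod.ext_iff.1 e).1
        calc _ = x⁻¹ * (y * b * y⁻¹) * y := by group
          _ = _ := by rw [← this]; group
      · rintro _ ⟨k, rfl⟩
        refine Commute.zpow_left ?_ k
        have := mul_right_cancel (Prod.ext_iff.1 e).2
        calc _ = x⁻¹ * g * (g⁻¹ * y * g * b * (g⁻¹ * y * g)⁻¹) * g⁻¹ * y := by group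
          _ = _ := by rw [← this]; group
    have c : Z ≤ centralizer (fittingSubgroup S) := by
      rw [le_centralizer_iff, L.fitting_eq_iSup_pCore]
      refine iSup_le fun ⟨r, hr⟩ => ?_
      haveI := Fact.mk hr
      by_cases r2 : r = 2
      · exact r2 ▸ a
      by_cases r3 : 3 = r
      · subst r3; exact h0.le.trans bot_le
      have : b ∈ centralizer (pCore r S) := fun x a => odd_core h3 w h9 r2 r3 (L.pCore_isPGroup r) a
      exact le_centralizer_iff.1 (z1 _ this (Normal.conj_mem inferInstance _ this g))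
    exact fun y e => odd_core h3 w h9 p2 p3 (L.pCore_isPGroup 13)
      (L.le_pCore_of_le_fitting zp (c.trans L.centralizer_fitting_le) e)
theorem main [Group.IsSolvable S] (h0 : pCore 3 S = ⊥) (hu : u ∈ pPrimeCore 3 S) :
    Con E ⁅pPrimeCore 3 S, zpowers b⁆ (zpowers b) := by
  have cp := L.pPrimeCore_coprime (G := S) 3
  have co : (Nat.card (zpowers b)).Coprime (Nat.card (pPrimeCore 3 S)) := w.ord ▸ cp.symm
  have m := Normal.conj_mem inferInstance _ hu b
  have qn : zpowers b ≤ normalizer (w.Q4 : Set S) := zpowers_le.2 (mem_normalizer_fintype fun g a => by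
    obtain rfl | rfl | rfl | rfl := a
    · simp
    · simp [W.Q4]
    · rw [w.prod]; simp [W.Q4]
    · rw [← w.prod, w.next.prod, w.prod, w.comm.eq, ← mul_assoc, w.ww]; simp [W.Q4])
  obtain ⟨P, p1, p2, p3, p4, p5⟩ := H2.exists_invariant_sylow_ge (p := 2) le_normalizer_of_normal co
    (Or.inr inferInstance) (Q := w.Q4) (by
      rintro _ (rfl | rfl | rfl | rfl)
      exacts [one_mem _, hu, m, mul_mem hu m]) w.qp qn
  have l := H2.commutator_le_left_of_le_normalizer p5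
  have c := two h3 w h9 (p3.to_le l) (H2.commutator_commutator_eq p5 (co.coprime_dvd_right (card_dvd_of_le p2))) (by
    have := commutator_mem_commutator (p1 (show b * u * b⁻¹ ∈ w.Q4 by simp [W.Q4])) (mem_zpowers b)
    rwa [commutatorElement_def, inv_eq_of_mul_eq_one_right w.ww, show b * u * b⁻¹ * b * (b * u * b⁻¹) * b⁻¹ =
      b * u * b⁻¹ * (b * (b * u * b⁻¹) * b⁻¹) by group, w.prod, w.comm.eq, ← mul_assoc, w.ww, one_mul] at this)
  have t : pCore 2 S ≤ P := (le_sup_right.trans (H2.eq_of_le_of_not_dvd_relIndex (p3.to_sup_of_normal_right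
    (L.pCore_isPGroup 2)) (sup_le p2 (L.le_pPrimeCore (L.coprime_of_isPGroup_ne (by norm_num) (L.pCore_isPGroup 2))))
    le_sup_left p4).le)
  have k : ((centralizer (zpowers b : Set S)).relIndex (pPrimeCore 3 S)).Coprime (P.relIndex (pPrimeCore 3 S)) :=
    Nat.Coprime.symm (Nat.coprime_of_dvd fun r hr a d => by
      haveI := Fact.mk hr
      have r2 : r ≠ 2 := fun e => p4 (e ▸ a)
      have r3 : 3 ≠ r := fun e => absurd (cp.symm.eq_one_of_dvd (e.dvd.trans (a.trans (relIndex_dvd_card _ _)))) (by norm_num)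
      obtain ⟨D, d1, d2, d3, d4⟩ := H2.exists_invariant_sylow r le_normalizer_of_normal co (Or.inr inferInstance)
      refine d3 (d.trans (relIndex_dvd_of_le_left _ fun g e => ?_))
      rintro _ ⟨k, rfl⟩
      exact ((odd_syl h3 w h9 h0 (by rcases c.1 with e | e <;> simp [e.2]) (fun t' e =>
        commutator_mem_commutator (t e) (mem_zpowers b)) r2 r3 d2 d4 e).zpow_right k).symm)
  rwa [le_antisymm (commutator_le.2 fun g hg x hx => ?_) (commutator_mono p2 le_rfl)]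
  obtain ⟨s, hs, d, hd, rfl⟩ := H3.exists_mul_of_coprime_relIndex k.symm hg
  rw [commutatorElement_def, mul_assoc s, ← hd.1 x hx, show s * (x * d) * (s * d)⁻¹ * x⁻¹ = s * x * s⁻¹ * x⁻¹ by group]
  exact commutator_mem_commutator hs.1 hx

end Cfsg.Agent.H9.T3
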